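import Mathlib
import Cfsg.Agent.Lib.H17.Mob3

/-! # Sharply 3-transitive groups of odd degree: the field structure on the points -/

set_option autoImplicit false
set_option linter.unusedSectionVars false
set_option linter.style.haveILetI false
set_option linter.unusedSimpArgs false
set_option linter.unusedVariables false

namespace Cfsg.Agent.H22

universe u v

/-- A sharply 3-transitive action of odd degree, with three base points. -/
structure SharpData (G : Type u) (Ω : Type v) [Group G] [MulAction G Ω] where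
  inf : Ω
  o : Ω
  e : Ω
  ho : o ≠ inf
  he : e ≠ inf
  hoe : o ≠ e
  ex : ∀ a b c a' b' c' : Ω, a ≠ b → a ≠ c → b ≠ c → a' ≠ b' → a' ≠ c' → b' ≠ c' →
    ∃ g : G, g • a = a' ∧ g • b = b' ∧ g • c = c'
  uniq : ∀ (g : G) (a b c : Ω), a ≠ b → a ≠ c → b ≠ c → g • a = a → g • b = b → g • c = c → g = 1
  invfix : ∀ g : G, g * g = 1 → g ≠ 1 → ∃! a : Ω, g • a = a

namespace SharpData

variable {G : Type u} {Ω : Type v} [Group G] [MulAction G Ω] (D : SharpData G Ω)

/-- The translations: involutions fixing `∞`, and the identity. -/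
def T : Set G := {g | g • D.inf = D.inf ∧ g * g = 1}

variable {D}

theorem T_fix {g : G} (hg : g ∈ D.T) {x : Ω} (hx : x ≠ D.inf) (h : g • x = x) : g = 1 := by
  by_contra hne
  obtain ⟨a, _, ha⟩ := D.invfix g hg.2 hne
  exact hx ((ha x h).trans (ha _ hg.1).symm)

theorem smul_smul_T {g : G} (hg : g ∈ D.T) (x : Ω) : g • g • x = x := by
  rw [smul_smul, hg.2, one_smul]

theorem T_eq {g g' : G} (hg : g ∈ D.T) (hg' : g' ∈ D.T) {x : Ω} (hx : x ≠ D.inf)
    (h : g • x = g' • x) : g = g' := by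
  by_cases hy : g • x = x
  · rw [T_fix hg hx hy, T_fix hg' hx (h.symm.trans hy)]
  · have hyi : g • x ≠ D.inf := by
      intro h1
      apply hx
      have := congrArg (g • ·) h1
      simp only [smul_smul_T hg, hg.1] at this
      exact this
    have h1 : (g * g') • D.inf = D.inf := by rw [mul_smul, hg'.1, hg.1]
    have h2 : (g * g') • x = x := by rw [mul_smul, ← h, smul_smul_T hg]
    have h3 : (g * g') • (g • x) = g • x := by
      rw [mul_smul, h, smul_smul_T hg']
      exact h
    have h4 := D.uniq (g * g') D.inf x (g • x) hx.symm hyi.symm (Ne.symm hy) h1 h2 h3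
    have h5 : g * g' = g * g := by rw [h4, hg.2]
    exact (mul_left_cancel h5).symm

theorem one_mem_T : (1 : G) ∈ D.T := ⟨one_smul _ _, mul_one _⟩

theorem T_ex {x y : Ω} (hx : x ≠ D.inf) (hy : y ≠ D.inf) : ∃ g ∈ D.T, g • x = y := by
  by_cases hxy : x = y
  · exact ⟨1, one_mem_T, by rw [one_smul, hxy]⟩
  · obtain ⟨g, h1, h2, h3⟩ := D.ex D.inf x y D.inf y x hx.symm hy.symm hxy hy.symm hx.symm (Ne.symm hxy)
    refine ⟨g, ⟨h1, ?_⟩, h2⟩
    refine D.uniq (g * g) D.inf x y hx.symm hy.symm hxy ?_ ?_ ?_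
    · rw [mul_smul, h1, h1]
    · rw [mul_smul, h2, h3]
    · rw [mul_smul, h3, h2]

section Count

variable [Finite G] [Finite Ω]

open Classical in
/-- The counting argument: the translations are exactly the elements fixing `∞` and nothing else. -/
theorem T_of_fpf {g : G} (hg : g • D.inf = D.inf) (hfpf : ∀ x, x ≠ D.inf → g • x ≠ x) : g ∈ D.T := by
  classical
  haveI := Fintype.ofFinite G
  haveI := Fintype.ofFinite Ω
  set X : Finset Ω := Finset.univ.filter (· ≠ D.inf) with hX
  set n := X.card with hn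
  set S : Finset G := Finset.univ.filter (fun g : G => g • D.inf = D.inf) with hS
  have hmemX : ∀ x, x ∈ X ↔ x ≠ D.inf := fun x => by simp [hX]
  have hmemS : ∀ g, g ∈ S ↔ g • D.inf = D.inf := fun g => by simp [hS]
  have hoX : D.o ∈ X := (hmemX _).2 D.ho
  have heX : D.e ∈ X := (hmemX _).2 D.he
  have hsm : ∀ (g : G) {x : Ω}, g • D.inf = D.inf → x ≠ D.inf → g • x ≠ D.inf := by
    intro g x hg hx h
    apply hx
    have := congrArg (g⁻¹ • ·) (h.trans hg.symm)
    simpa using this
  -- |S| = n(n-1)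
  have hcS : S.card = X.offDiag.card := by
    refine Finset.card_bij (fun g _ => (g • D.o, g • D.e)) ?_ ?_ ?_
    · intro g hg
      rw [Finset.mem_offDiag]
      have hg' := (hmemS g).1 hg
      refine ⟨(hmemX _).2 (hsm g hg' D.ho), (hmemX _).2 (hsm g hg' D.he), ?_⟩
      intro h
      exact D.hoe (smul_left_cancel g h)
    · intro g hg g' hg' h
      have h1 := (Prod.ext_iff.mp h).1
      have h2 := (Prod.ext_iff.mp h).2
      simp only at h1 h2
      have h3 : g'⁻¹ * g = 1 := by
        refine D.uniq _ D.inf D.o D.e D.ho.symm D.he.symm D.hoe ?_ ?_ ?_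
        · rw [mul_smul, (hmemS g).1 hg, inv_smul_eq_iff, (hmemS g').1 hg']
        · rw [mul_smul, h1, inv_smul_smul]
        · rw [mul_smul, h2, inv_smul_smul]
      exact (inv_mul_eq_one.mp h3).symm
    · rintro ⟨a, b⟩ hab
      rw [Finset.mem_offDiag] at hab
      obtain ⟨g, h1, h2, h3⟩ := D.ex D.inf D.o D.e D.inf a b D.ho.symm D.he.symm D.hoe
        ((hmemX _).1 hab.1).symm ((hmemX _).1 hab.2.1).symm hab.2.2
      exact ⟨g, (hmemS g).2 h1, by simp [h2, h3]⟩
  rw [Finset.offDiag_card] at hcS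
  -- the stabilizers
  have hcH : ∀ x ∈ X, (S.filter (fun g => g • x = x)).card = n - 1 := by
    intro x hx
    have hx' := (hmemX x).1 hx
    obtain ⟨y, hy, hyx⟩ : ∃ y ∈ X, y ≠ x := by
      by_cases h : x = D.o
      · exact ⟨D.e, heX, by rw [h]; exact D.hoe.symm⟩
      · exact ⟨D.o, hoX, fun h' => h h'.symm⟩
    have hy' := (hmemX y).1 hy
    have h1 : (S.filter (fun g => g • x = x)).card = (X.erase x).card := by
      refine Finset.card_bij (fun g _ => g • y) ?_ ?_ ?_
      · intro g hg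
        rw [Finset.mem_filter] at hg
        have hg1 := (hmemS g).1 hg.1
        rw [Finset.mem_erase]
        refine ⟨?_, (hmemX _).2 (hsm g hg1 hy')⟩
        intro h
        exact hyx (smul_left_cancel g (h.trans hg.2.symm))
      · intro g hg g' hg' h
        rw [Finset.mem_filter] at hg hg'
        have h3 : g'⁻¹ * g = 1 := by
          refine D.uniq _ D.inf x y hx'.symm hy'.symm hyx.symm ?_ ?_ ?_
          · rw [mul_smul, (hmemS g).1 hg.1, inv_smul_eq_iff, (hmemS g').1 hg'.1]
          · rw [mul_smul, hg.2, inv_smul_eq_iff, hg'.2]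
          · have h' : g • y = g' • y := h
            rw [mul_smul, h', inv_smul_smul]
        exact (inv_mul_eq_one.mp h3).symm
      · intro z hz
        rw [Finset.mem_erase] at hz
        obtain ⟨g, h1, h2, h3⟩ := D.ex D.inf x y D.inf x z hx'.symm hy'.symm hyx.symm hx'.symm
          ((hmemX _).1 hz.2).symm (Ne.symm hz.1)
        exact ⟨g, Finset.mem_filter.mpr ⟨(hmemS g).2 h1, h2⟩, h3⟩
    rw [h1, Finset.card_erase_of_mem hx]
  -- double count
  have hdc : ∑ g ∈ S, (X.filter (fun x => g • x = x)).card = n * (n - 1) := by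
    have h1 : ∑ g ∈ S, (X.filter (fun x => g • x = x)).card =
        ∑ x ∈ X, (S.filter (fun g => g • x = x)).card :=
      Finset.sum_card_bipartiteAbove_eq_sum_card_bipartiteBelow _
    rw [h1, Finset.sum_congr rfl hcH, Finset.sum_const, smul_eq_mul]
  -- B: the fixed point free elements
  set B : Finset G := S.filter (fun g => ∀ x, x ≠ D.inf → g • x ≠ x) with hB
  have hle : ∀ g ∈ S.erase 1, (X.filter (fun x => g • x = x)).card ≤ 1 := by
    intro g hg
    rw [Finset.mem_erase] at hg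
    rw [Finset.card_le_one]
    intro a ha b hb
    rw [Finset.mem_filter] at ha hb
    by_contra hab
    exact hg.1 (D.uniq g D.inf a b ((hmemX _).1 ha.1).symm ((hmemX _).1 hb.1).symm hab
      ((hmemS g).1 hg.2) ha.2 hb.2)
  have h1S : (1 : G) ∈ S := (hmemS 1).2 (one_smul _ _)
  have hn2 : 2 ≤ n := by
    have : ({D.o, D.e} : Finset Ω) ⊆ X := by
      intro x hx
      simp only [Finset.mem_insert, Finset.mem_singleton] at hx
      rcases hx with rfl | rfl
      · exact hoX
      · exact heX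
    have h2 := Finset.card_le_card this
    rwa [Finset.card_pair D.hoe] at h2
  have hsumB : (S.erase 1).card = B.card + ∑ g ∈ S.erase 1, (X.filter (fun x => g • x = x)).card := by
    have h1 : B = (S.erase 1).filter (fun g => (X.filter (fun x => g • x = x)).card = 0) := by
      ext g
      constructor
      · intro hg
        obtain ⟨h2, h3⟩ := Finset.mem_filter.mp hg
        have hne : g ≠ 1 := by
          rintro rfl
          exact h3 D.o D.ho (one_smul _ _)
        exact Finset.mem_filter.mpr ⟨Finset.mem_erase.mpr ⟨hne, h2⟩,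
          Finset.card_eq_zero.mpr (Finset.filter_eq_empty_iff.mpr fun x hx => h3 x ((hmemX x).1 hx))⟩
      · intro hg
        obtain ⟨h2, h3⟩ := Finset.mem_filter.mp hg
        have h4 := Finset.mem_erase.mp h2
        have h5 := Finset.filter_eq_empty_iff.mp (Finset.card_eq_zero.mp h3)
        exact Finset.mem_filter.mpr ⟨h4.2, fun x hx => h5 ((hmemX x).2 hx)⟩
    rw [h1, Finset.card_filter, ← Finset.sum_add_distrib, Finset.card_eq_sum_ones]
    refine Finset.sum_congr rfl fun g hg => ?_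
    have := hle g hg
    split_ifs with h
    · rw [h]
    · omega
  have hsplit : ∑ g ∈ S, (X.filter (fun x => g • x = x)).card =
      n + ∑ g ∈ S.erase 1, (X.filter (fun x => g • x = x)).card := by
    rw [← Finset.add_sum_erase S _ h1S]
    congr 1
    have : X.filter (fun x => (1 : G) • x = x) = X := by
      rw [Finset.filter_true_of_mem]
      intro x _
      exact one_smul _ _
    rw [this]
  have hcardB : B.card + 1 = n := by
    rw [← hn] at hcS
    have h2 : (S.erase 1).card = S.card - 1 := Finset.card_erase_of_mem h1S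
    have h3 : n * (n - 1) = n * n - n := by
      rw [Nat.mul_sub_one]
    have h4 : 2 * n ≤ n * n := Nat.mul_le_mul_right n hn2
    omega
  -- The translations different from the identity inject into B, and have n - 1 elements.
  set T' : Finset G := Finset.univ.filter (fun g : G => g ∈ D.T ∧ g ≠ 1) with hT'
  have hT'B : T' ⊆ B := by
    intro g hg
    rw [hT', Finset.mem_filter] at hg
    rw [hB, Finset.mem_filter]
    refine ⟨(hmemS g).2 hg.2.1.1, fun x hx h => hg.2.2 (T_fix hg.2.1 hx h)⟩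
  have hcT' : T'.card = (X.erase D.o).card := by
    refine Finset.card_bij (fun g _ => g • D.o) ?_ ?_ ?_
    · intro g hg
      rw [hT', Finset.mem_filter] at hg
      rw [Finset.mem_erase]
      refine ⟨fun h => hg.2.2 (T_fix hg.2.1 D.ho h), (hmemX _).2 (hsm g hg.2.1.1 D.ho)⟩
    · intro g hg g' hg' h
      rw [hT', Finset.mem_filter] at hg hg'
      exact T_eq hg.2.1 hg'.2.1 D.ho h
    · intro z hz
      rw [Finset.mem_erase] at hz
      obtain ⟨g, hg, hgz⟩ := T_ex (D := D) D.ho ((hmemX _).1 hz.2)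
      refine ⟨g, ?_, hgz⟩
      rw [hT', Finset.mem_filter]
      refine ⟨Finset.mem_univ _, hg, ?_⟩
      rintro rfl
      exact hz.1 (by rw [← hgz, one_smul])
  rw [Finset.card_erase_of_mem hoX] at hcT'
  have heq : T' = B := Finset.eq_of_subset_of_card_le hT'B (by omega)
  have hgB : g ∈ B := by
    rw [hB, Finset.mem_filter]
    exact ⟨(hmemS g).2 hg, hfpf⟩
  rw [← heq, hT', Finset.mem_filter] at hgB
  exact hgB.2.1

theorem T_mul {g g' : G} (hg : g ∈ D.T) (hg' : g' ∈ D.T) : g * g' ∈ D.T := by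
  by_cases heq : g = g'
  · subst heq
    rw [hg.2]
    exact one_mem_T
  refine T_of_fpf ?_ ?_
  · rw [mul_smul, hg'.1, hg.1]
  · intro x hx h
    apply heq
    refine T_eq hg hg' hx ?_
    rw [mul_smul] at h
    have := congrArg (g • ·) h
    simp only [smul_smul_T hg] at this
    exact this.symm

theorem T_comm {g g' : G} (hg : g ∈ D.T) (hg' : g' ∈ D.T) : g * g' = g' * g := by
  have h1 := (T_mul hg hg').2
  have h4 : g⁻¹ = g := inv_eq_of_mul_eq_one_left hg.2
  have h5 : g'⁻¹ = g' := inv_eq_of_mul_eq_one_left hg'.2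
  have h6 : (g * g')⁻¹ = g * g' := inv_eq_of_mul_eq_one_left h1
  rw [mul_inv_rev, h4, h5] at h6
  exact h6.symm

end Count

section Field

variable (D)

/-- The points other than infinity. -/
structure K where
  val : Ω
  ne : val ≠ D.inf

instance : Zero D.K := ⟨⟨D.o, D.ho⟩⟩
instance : One D.K := ⟨⟨D.e, D.he⟩⟩

variable {D}

theorem zero_val : ((0 : D.K)).1 = D.o := rfl
theorem one_val : ((1 : D.K)).1 = D.e := rfl

theorem K_ext {x y : D.K} (h : x.1 = y.1) : x = y := by
  cases x
  cases y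
  simp only at h
  subst h
  rfl

theorem smul_ne_inf {g : G} (hg : g • D.inf = D.inf) {x : Ω} (hx : x ≠ D.inf) : g • x ≠ D.inf := by
  intro h
  apply hx
  have := congrArg (g⁻¹ • ·) (h.trans hg.symm)
  simpa using this

variable (D)

/-- The translation moving `0` to `x`. -/
noncomputable def tr (x : D.K) : G := Classical.choose (T_ex (D := D) D.ho x.2)

variable {D}

theorem tr_mem (x : D.K) : D.tr x ∈ D.T := (Classical.choose_spec (T_ex (D := D) D.ho x.2)).1

theorem tr_smul_o (x : D.K) : D.tr x • D.o = x.1 := (Classical.choose_spec (T_ex (D := D) D.ho x.2)).2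

theorem tr_eq {g : G} (hg : g ∈ D.T) (x : D.K) (h : g • D.o = x.1) : g = D.tr x :=
  T_eq hg (tr_mem x) D.ho (h.trans (tr_smul_o x).symm)

theorem tr_zero : D.tr 0 = 1 := (tr_eq one_mem_T 0 (one_smul _ _)).symm

variable (D)

/-- Addition. -/
noncomputable def addK (x y : D.K) : D.K := ⟨D.tr x • y.1, smul_ne_inf (tr_mem x).1 y.2⟩

/-- The stabilizer of `∞` and `0`. -/
def H : Subgroup G where
  carrier := {g | g • D.inf = D.inf ∧ g • D.o = D.o}
  mul_mem' := by
    rintro a b ⟨h1, h2⟩ ⟨h3, h4⟩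
    exact ⟨by rw [mul_smul, h3, h1], by rw [mul_smul, h4, h2]⟩
  one_mem' := ⟨one_smul _ _, one_smul _ _⟩
  inv_mem' := by
    rintro a ⟨h1, h2⟩
    exact ⟨by rw [inv_smul_eq_iff, h1], by rw [inv_smul_eq_iff, h2]⟩

variable {D}

theorem mem_H {g : G} : g ∈ D.H ↔ g • D.inf = D.inf ∧ g • D.o = D.o := Iff.rfl

theorem H_eq {g g' : G} (hg : g ∈ D.H) (hg' : g' ∈ D.H) {x : Ω} (hx : x ≠ D.inf) (hxo : x ≠ D.o)
    (h : g • x = g' • x) : g = g' := by
  have h3 : g'⁻¹ * g = 1 := by
    refine D.uniq _ D.inf D.o x D.ho.symm hx.symm hxo.symm ?_ ?_ ?_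
    · rw [mul_smul, hg.1, inv_smul_eq_iff, hg'.1]
    · rw [mul_smul, hg.2, inv_smul_eq_iff, hg'.2]
    · rw [mul_smul, h, inv_smul_smul]
  exact (inv_mul_eq_one.mp h3).symm

theorem exists_mu (a : D.K) (ha : a ≠ 0) : ∃ g : G, g ∈ D.H ∧ g • D.e = a.1 := by
  have ha' : a.1 ≠ D.o := fun h => ha (K_ext h)
  obtain ⟨g, h1, h2, h3⟩ := D.ex D.inf D.o D.e D.inf D.o a.1 D.ho.symm D.he.symm D.hoe D.ho.symm
    a.2.symm ha'.symm
  exact ⟨g, ⟨h1, h2⟩, h3⟩

variable (D)

open Classical in
/-- The multiplication by `a`. -/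
noncomputable def mu (a : D.K) : G := if h : a = 0 then 1 else Classical.choose (exists_mu a h)

variable {D}

theorem mu_mem (a : D.K) : D.mu a ∈ D.H := by
  unfold mu
  split_ifs with h
  · exact D.H.one_mem
  · exact (Classical.choose_spec (exists_mu a h)).1

theorem mu_smul_e {a : D.K} (ha : a ≠ 0) : D.mu a • D.e = a.1 := by
  unfold mu
  rw [dif_neg ha]
  exact (Classical.choose_spec (exists_mu a ha)).2

theorem mu_zero : D.mu (0 : D.K) = 1 := by
  unfold mu
  rw [dif_pos rfl]

theorem mu_eq {g : G} (hg : g ∈ D.H) {a : D.K} (ha : a ≠ 0) (h : g • D.e = a.1) : g = D.mu a :=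
  H_eq hg (mu_mem a) D.he D.hoe.symm (h.trans (mu_smul_e ha).symm)

theorem mu_one : D.mu (1 : D.K) = 1 := by
  have h10 : (1 : D.K) ≠ 0 := fun h => D.hoe (congrArg K.val h).symm
  exact (mu_eq D.H.one_mem h10 (one_smul _ _)).symm

theorem H_smul_ne_o {g : G} (hg : g ∈ D.H) {x : Ω} (hx : x ≠ D.o) : g • x ≠ D.o := by
  intro h
  apply hx
  have := congrArg (g⁻¹ • ·) (h.trans hg.2.symm)
  simpa using this

variable (D)

open Classical in
/-- Multiplication. -/
noncomputable def mulK (a b : D.K) : D.K :=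
  if a = 0 then 0 else ⟨D.mu a • b.1, smul_ne_inf (mu_mem a).1 b.2⟩

theorem exists_t : ∃ t : G, t • D.inf = D.o ∧ t • D.o = D.inf ∧ t • D.e = D.e := by
  exact D.ex D.inf D.o D.e D.o D.inf D.e D.ho.symm D.he.symm D.hoe D.ho D.hoe D.he.symm

/-- The inversion. -/
noncomputable def t : G := Classical.choose D.exists_t

variable {D}

theorem t_inf : D.t • D.inf = D.o := (Classical.choose_spec D.exists_t).1
theorem t_o : D.t • D.o = D.inf := (Classical.choose_spec D.exists_t).2.1
theorem t_e : D.t • D.e = D.e := (Classical.choose_spec D.exists_t).2.2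

theorem t_mul_t : D.t * D.t = 1 := by
  refine D.uniq _ D.inf D.o D.e D.ho.symm D.he.symm D.hoe ?_ ?_ ?_
  · rw [mul_smul, t_inf, t_o]
  · rw [mul_smul, t_o, t_inf]
  · rw [mul_smul, t_e, t_e]

theorem t_ne_one : D.t ≠ 1 := by
  intro h
  have := t_inf (D := D)
  rw [h, one_smul] at this
  exact D.ho this.symm

theorem t_fix {x : Ω} (h : D.t • x = x) : x = D.e := by
  obtain ⟨a, _, ha⟩ := D.invfix D.t t_mul_t t_ne_one
  exact (ha x h).trans (ha _ t_e).symm

theorem t_conj_mem {h : G} (hh : h ∈ D.H) : D.t * h * D.t ∈ D.H := by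
  constructor
  · rw [mul_smul, mul_smul, t_inf, hh.2, t_o]
  · rw [mul_smul, mul_smul, t_o, hh.1, t_inf]

theorem t_inv_eq : D.t⁻¹ = D.t := inv_eq_of_mul_eq_one_left t_mul_t

theorem comm_t_H {u : G} (hu : u ∈ D.H) (h : D.t * u = u * D.t) : u = 1 := by
  have h1 : D.t • (u • D.e) = u • D.e := by
    rw [smul_smul, h, mul_smul, t_e]
  have h2 := t_fix h1
  exact D.uniq u D.inf D.o D.e D.ho.symm D.he.symm D.hoe hu.1 hu.2 h2

theorem H_inv [Finite G] {u : G} (hu : u ∈ D.H) : D.t * u * D.t = u⁻¹ := by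
  set t := D.t with ht
  have htt : t * t = 1 := t_mul_t
  have hti : t⁻¹ = t := t_inv_eq
  have hmem : ∀ h ∈ D.H, t * h * t⁻¹ ∈ D.H := fun h hh => by
    rw [hti]
    exact t_conj_mem hh
  let c : D.H → D.H := fun h => ⟨(h : G)⁻¹ * (t * h * t⁻¹), D.H.mul_mem (D.H.inv_mem h.2) (hmem _ h.2)⟩
  have hinj : Function.Injective c := by
    intro h k hc
    have h1 : (h : G)⁻¹ * (t * h * t⁻¹) = (k : G)⁻¹ * (t * k * t⁻¹) := congrArg Subtype.val hc
    have h2 : (k : G) * (h : G)⁻¹ ∈ D.H := D.H.mul_mem k.2 (D.H.inv_mem h.2)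
    have h3 : (k : G) * (h : G)⁻¹ = t * ((k : G) * (h : G)⁻¹) * t⁻¹ := by
      calc (k : G) * (h : G)⁻¹ = k * ((h : G)⁻¹ * (t * h * t⁻¹)) * (t * h * t⁻¹)⁻¹ := by group
        _ = k * ((k : G)⁻¹ * (t * k * t⁻¹)) * (t * h * t⁻¹)⁻¹ := by rw [h1]
        _ = _ := by group
    have h4 : t * ((k : G) * (h : G)⁻¹) = ((k : G) * (h : G)⁻¹) * t := by
      calc t * ((k : G) * (h : G)⁻¹) = (t * ((k : G) * (h : G)⁻¹) * t⁻¹) * t := by group
        _ = _ := by rw [← h3]
    have h8 := comm_t_H h2 h4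
    apply Subtype.ext
    exact (mul_inv_eq_one.mp h8).symm
  have hsurj := Finite.injective_iff_surjective.mp hinj
  obtain ⟨h, hh⟩ := hsurj ⟨u, hu⟩
  have h1 : u = (h : G)⁻¹ * (t * h * t⁻¹) := (congrArg Subtype.val hh).symm
  have h2 : t * u * t⁻¹ = u⁻¹ := by
    calc t * u * t⁻¹ = (t * (h : G)⁻¹ * t⁻¹) * ((t * t) * h * (t * t)⁻¹) := by rw [h1]; group
      _ = (t * (h : G)⁻¹ * t⁻¹) * h := by rw [htt]; group
      _ = u⁻¹ := by rw [h1]; group
  rw [hti] at h2
  exact h2

theorem H_comm [Finite G] {g h : G} (hg : g ∈ D.H) (hh : h ∈ D.H) : g * h = h * g := by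
  have h1 := H_inv (D.H.mul_mem hg hh)
  have h2 : D.t * (g * h) * D.t = (D.t * g * D.t) * (D.t * h * D.t) := by
    calc D.t * (g * h) * D.t = D.t * g * 1 * h * D.t := by group
      _ = D.t * g * (D.t * D.t) * h * D.t := by rw [t_mul_t]
      _ = _ := by group
  rw [h2, H_inv hg, H_inv hh, mul_inv_rev] at h1
  have h3 : (g⁻¹ * h⁻¹)⁻¹ = (h⁻¹ * g⁻¹)⁻¹ := by rw [h1]
  exact (by simpa using h3 : h * g = g * h).symm

/-! The algebra of the operations -/

theorem addK_val (x y : D.K) : (D.addK x y).1 = D.tr x • y.1 := rfl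

variable [Finite G] [Finite Ω]

theorem tr_addK (x y : D.K) : D.tr (D.addK x y) = D.tr x * D.tr y := by
  refine (tr_eq (T_mul (tr_mem x) (tr_mem y)) _ ?_).symm
  rw [mul_smul, tr_smul_o, addK_val]

theorem addK_comm (x y : D.K) : D.addK x y = D.addK y x := by
  apply K_ext
  show D.tr x • y.1 = D.tr y • x.1
  calc D.tr x • y.1 = D.tr x • (D.tr y • D.o) := by rw [tr_smul_o]
    _ = (D.tr x * D.tr y) • D.o := by rw [mul_smul]
    _ = (D.tr y * D.tr x) • D.o := by rw [T_comm (tr_mem x) (tr_mem y)]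
    _ = D.tr y • (D.tr x • D.o) := by rw [mul_smul]
    _ = _ := by rw [tr_smul_o]

theorem addK_assoc (x y z : D.K) : D.addK (D.addK x y) z = D.addK x (D.addK y z) := by
  apply K_ext
  rw [addK_val, tr_addK, mul_smul]
  rfl

theorem zero_addK (x : D.K) : D.addK 0 x = x := by
  apply K_ext
  rw [addK_val, tr_zero, one_smul]

theorem addK_zero (x : D.K) : D.addK x 0 = x := by
  apply K_ext
  rw [addK_val, zero_val, tr_smul_o]

theorem addK_self (x : D.K) : D.addK x x = 0 := by
  apply K_ext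
  rw [addK_val, zero_val, ← tr_smul_o x, smul_smul_T (tr_mem x)]

theorem mulK_zero_left (b : D.K) : D.mulK 0 b = 0 := by
  unfold mulK
  split_ifs with h
  · rfl
  · exact absurd rfl h

theorem mulK_of_ne {a : D.K} (ha : a ≠ 0) (b : D.K) : (D.mulK a b).1 = D.mu a • b.1 := by
  unfold mulK
  split_ifs with h
  · exact absurd h ha
  · rfl

theorem mulK_zero_right (a : D.K) : D.mulK a 0 = 0 := by
  by_cases ha : a = 0
  · rw [ha, mulK_zero_left]
  · apply K_ext
    rw [mulK_of_ne ha, zero_val]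
    exact (mu_mem a).2

theorem mulK_ne_zero {a b : D.K} (ha : a ≠ 0) (hb : b ≠ 0) : D.mulK a b ≠ 0 := by
  intro h
  have h1 := congrArg K.val h
  rw [mulK_of_ne ha, zero_val] at h1
  exact H_smul_ne_o (mu_mem a) (fun h' => hb (K_ext h')) h1

theorem mu_mulK {a b : D.K} (ha : a ≠ 0) (hb : b ≠ 0) : D.mu (D.mulK a b) = D.mu a * D.mu b := by
  refine (mu_eq (D.H.mul_mem (mu_mem a) (mu_mem b)) (mulK_ne_zero ha hb) ?_).symm
  rw [mul_smul, mu_smul_e hb, mulK_of_ne ha]

theorem mulK_comm (a b : D.K) : D.mulK a b = D.mulK b a := by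
  by_cases ha : a = 0
  · rw [ha, mulK_zero_left, mulK_zero_right]
  by_cases hb : b = 0
  · rw [hb, mulK_zero_left, mulK_zero_right]
  apply K_ext
  rw [mulK_of_ne ha, mulK_of_ne hb]
  conv_lhs => rw [← mu_smul_e hb, smul_smul, H_comm (mu_mem a) (mu_mem b), mul_smul, mu_smul_e ha]

theorem mulK_assoc (a b c : D.K) : D.mulK (D.mulK a b) c = D.mulK a (D.mulK b c) := by
  by_cases ha : a = 0
  · rw [ha, mulK_zero_left, mulK_zero_left, mulK_zero_left]
  by_cases hb : b = 0
  · rw [hb, mulK_zero_right, mulK_zero_left, mulK_zero_right]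
  apply K_ext
  rw [mulK_of_ne (mulK_ne_zero ha hb), mu_mulK ha hb, mul_smul, mulK_of_ne ha, mulK_of_ne hb]

theorem one_mulK (b : D.K) : D.mulK 1 b = b := by
  have h10 : (1 : D.K) ≠ 0 := fun h => D.hoe (congrArg K.val h).symm
  apply K_ext
  rw [mulK_of_ne h10, mu_one, one_smul]

theorem mulK_one (a : D.K) : D.mulK a 1 = a := by
  rw [mulK_comm, one_mulK]

theorem tr_conj {a : D.K} (ha : a ≠ 0) (x : D.K) : D.mu a * D.tr x * (D.mu a)⁻¹ = D.tr (D.mulK a x) := by
  refine tr_eq ⟨?_, ?_⟩ _ ?_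
  · rw [mul_smul, mul_smul, inv_smul_eq_iff.mpr (mu_mem a).1.symm, (tr_mem x).1, (mu_mem a).1]
  · have h1 := (tr_mem x).2
    have hinv : (D.mu a)⁻¹ * D.mu a = 1 := inv_mul_cancel _
    calc D.mu a * D.tr x * (D.mu a)⁻¹ * (D.mu a * D.tr x * (D.mu a)⁻¹)
        = D.mu a * (D.tr x * D.tr x) * (D.mu a)⁻¹ := by group
      _ = 1 := by rw [h1]; group
  · have h2 : (D.mu a)⁻¹ • D.o = D.o := inv_smul_eq_iff.mpr (mu_mem a).2.symm
    rw [mul_smul, mul_smul, h2, tr_smul_o, mulK_of_ne ha]

theorem mulK_addK (a x y : D.K) : D.mulK a (D.addK x y) = D.addK (D.mulK a x) (D.mulK a y) := by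
  by_cases ha : a = 0
  · rw [ha, mulK_zero_left, mulK_zero_left, mulK_zero_left, zero_addK]
  apply K_ext
  rw [mulK_of_ne ha, addK_val, addK_val, mulK_of_ne ha, ← tr_conj ha]
  simp only [mul_smul, inv_smul_smul]


noncomputable instance instAdd : Add D.K := ⟨D.addK⟩
noncomputable instance instNeg : Neg D.K := ⟨id⟩
noncomputable instance instMul : Mul D.K := ⟨D.mulK⟩

/-- The additive group of the points. -/
noncomputable instance instAddCommGroup : AddCommGroup D.K where
  add_assoc := addK_assoc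
  zero_add := zero_addK
  add_zero := addK_zero
  nsmul := nsmulRec
  zsmul := zsmulRec
  neg_add_cancel := addK_self
  add_comm := addK_comm

/-- The ring structure of the points. -/
noncomputable instance instCommRing : CommRing D.K where
  left_distrib := mulK_addK
  right_distrib := fun a b c => by
    show D.mulK (D.addK a b) c = D.addK (D.mulK a c) (D.mulK b c)
    rw [mulK_comm, mulK_addK, mulK_comm c a, mulK_comm c b]
  zero_mul := mulK_zero_left
  mul_zero := mulK_zero_right
  mul_assoc := mulK_assoc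
  one_mul := one_mulK
  mul_one := mulK_one
  mul_comm := mulK_comm

theorem add_val (x y : D.K) : (x + y).1 = D.tr x • y.1 := rfl

theorem mul_def (a b : D.K) : a * b = D.mulK a b := rfl

theorem add_self' (x : D.K) : x + x = 0 := addK_self x

theorem one_ne_zero' : (1 : D.K) ≠ 0 := fun h => D.hoe (congrArg K.val h).symm

theorem isUnit_or (a : D.K) : IsUnit a ∨ a = 0 := by
  by_cases ha : a = 0
  · exact Or.inr ha
  left
  refine IsUnit.of_mul_eq_one (⟨(D.mu a)⁻¹ • D.e, ?_⟩ : D.K) ?_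
  · exact smul_ne_inf (D.H.inv_mem (mu_mem a)).1 D.he
  · apply K_ext
    rw [mul_def, mulK_of_ne ha]
    simp [one_val]

noncomputable instance instNontrivial : Nontrivial D.K := ⟨⟨1, 0, one_ne_zero'⟩⟩

/-- The field of the points. -/
noncomputable instance instField : Field D.K := Field.ofIsUnitOrEqZero isUnit_or

theorem mul_val_of_ne {a : D.K} (ha : a ≠ 0) (b : D.K) : (a * b).1 = D.mu a • b.1 := mulK_of_ne ha b

theorem t_val {x : D.K} (hx : x ≠ 0) : D.t • x.1 = (x⁻¹).1 := by
  have h1 : D.t • x.1 = (D.mu x)⁻¹ • D.e := by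
    calc D.t • x.1 = D.t • (D.mu x • D.e) := by rw [mu_smul_e hx]
      _ = (D.t * D.mu x * D.t) • (D.t • D.e) := by
        rw [smul_smul, smul_smul, mul_assoc (D.t * D.mu x) D.t D.t, t_mul_t, mul_one]
      _ = (D.mu x)⁻¹ • D.e := by rw [H_inv (mu_mem x), t_e]
  have h3 : x * (⟨(D.mu x)⁻¹ • D.e, smul_ne_inf (D.H.inv_mem (mu_mem x)).1 D.he⟩ : D.K) = 1 := by
    apply K_ext
    rw [mul_val_of_ne hx]
    simp [one_val]
  have h4 := eq_inv_of_mul_eq_one_right h3
  rw [h1, ← h4]

open scoped Classical in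
/-- The two points `0` and `1` of the field. -/
noncomputable instance instDec : DecidableEq D.K := Classical.decEq _

open OnePoint Matrix Cfsg.Agent.H17.Mob
open scoped MatrixGroups

variable (D)

open Classical in
/-- The identification of the points with the projective line. -/
noncomputable def phi : Ω ≃ OnePoint D.K where
  toFun ω := if h : ω = D.inf then ∞ else ((⟨ω, h⟩ : D.K) : OnePoint D.K)
  invFun z := z.elim D.inf K.val
  left_inv ω := by
    by_cases h : ω = D.inf
    · simp [h]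
    · simp [h]
  right_inv z := by
    induction z using OnePoint.rec with
    | infty => simp
    | coe x =>
      exact dif_neg x.2

variable {D}

theorem phi_inf : D.phi D.inf = ∞ := by
  exact dif_pos rfl

theorem phi_val (x : D.K) : D.phi x.1 = (x : OnePoint D.K) := by
  exact dif_neg x.2

theorem charTwo_self (x : D.K) : -x = x := rfl

/-- The translations are Moebius. -/
noncomputable def slTr (c : D.K) : SpecialLinearGroup (Fin 2) D.K :=
  ⟨!![1, c; 0, 1], by simp [det_fin_two]⟩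

theorem phi_tr (c : D.K) (ω : Ω) : D.phi (D.tr c • ω) = slPerm D.K (slTr c) (D.phi ω) := by
  by_cases h : ω = D.inf
  · subst h
    rw [(tr_mem c).1, phi_inf, slPerm_infty]
    simp [slTr]
  · have h1 : D.phi ω = ((⟨ω, h⟩ : D.K) : OnePoint D.K) := phi_val ⟨ω, h⟩
    rw [h1, slPerm_coe]
    have h2 : D.tr c • ω = (c + ⟨ω, h⟩ : D.K).1 := rfl
    rw [h2, phi_val]
    simp [slTr, add_comm]

instance instFiniteK : Finite D.K :=
  Finite.of_injective K.val (fun x y h => K_ext h)

theorem ringChar_K : ringChar D.K = 2 := by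
  have h1 : ((2 : ℕ) : D.K) = 0 := by
    rw [Nat.cast_ofNat, ← one_add_one_eq_two]
    exact add_self' 1
  have h2 := ringChar.dvd h1
  rcases (Nat.prime_two.eq_one_or_self_of_dvd _ h2) with h | h
  · exact absurd h (CharP.ringChar_ne_one)
  · exact h

theorem phi_mu (a : D.K) (ha : a ≠ 0) : ∃ A : SpecialLinearGroup (Fin 2) D.K, ∀ ω : Ω,
    D.phi (D.mu a • ω) = slPerm D.K A (D.phi ω) := by
  obtain ⟨b, hb⟩ := FiniteField.isSquare_of_char_two (F := D.K) ringChar_K a
  have hb0 : b ≠ 0 := by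
    rintro rfl
    apply ha
    rw [hb, mul_zero]
  refine ⟨slUp b (0 / b) hb0, fun ω => ?_⟩
  by_cases h : ω = D.inf
  · subst h
    rw [(mu_mem a).1, phi_inf, slPerm_up]
  · have h1 : D.phi ω = ((⟨ω, h⟩ : D.K) : OnePoint D.K) := phi_val ⟨ω, h⟩
    rw [h1, slPerm_up_coe]
    have h2 : D.mu a • ω = (a * ⟨ω, h⟩ : D.K).1 := (mul_val_of_ne ha (⟨ω, h⟩ : D.K)).symm
    rw [h2, phi_val, hb]
    congr 2
    ring

theorem phi_t (ω : Ω) : D.phi (D.t • ω) = slPerm D.K (slAnti 1 one_ne_zero) (D.phi ω) := by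
  by_cases h : ω = D.inf
  · subst h
    rw [t_inf, phi_inf, slPerm_anti]
    exact phi_val (0 : D.K)
  · have h1 : D.phi ω = ((⟨ω, h⟩ : D.K) : OnePoint D.K) := phi_val ⟨ω, h⟩
    rw [h1]
    by_cases h0 : (⟨ω, h⟩ : D.K) = 0
    · rw [h0, slPerm_anti_zero]
      have h2 : ω = D.o := congrArg K.val h0
      rw [h2, t_o, phi_inf]
    · rw [slPerm_anti_coe _ _ _ h0]
      have h2 := t_val h0
      simp only at h2
      rw [h2, phi_val]
      congr 1
      have h3 : ∀ y : D.K, -y = y := charTwo_self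
      rw [h3, one_pow, one_div]

/-- The elements of `G` are Moebius. -/
theorem exists_sl (g : G) : ∃ A : SpecialLinearGroup (Fin 2) D.K, ∀ ω : Ω,
    D.phi (g • ω) = slPerm D.K A (D.phi ω) := by
  have hfix : ∀ g : G, g • D.inf = D.inf → ∃ A : SpecialLinearGroup (Fin 2) D.K, ∀ ω : Ω,
      D.phi (g • ω) = slPerm D.K A (D.phi ω) := by
    intro g hg
    let c : D.K := ⟨g • D.o, smul_ne_inf hg D.ho⟩
    set h := (D.tr c)⁻¹ * g with hh
    have hinv : (D.tr c)⁻¹ = D.tr c := inv_eq_of_mul_eq_one_left (tr_mem c).2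
    have hH : h ∈ D.H := by
      constructor
      · rw [hh, mul_smul, hg, inv_smul_eq_iff, (tr_mem c).1]
      · rw [hh, mul_smul, inv_smul_eq_iff, tr_smul_o]
    have hg' : g = D.tr c * h := by rw [hh]; group
    have hne : ∃ a : D.K, a ≠ 0 ∧ h = D.mu a := by
      let a : D.K := ⟨h • D.e, smul_ne_inf hH.1 D.he⟩
      have ha : a ≠ 0 := by
        intro h0
        have h1 := congrArg K.val h0
        exact H_smul_ne_o hH D.hoe.symm h1
      exact ⟨a, ha, mu_eq hH ha rfl⟩
    obtain ⟨a, ha, hma⟩ := hne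
    obtain ⟨A, hA⟩ := phi_mu a ha
    refine ⟨slTr c * A, fun ω => ?_⟩
    rw [hg', hma, mul_smul, phi_tr, hA, map_mul, Equiv.Perm.mul_apply]
  by_cases hg : g • D.inf = D.inf
  · exact hfix g hg
  let y : D.K := ⟨g • D.inf, hg⟩
  set g' := (D.tr y * D.t)⁻¹ * g with hg'
  have h1 : g' • D.inf = D.inf := by
    rw [hg', mul_smul, inv_smul_eq_iff, mul_smul, t_inf, tr_smul_o]
  obtain ⟨A, hA⟩ := hfix g' h1
  refine ⟨slTr y * slAnti 1 one_ne_zero * A, fun ω => ?_⟩
  have h2 : g = D.tr y * D.t * g' := by rw [hg']; group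
  rw [h2, mul_smul, mul_smul, phi_tr, phi_t, hA, map_mul, map_mul, Equiv.Perm.mul_apply,
    Equiv.Perm.mul_apply]

/-- An element of `SL₂` fixing `∞, 0, 1` is trivial. -/
theorem sl_fix_eq_one (A : SpecialLinearGroup (Fin 2) D.K) (h1 : slPerm D.K A ∞ = ∞)
    (h2 : slPerm D.K A ((0 : D.K) : OnePoint D.K) = ((0 : D.K) : OnePoint D.K))
    (h3 : slPerm D.K A ((1 : D.K) : OnePoint D.K) = ((1 : D.K) : OnePoint D.K)) : A = 1 := by
  rw [slPerm_infty] at h1
  have hc : A.1 1 0 = 0 := by
    by_contra hcon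
    rw [if_neg hcon] at h1
    exact OnePoint.coe_ne_infty _ h1
  rw [slPerm_coe] at h2 h3
  simp only [hc, zero_mul, zero_add, mul_zero, mul_one, add_zero] at h2 h3
  have hd : A.1 1 1 ≠ 0 := by
    intro hd
    rw [if_pos hd] at h2
    exact OnePoint.infty_ne_coe _ h2
  rw [if_neg hd] at h2 h3
  have e2 := OnePoint.coe_injective h2
  have e3 := OnePoint.coe_injective h3
  rw [div_eq_zero_iff] at e2
  have hb : A.1 0 1 = 0 := e2.resolve_right hd
  rw [hb, add_zero, div_eq_one_iff_eq hd] at e3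
  have hdet := A.2
  rw [det_fin_two, hb, hc, zero_mul, sub_zero, e3] at hdet
  have h4 : (A.1 1 1 + 1) * (A.1 1 1 + 1) = 0 := by
    have h5 : ∀ y : D.K, y + y = 0 := add_self'
    have h6 : (A.1 1 1 + 1) * (A.1 1 1 + 1) = A.1 1 1 * A.1 1 1 + (A.1 1 1 + A.1 1 1) + 1 := by ring
    rw [h6, hdet, h5, add_zero, h5]
  have h7 : A.1 1 1 + 1 = 0 := by
    rcases mul_eq_zero.mp h4 with h | h <;> exact h
  have h8 : A.1 1 1 = 1 := by
    have h9 := add_self' (1 : D.K)
    have : A.1 1 1 + 1 = 1 + 1 := by rw [h7, h9]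
    exact add_right_cancel this
  apply Subtype.ext
  ext i j
  fin_cases i <;> fin_cases j
  · simp [e3, h8]
  · simp [hb]
  · simp [hc]
  · simp [h8]

theorem sl_injective (A B : SpecialLinearGroup (Fin 2) D.K) (h : slPerm D.K A = slPerm D.K B) : A = B := by
  have h1 : slPerm D.K (B⁻¹ * A) = 1 := by
    rw [map_mul, h, map_inv, inv_mul_cancel]
  have h2 := sl_fix_eq_one (D := D) (B⁻¹ * A) (by rw [h1]; rfl) (by rw [h1]; rfl) (by rw [h1]; rfl)
  exact (inv_mul_eq_one.mp h2).symm

variable (D)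

/-- The action on the projective line. -/
noncomputable def theta : G →* Equiv.Perm (OnePoint D.K) where
  toFun g := D.phi.symm.trans ((MulAction.toPerm g).trans D.phi)
  map_one' := by
    ext z
    simp
  map_mul' a b := by
    ext z
    simp [mul_smul]

variable {D}

theorem theta_apply (g : G) (ω : Ω) : D.theta g (D.phi ω) = D.phi (g • ω) := by
  show D.phi (g • D.phi.symm (D.phi ω)) = _
  rw [Equiv.symm_apply_apply]

theorem theta_eq_sl {g : G} {A : SpecialLinearGroup (Fin 2) D.K}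
    (h : ∀ ω : Ω, D.phi (g • ω) = slPerm D.K A (D.phi ω)) : D.theta g = slPerm D.K A := by
  ext z
  obtain ⟨ω, rfl⟩ := D.phi.surjective z
  rw [theta_apply, h]

theorem theta_injective (hfaith : ∀ g : G, (∀ ω : Ω, g • ω = ω) → g = 1) :
    Function.Injective D.theta := by
  rw [injective_iff_map_eq_one]
  intro g hg
  refine hfaith g fun ω => ?_
  have := theta_apply (D := D) g ω
  rw [hg] at this
  exact D.phi.injective this.symm

theorem range_eq : D.theta.range = (slPerm D.K).range := by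
  ext p
  constructor
  · rintro ⟨g, rfl⟩
    obtain ⟨A, hA⟩ := exists_sl (D := D) g
    exact ⟨A, (theta_eq_sl hA).symm⟩
  · rintro ⟨A, rfl⟩
    -- matching three points
    set a := D.phi.symm (slPerm D.K A ∞) with ha
    set b := D.phi.symm (slPerm D.K A ((0 : D.K) : OnePoint D.K)) with hb
    set c := D.phi.symm (slPerm D.K A ((1 : D.K) : OnePoint D.K)) with hc
    have hinf0 : (∞ : OnePoint D.K) ≠ ((0 : D.K) : OnePoint D.K) := OnePoint.infty_ne_coe _
    have hinf1 : (∞ : OnePoint D.K) ≠ ((1 : D.K) : OnePoint D.K) := OnePoint.infty_ne_coe _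
    have h01 : ((0 : D.K) : OnePoint D.K) ≠ ((1 : D.K) : OnePoint D.K) := by
      intro h
      exact one_ne_zero' (OnePoint.coe_injective h).symm
    have hab : a ≠ b := fun h => hinf0 ((slPerm D.K A).injective (D.phi.symm.injective h))
    have hac : a ≠ c := fun h => hinf1 ((slPerm D.K A).injective (D.phi.symm.injective h))
    have hbc : b ≠ c := fun h => h01 ((slPerm D.K A).injective (D.phi.symm.injective h))
    obtain ⟨g, h1, h2, h3⟩ := D.ex D.inf D.o D.e a b c D.ho.symm D.he.symm D.hoe hab hac hbc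
    obtain ⟨B, hB⟩ := exists_sl (D := D) g
    have hBA : slPerm D.K A = slPerm D.K B := by
      have hi : slPerm D.K (B⁻¹ * A) = 1 := by
        have : B⁻¹ * A = 1 := by
          refine sl_fix_eq_one (D := D) (B⁻¹ * A) ?_ ?_ ?_
          · rw [map_mul, Equiv.Perm.mul_apply, map_inv, Equiv.Perm.inv_eq_iff_eq, ← phi_inf, ← hB, h1,
              ha, Equiv.apply_symm_apply, phi_inf]
          · have h0 : ((0 : D.K) : OnePoint D.K) = D.phi D.o := (phi_val (0 : D.K)).symm
            rw [map_mul, Equiv.Perm.mul_apply, map_inv, Equiv.Perm.inv_eq_iff_eq, h0, ← hB, h2, hb,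
              Equiv.apply_symm_apply, h0]
          · have h0 : ((1 : D.K) : OnePoint D.K) = D.phi D.e := (phi_val (1 : D.K)).symm
            rw [map_mul, Equiv.Perm.mul_apply, map_inv, Equiv.Perm.inv_eq_iff_eq, h0, ← hB, h3, hc,
              Equiv.apply_symm_apply, h0]
        rw [this, map_one]
      rw [map_mul, map_inv, inv_mul_eq_one] at hi
      exact hi.symm
    rw [hBA]
    exact ⟨g, theta_eq_sl hB⟩

/-- **The recognition theorem.** -/
theorem nonempty_mulEquiv (hfaith : ∀ g : G, (∀ ω : Ω, g • ω = ω) → g = 1) :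
    Nonempty (G ≃* SpecialLinearGroup (Fin 2) D.K) := by
  have hinj : Function.Injective (slPerm D.K : SpecialLinearGroup (Fin 2) D.K → _) :=
    fun A B h => sl_injective A B h
  exact ⟨(MonoidHom.ofInjective (theta_injective hfaith)).trans
    ((MulEquiv.subgroupCongr range_eq).trans (MonoidHom.ofInjective hinj).symm)⟩

end Field

end SharpData

open Matrix in
/-- Transporting `SL₂` along a ring isomorphism. -/
theorem nonempty_sl_congr {K F : Type*} [CommRing K] [CommRing F] (e : K ≃+* F) :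
    Nonempty (SpecialLinearGroup (Fin 2) K ≃* SpecialLinearGroup (Fin 2) F) := by
  refine ⟨MonoidHom.toMulEquiv (SpecialLinearGroup.map (e : K →+* F))
    (SpecialLinearGroup.map (e.symm : F →+* K)) ?_ ?_⟩
  · ext A i j
    simp
  · ext A i j
    simp

/-- The recognition theorem: sharply 3-transitive groups of odd degree. -/
theorem sharp3_main {α : Type*} [Fintype α] [DecidableEq α] (hm : 3 ≤ Fintype.card α)
    (hodd : Odd (Fintype.card α)) (G : Subgroup (Equiv.Perm α))
    (h3 : MulAction.IsMultiplyPretransitive G α 3)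
    (hfix : ∀ g : G, 3 ≤ Nat.card (MulAction.fixedBy α g) → g = 1) :
    ∃ a : ℕ, 1 ≤ a ∧ Fintype.card α = 2 ^ a + 1 ∧ ∃ (F : Type) (_ : Field F) (_ : Fintype F),
      Fintype.card F = 2 ^ a ∧ Nonempty (G ≃* Matrix.SpecialLinearGroup (Fin 2) F) := by
  classical
  obtain ⟨i, o, e, hio, hie, hoe⟩ := Fintype.two_lt_card_iff.mp (by omega : 2 < Fintype.card α)
  have hex : ∀ a b c a' b' c' : α, a ≠ b → a ≠ c → b ≠ c → a' ≠ b' → a' ≠ c' → b' ≠ c' →
      ∃ g : G, g • a = a' ∧ g • b = b' ∧ g • c = c' := by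
    intro a b c a' b' c' h1 h2 h3' h4 h5 h6
    let x : Fin 3 ↪ α := ⟨![a, b, c], by
      intro u v huv
      fin_cases u <;> fin_cases v <;> simp_all⟩
    let y : Fin 3 ↪ α := ⟨![a', b', c'], by
      intro u v huv
      fin_cases u <;> fin_cases v <;> simp_all⟩
    obtain ⟨g, hg⟩ := MulAction.exists_smul_eq G x y
    refine ⟨g, ?_, ?_, ?_⟩
    · exact congrArg (fun f : Fin 3 ↪ α => f 0) hg
    · exact congrArg (fun f : Fin 3 ↪ α => f 1) hg
    · exact congrArg (fun f : Fin 3 ↪ α => f 2) hg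
  have huniq : ∀ (g : G) (a b c : α), a ≠ b → a ≠ c → b ≠ c → g • a = a → g • b = b → g • c = c →
      g = 1 := by
    intro g a b c h1 h2 h3' ha hb hc
    apply hfix
    have hs : ({a, b, c} : Set α) ⊆ MulAction.fixedBy α g := by
      intro x hx
      simp only [Set.mem_insert_iff, Set.mem_singleton_iff] at hx
      rcases hx with rfl | rfl | rfl
      · exact ha
      · exact hb
      · exact hc
    have h4 := Set.ncard_le_ncard hs (Set.toFinite _)
    rw [Set.ncard_eq_three.mpr ⟨a, b, c, h1, h2, h3', rfl⟩] at h4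
    exact h4
  have hinv : ∀ g : G, g * g = 1 → g ≠ 1 → ∃! a : α, g • a = a := by
    intro g hg hg1
    let f : Function.End α := fun x => g • x
    have hf : f ^ 2 ^ 1 = 1 := by
      funext x
      show f (f x) = x
      show g • g • x = x
      rw [smul_smul, hg, one_smul]
    haveI : Fact (Nat.Prime 2) := ⟨Nat.prime_two⟩
    have hc := Equiv.Perm.card_fixedPoints_modEq (p := 2) (n := 1) hf
    have hfp : ∀ x : α, x ∈ Function.fixedPoints f ↔ g • x = x := fun x => Iff.rfl
    have hle : Fintype.card (Function.fixedPoints f) ≤ 2 := by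
      by_contra hcon
      push Not at hcon
      obtain ⟨⟨a, ha⟩, ⟨b, hb⟩, ⟨c, hc'⟩, h1, h2, h3'⟩ := Fintype.two_lt_card_iff.mp hcon
      exact hg1 (huniq g a b c (fun h => h1 (Subtype.ext h)) (fun h => h2 (Subtype.ext h))
        (fun h => h3' (Subtype.ext h)) ha hb hc')
    have hodd' : Fintype.card (Function.fixedPoints f) % 2 = 1 := by
      have h1 : Fintype.card α % 2 = 1 := Nat.odd_iff.mp hodd
      have h2 : Fintype.card α % 2 = Fintype.card (Function.fixedPoints f) % 2 := hc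
      omega
    have h1 : Fintype.card (Function.fixedPoints f) = 1 := by omega
    obtain ⟨⟨a, ha⟩, hu⟩ := Fintype.card_eq_one_iff.mp h1
    refine ⟨a, ha, fun b hb => ?_⟩
    exact congrArg Subtype.val (hu ⟨b, hb⟩)
  let D : SharpData G α :=
    { inf := i, o := o, e := e, ho := hio.symm, he := hie.symm, hoe := hoe, ex := hex, uniq := huniq,
      invfix := hinv }
  have hfaith : ∀ g : G, (∀ ω : α, g • ω = ω) → g = 1 := by
    intro g hg
    apply Subtype.ext
    ext x
    exact hg x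
  obtain ⟨φ⟩ := SharpData.nonempty_mulEquiv (D := D) hfaith
  haveI : Fintype D.K := Fintype.ofFinite _
  have hchar := SharpData.ringChar_K (D := D)
  haveI : CharP D.K 2 := by
    rw [← hchar]
    exact ringChar.charP _
  obtain ⟨n, hn2, hcard⟩ := FiniteField.card D.K 2
  have hcardα : Fintype.card α = Fintype.card D.K + 1 := by
    let E : D.K ≃ {x : α // x ≠ i} :=
      { toFun := fun x => ⟨x.1, x.2⟩
        invFun := fun x => ⟨x.1, x.2⟩
        left_inv := fun x => rfl
        right_inv := fun x => rfl }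
    rw [Fintype.card_congr E, Fintype.card_subtype_compl, Fintype.card_subtype_eq]
    have : 1 ≤ Fintype.card α := by omega
    omega
  refine ⟨n, n.2, by rw [hcardα, hcard], ?_⟩
  haveI : Fact (Nat.Prime 2) := ⟨Nat.prime_two⟩
  have hcG : Nat.card (GaloisField 2 n) = 2 ^ (n : ℕ) := GaloisField.card 2 n n.ne_zero
  haveI : Finite (GaloisField 2 n) := Nat.finite_of_card_ne_zero (by rw [hcG]; positivity)
  haveI : Fintype (GaloisField 2 n) := Fintype.ofFinite _
  rw [Nat.card_eq_fintype_card] at hcG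
  refine ⟨GaloisField 2 n, inferInstance, inferInstance, hcG, ?_⟩
  have hcc : Fintype.card D.K = Fintype.card (GaloisField 2 n) := by
    rw [hcard, hcG]
  obtain ⟨ψ⟩ := nonempty_sl_congr (FiniteField.ringEquivOfCardEq hcc)
  exact ⟨φ.trans ψ⟩

end Cfsg.Agent.H22
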