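import Cfsg.Agent.Lib.H22.BrauerCorr

/-! # Blocks of `C(P)` inducing a block with defect group `P`; cyclic defect groups -/

set_option autoImplicit false
set_option linter.unusedSectionVars false
set_option linter.style.haveILetI false
set_option linter.unusedSimpArgs false
set_option linter.unusedVariables false

namespace Cfsg.Agent.H22

open Cfsg Cfsg.Agent.H21 Module
open scoped ComplexConjugate

universe u

variable {G : Type u} [Group G] [Finite G] {p : ℕ} [hp : Fact p.Prime] {M : Ideal AlgInt}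

/-- A block of `C(P)` inducing `B` gives a Brauer pair of `B`. -/
theorem pair_of_induced_centralizer (hM : IsPModular p M) {P : Subgroup G} (hP : IsPGroup p P)
    {c : Set (IrrCharacter (Subgroup.centralizer (P : Set G)))} {B : Set (IrrCharacter G)}
    (hind : IsInducedBlock M (Subgroup.centralizer (P : Set G)) c B) : IsBrauerPairOf p M B P c := by
  classical
  haveI : M.IsPrime := hM.2.1.isPrime
  rw [isBrauerPairOf_iff]
  refine ⟨⟨hP, hind.1⟩, hind.2.1, fun ξ hξ => ?_⟩
  obtain ⟨⟨B', hBF⟩, hB1, -⟩ := existsUnique_block_of_char hM hP ξ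
  have hB' : IsPBlock M B' := mem_blocksF.mp hBF
  have hξ₁ : ξ ∈ brSet M P (blockCoeff B') := hB1
  suffices hEq : B' = B by rwa [hEq] at hξ₁
  obtain ⟨χ', hχ'⟩ := block_nonempty hB'
  obtain ⟨χ, hχ⟩ := block_nonempty hind.2.1
  have hsame : χ ∈ B' := by
    rw [block_eq_of_mem hB' hχ']
    intro g
    have h4 := bw_class_congr hM hP hB' hξ₁ hχ' (classIndicator_isClass g) (classIndicator_mlr g)
    rw [om_classIndicator, ← inducedCentralChar_eq_bw] at h4
    have h7 := hind.2.2 ξ hξ χ hχ g
    have h8 := mli_sub h4 h7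
    have h9 : inducedCentralChar (Subgroup.centralizer (P : Set G)) ξ.1 g - cc g χ' -
        (inducedCentralChar (Subgroup.centralizer (P : Set G)) ξ.1 g - centralChar χ.1 g) =
          centralChar χ.1 g - centralChar χ'.1 g := by
      unfold cc
      ring
    rw [h9] at h8
    have h10 := mli_neg h8
    rwa [neg_sub] at h10
  exact block_eq_of_inter hB' hind.2.1 hsame hχ

/-- A block of `C(P)` inducing a block with defect group `P` gives a maximal pair. -/
theorem maximal_of_induced_defect (hM : IsPModular p M) {P : Subgroup G}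
    {c : Set (IrrCharacter (Subgroup.centralizer (P : Set G)))} {B : Set (IrrCharacter G)}
    (hPD : IsDefectGroup p M B P)
    (hind : IsInducedBlock M (Subgroup.centralizer (P : Set G)) c B) :
    IsMaximalBrauerPair p M B P c := by
  classical
  haveI : M.IsPrime := hM.2.1.isPrime
  have hPp : IsPGroup p P := defect_isPGroup hPD
  refine ⟨pair_of_induced_centralizer hM hPp hind, fun R g hRg hle => ?_⟩
  have h1 : P ≤ R := subpairLE_le hle
  obtain ⟨x, hx⟩ := subConj_of_pair hM hRg hPD
  refine (Subgroup.eq_of_le_of_card_ge h1 ?_).symm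
  have : R.map (MulAut.conj x).toMonoidHom ≤ P := by
    rintro _ ⟨s, hs, rfl⟩
    exact hx s hs
  have h2 := Subgroup.card_le_of_le this
  rwa [Subgroup.card_map_of_injective (MulAut.conj x).injective] at h2


/-- Elements of `p'`-order acting on a cyclic `p`-group: the purely group-theoretic part. -/
theorem cyclic_inertial {P T : Subgroup G} (hPp : IsPGroup p P) (hP1 : P ≠ ⊥) (hcyc : IsCyclic P)
    (hTN : T ≤ Subgroup.normalizer (P : Set G))
    [hn : ((Subgroup.centralizer (P : Set G)).subgroupOf T).Normal]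
    (hr : ¬ p ∣ ((Subgroup.centralizer (P : Set G)).subgroupOf T).index) :
    IsCyclic (T ⧸ (Subgroup.centralizer (P : Set G)).subgroupOf T) ∧
      (Subgroup.centralizer (P : Set G)).relIndex T ∣ p - 1 ∧
      ∀ g ∈ T, ∀ x ∈ P, x ≠ 1 → g * x * g⁻¹ = x → g ∈ Subgroup.centralizer (P : Set G) := by
  classical
  have hpp := hp.out
  obtain ⟨g₀, hg₀⟩ := hcyc.exists_generator
  set y : G := (g₀ : G) with hy
  have hyP : y ∈ P := g₀.2
  have hpow : ∀ w ∈ P, ∃ k : ℕ, y ^ k = w := by
    intro w hw
    have h1 : (⟨w, hw⟩ : P) ∈ Submonoid.powers g₀ := mem_powers_iff_mem_zpowers.mpr (hg₀ _)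
    obtain ⟨k, hk⟩ := h1
    refine ⟨k, ?_⟩
    have := congrArg Subtype.val hk
    simpa using this
  set n : ℕ := orderOf y with hndef
  obtain ⟨a, ha⟩ : ∃ a : ℕ, n = p ^ a := by
    obtain ⟨a, ha⟩ := (IsPGroup.iff_orderOf.1 hPp) g₀
    exact ⟨a, by rw [hndef, hy, Subgroup.orderOf_coe, ha]⟩
  have hy1 : y ≠ 1 := by
    intro h
    apply hP1
    rw [eq_bot_iff]
    intro w hw
    obtain ⟨k, rfl⟩ := hpow w hw
    rw [h, one_pow]
    exact Subgroup.one_mem _
  have ha0 : a ≠ 0 := by
    rintro rfl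
    apply hy1
    rw [← orderOf_eq_one_iff, ← hndef, ha, pow_zero]
  have hpn : p ∣ n := by
    rw [ha]
    exact dvd_pow_self p ha0
  have hU0 : ∀ t : T, ∃ k : ℕ, y ^ k = (t : G) * y * (t : G)⁻¹ := fun t =>
    hpow _ ((normalizer_iff_of_mem (hTN t.2) y).mp hyP)
  choose U hU using hU0
  have hconj : ∀ (t : T) (k : ℕ), (t : G) * y ^ k * (t : G)⁻¹ = y ^ (U t * k) := by
    intro t k
    rw [pow_mul, hU, conj_pow]
  have hmul : ∀ s t : T, U (s * t) ≡ U s * U t [MOD n] := by
    intro s t
    rw [hndef, ← pow_eq_pow_iff_modEq, hU]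
    have h1 := hconj s (U t)
    rw [hU t] at h1
    rw [← h1]
    push_cast
    group
  have hone : U 1 ≡ 1 [MOD n] := by
    rw [hndef, ← pow_eq_pow_iff_modEq, hU]
    simp
  have hcastp : ∀ {a b : ℕ}, a ≡ b [MOD n] → (a : ZMod p) = (b : ZMod p) := by
    intro a b h
    exact (ZMod.natCast_eq_natCast_iff _ _ _).mpr (h.of_dvd hpn)
  let f : T →* ZMod p :=
    { toFun := fun t => (U t : ZMod p)
      map_one' := by
        have := hcastp hone
        simpa using this
      map_mul' := fun s t => by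
        have := hcastp (hmul s t)
        simpa using this }
  let Θ : T →* (ZMod p)ˣ := f.toHomUnits
  have hΘ : ∀ t, ((Θ t : (ZMod p)ˣ) : ZMod p) = (U t : ZMod p) := fun t => rfl
  have hC : ∀ t : T, (t : G) ∈ Subgroup.centralizer (P : Set G) ↔ U t ≡ 1 [MOD n] := by
    intro t
    rw [hndef, ← pow_eq_pow_iff_modEq, hU, pow_one]
    constructor
    · intro h
      have := Subgroup.mem_centralizer_iff.mp h y hyP
      rw [← this]
      group
    · intro h
      rw [Subgroup.mem_centralizer_iff]
      intro w hw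
      obtain ⟨k, rfl⟩ := hpow w hw
      have h1 := hconj t k
      have h2 : U t * k ≡ 1 * k [MOD n] := by
        refine Nat.ModEq.mul_right k ?_
        rw [hndef, ← pow_eq_pow_iff_modEq, hU, pow_one]
        exact h
      have h3 : y ^ (U t * k) = y ^ (1 * k) := by
        rw [pow_eq_pow_iff_modEq]
        exact h2
      rw [h3, one_mul] at h1
      calc y ^ k * (t : G) = ((t : G) * y ^ k * (t : G)⁻¹) * t := by rw [h1]
        _ = (t : G) * y ^ k := by group
  have hUpow : ∀ (t : T) (m : ℕ), U (t ^ m) ≡ U t ^ m [MOD n] := by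
    intro t m
    induction m with
    | zero =>
      simpa using hone
    | succ m ih =>
      rw [pow_succ, pow_succ]
      exact (hmul _ _).trans (Nat.ModEq.mul_right _ ih)
  -- the key
  have hkey : ∀ t : T, (U t : ZMod p) = 1 → (t : G) ∈ Subgroup.centralizer (P : Set G) := by
    intro t ht
    rw [hC]
    set r := ((Subgroup.centralizer (P : Set G)).subgroupOf T).index with hrdef
    have h1 : t ^ r ∈ (Subgroup.centralizer (P : Set G)).subgroupOf T :=
      Subgroup.pow_index_mem _ t
    have h2 : U (t ^ r) ≡ 1 [MOD n] := (hC _).mp (Subgroup.mem_subgroupOf.mp h1)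
    have h3 : U t ^ r ≡ 1 [MOD n] := (hUpow t r).symm.trans h2
    have h4 : (n : ℤ) ∣ (U t : ℤ) ^ r - 1 := by
      have := (Nat.modEq_iff_dvd.mp h3.symm)
      simpa using this
    rw [← mul_geom_sum] at h4
    have h5 : IsCoprime (n : ℤ) (∑ i ∈ Finset.range r, (U t : ℤ) ^ i) := by
      rw [ha]
      push_cast
      apply IsCoprime.pow_left
      have hpZ : Prime (p : ℤ) := Nat.prime_iff_prime_int.mp hpp
      refine (Prime.coprime_iff_not_dvd hpZ).mpr ?_
      intro hd
      have h6 : ((∑ i ∈ Finset.range r, (U t : ℤ) ^ i : ℤ) : ZMod p) = 0 :=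
        (ZMod.intCast_zmod_eq_zero_iff_dvd _ _).mpr hd
      push_cast at h6
      rw [ht] at h6
      simp only [one_pow, Finset.sum_const, Finset.card_range, nsmul_eq_mul, mul_one] at h6
      exact hr ((ZMod.natCast_eq_zero_iff _ _).mp h6)
    have h7 : (n : ℤ) ∣ (U t : ℤ) - 1 := h5.dvd_of_dvd_mul_right h4
    exact (Nat.modEq_iff_dvd.mpr (by simpa using h7)).symm
  have hker : ∀ t ∈ (Subgroup.centralizer (P : Set G)).subgroupOf T, Θ t = 1 := by
    intro t ht
    apply Units.ext
    rw [hΘ]
    have := hcastp ((hC t).mp (Subgroup.mem_subgroupOf.mp ht))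
    simpa using this
  let L : T ⧸ (Subgroup.centralizer (P : Set G)).subgroupOf T →* (ZMod p)ˣ :=
    QuotientGroup.lift _ Θ hker
  have hL : Function.Injective L := by
    rw [injective_iff_map_eq_one]
    intro q
    induction q using QuotientGroup.induction_on with
    | H t =>
      intro h
      rw [QuotientGroup.eq_one_iff]
      refine Subgroup.mem_subgroupOf.mpr (hkey t ?_)
      have h1 : Θ t = 1 := h
      rw [← hΘ, h1]
      rfl
  refine ⟨isCyclic_of_injective L hL, ?_, ?_⟩
  · have h1 := Subgroup.card_dvd_of_injective L hL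
    have h2 : Nat.card (ZMod p)ˣ = p - 1 := by
      rw [← ZMod.card_units p, Fintype.card_eq_nat_card]
    rw [h2] at h1
    show ((Subgroup.centralizer (P : Set G)).subgroupOf T).index ∣ _
    rw [Subgroup.index_eq_card]
    exact h1
  · intro g hg x hx hx1 hfix
    refine hkey ⟨g, hg⟩ ?_
    obtain ⟨k, rfl⟩ := hpow x hx
    have h1 := hconj ⟨g, hg⟩ k
    have h2 : y ^ (U ⟨g, hg⟩ * k) = y ^ k := by
      rw [← h1]
      exact hfix
    rw [pow_eq_pow_iff_modEq] at h2
    have h3 : (n : ℤ) ∣ (k : ℤ) * ((U ⟨g, hg⟩ : ℤ) - 1) := by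
      have := Nat.modEq_iff_dvd.mp h2.symm
      have h4 : (k : ℤ) * ((U ⟨g, hg⟩ : ℤ) - 1) = ((U ⟨g, hg⟩ * k : ℕ) : ℤ) - (k : ℤ) := by
        push_cast
        ring
      rw [h4]
      exact this
    by_contra hne
    have h5 : IsCoprime (n : ℤ) ((U ⟨g, hg⟩ : ℤ) - 1) := by
      rw [ha]
      push_cast
      apply IsCoprime.pow_left
      have hpZ : Prime (p : ℤ) := Nat.prime_iff_prime_int.mp hpp
      refine (Prime.coprime_iff_not_dvd hpZ).mpr ?_
      intro hd
      apply hne
      have h6 := (ZMod.intCast_zmod_eq_zero_iff_dvd _ _).mpr hd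
      push_cast at h6
      exact sub_eq_zero.mp h6
    have h7 : (n : ℤ) ∣ (k : ℤ) := h5.dvd_of_dvd_mul_right h3
    have h8 : n ∣ k := by exact_mod_cast h7
    apply hx1
    rw [orderOf_dvd_iff_pow_eq_one.mp h8]

/-- `S4633`. -/
theorem cyclic_defect_inertial (hM : IsPModular p M) {B : Set (IrrCharacter G)}
    {P : Subgroup G} (hPD : IsDefectGroup p M B P) (hP1 : P ≠ ⊥) (hcyc : IsCyclic P)
    {c : Set (IrrCharacter (Subgroup.centralizer (P : Set G)))}
    (hc : IsInducedBlock M (Subgroup.centralizer (P : Set G)) c B) {T : Subgroup G}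
    (hT : ∀ g : G, g ∈ T ↔ (g ∈ Subgroup.normalizer (P : Set G) ∧
      StabilizesBlock (Subgroup.centralizer (P : Set G)) c g))
    [hn : ((Subgroup.centralizer (P : Set G)).subgroupOf T).Normal] :
    IsCyclic (T ⧸ (Subgroup.centralizer (P : Set G)).subgroupOf T) ∧
      (Subgroup.centralizer (P : Set G)).relIndex T ∣ p - 1 ∧
      ∀ g ∈ T, ∀ x ∈ P, x ≠ 1 → g * x * g⁻¹ = x → g ∈ Subgroup.centralizer (P : Set G) := by
  classical
  haveI : M.IsPrime := hM.2.1.isPrime
  have hmax := maximal_of_induced_defect hM hPD hc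
  have hr := inertial_p_index hM hmax hT
  have hPC : P ≤ Subgroup.centralizer (P : Set G) := by
    intro x hx
    rw [Subgroup.mem_centralizer_iff]
    intro w hw
    letI : CommGroup P := IsCyclic.commGroup
    have := mul_comm (⟨w, hw⟩ : P) ⟨x, hx⟩
    exact congrArg Subtype.val this
  rw [sup_eq_right.mpr hPC] at hr
  exact cyclic_inertial (defect_isPGroup hPD) hP1 hcyc (fun t ht => ((hT t).mp ht).1) hr

end Cfsg.Agent.H22
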