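import Cfsg.Agent.Lib.H06.CharGalois
import Cfsg.Agent.Lib.H21.RegProj
import Cfsg.Agent.Lib.H22.Brauer2

/-! # Integrality from local integrality of all Galois conjugates -/

set_option autoImplicit false
set_option linter.unusedSectionVars false
set_option linter.style.haveILetI false
set_option linter.unusedSimpArgs false
set_option linter.unusedVariables false

namespace Cfsg.Agent.H22

open Cfsg Cfsg.Agent.H21 Module Polynomial
open scoped ComplexConjugate

universe u

variable {q : ℕ} [hq : Fact q.Prime] {M : Ideal AlgInt}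

theorem rat_int_of_local [hMp : M.IsPrime] (hM : IsPModular q M) {c : ℚ}
    (hc : MemLocalRing M (c : ℂ)) {m : ℕ} {a : ℤ} (ha : (q : ℚ) ^ m * c = a) : ∃ b : ℤ, c = b := by
  induction m generalizing a with
  | zero => exact ⟨a, by simpa using ha⟩
  | succ m ih =>
    have h0 : ((a : ℤ) : ℂ) = (q : ℂ) * ((q : ℂ) ^ m * (c : ℂ)) := by
      have h1 := congrArg (Rat.cast : ℚ → ℂ) ha
      push_cast at h1
      rw [← h1]
      ring
    have h1 : MemLocalIdeal M ((a : ℤ) : ℂ) := by
      rw [h0]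
      refine mli_mul_right (mli_natCast_of_dvd hM (dvd_refl q)) (mlr_mul ?_ hc)
      have := mlr_natCast (M := M) (q ^ m)
      push_cast at this
      exact this
    obtain ⟨a1, ha1⟩ := (mli_intCast_iff hM a).1 h1
    refine ih (a := a1) ?_
    have hq0 : (q : ℚ) ≠ 0 := by exact_mod_cast hq.out.ne_zero
    apply mul_left_cancel₀ hq0
    have h2 : (q : ℚ) * ((q : ℚ) ^ m * c) = a := by
      rw [← ha]
      ring
    rw [h2, ha1]
    push_cast
    rfl

/-- The subring of complex numbers with `q`-power denominators. -/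
def qDenRing (q : ℕ) : Subring ℂ where
  carrier := {z | ∃ m : ℕ, IsIntegral ℤ ((q : ℂ) ^ m * z)}
  mul_mem' := by
    rintro a b ⟨m, hm⟩ ⟨m', hm'⟩
    refine ⟨m + m', ?_⟩
    have := hm.mul hm'
    rw [show (q : ℂ) ^ (m + m') * (a * b) = (q : ℂ) ^ m * a * ((q : ℂ) ^ m' * b) by rw [pow_add]; ring]
    exact this
  one_mem' := ⟨0, by simpa using isIntegral_one⟩
  add_mem' := by
    rintro a b ⟨m, hm⟩ ⟨m', hm'⟩
    refine ⟨m + m', ?_⟩
    have h1 : IsIntegral ℤ ((q : ℂ) ^ m') := by
      have : IsIntegral ℤ ((q ^ m' : ℕ) : ℂ) := isIntegral_natCast _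
      push_cast at this
      exact this
    have h2 : IsIntegral ℤ ((q : ℂ) ^ m) := by
      have : IsIntegral ℤ ((q ^ m : ℕ) : ℂ) := isIntegral_natCast _
      push_cast at this
      exact this
    have := (h1.mul hm).add (h2.mul hm')
    rw [show (q : ℂ) ^ (m + m') * (a + b) = (q : ℂ) ^ m' * ((q : ℂ) ^ m * a) + (q : ℂ) ^ m * ((q : ℂ) ^ m' * b) by rw [pow_add]; ring]
    exact this
  zero_mem' := ⟨0, by simpa using isIntegral_zero⟩
  neg_mem' := by
    rintro a ⟨m, hm⟩
    refine ⟨m, ?_⟩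
    have := hm.neg
    rw [show (q : ℂ) ^ m * -a = -((q : ℂ) ^ m * a) by ring]
    exact this

/-- **Integrality from local integrality of all conjugates.** -/
theorem isIntegral_of_local_conj {n : ℕ} (hn : n ≠ 0) (hM : IsPModular q M) {x : ℂ}
    (hxE : x ∈ IntermediateField.adjoin ℚ ({Complex.exp (2 * Real.pi * Complex.I / (n : ℂ))} : Set ℂ))
    {N : ℕ} (hint : IsIntegral ℤ ((q : ℂ) ^ N * x))
    (hloc : ∀ τ : ℂ →+* ℂ, MemLocalRing M (τ x)) : IsIntegral ℤ x := by
  classical
  haveI hMp : M.IsPrime := hM.2.1.isPrime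
  set ζ := Complex.exp (2 * Real.pi * Complex.I / (n : ℂ)) with hζd
  have hζ : IsPrimitiveRoot ζ n := Complex.isPrimitiveRoot_exp n hn
  haveI : NeZero n := ⟨hn⟩
  let E : IntermediateField ℚ ℂ := IntermediateField.adjoin ℚ {ζ}
  have halg : IsAlgebraic ℚ ζ := by
    refine ⟨Polynomial.X ^ n - 1, Polynomial.X_pow_sub_C_ne_zero (Nat.pos_of_ne_zero hn) (1 : ℚ), ?_⟩
    simp [hζ.pow_eq_one]
  have hcyc : IsCyclotomicExtension {n} ℚ E := by
    change IsCyclotomicExtension {n} ℚ E.toSubalgebra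
    simp only [E]
    rw [IntermediateField.adjoin_simple_toSubalgebra_of_isAlgebraic halg]
    exact hζ.adjoin_isCyclotomicExtension ℚ
  haveI hgal : IsGalois ℚ E := IsCyclotomicExtension.isGalois {n} ℚ E
  haveI : FiniteDimensional ℚ E := IsCyclotomicExtension.finiteDimensional {n} ℚ E
  set x' : E := ⟨x, hxE⟩ with hx'
  set P := minpoly ℚ x' with hP
  have hPm : P.Monic := minpoly.monic (Algebra.IsIntegral.isIntegral x')
  let S : Subring ℂ := locR M ⊓ qDenRing q
  -- roots of the minimal polynomial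
  have hroots : ∀ r ∈ (P.map (algebraMap ℚ E)).roots, ((r : E) : ℂ) ∈ S := by
    intro r hr
    have hr0 : Polynomial.aeval r P = 0 := by
      have := (Polynomial.mem_roots'.1 hr).2
      rwa [Polynomial.IsRoot.def, Polynomial.eval_map_algebraMap] at this
    obtain ⟨σ, hσ⟩ := minpoly.exists_algEquiv_of_root' (Algebra.IsAlgebraic.isAlgebraic x') hr0
    obtain ⟨τ, hτ⟩ := H06.exists_ringHom_extend (K := E) σ.toRingEquiv
    have hτx : τ x = (r : ℂ) := by
      have h1 := hτ x'
      have h2 : (σ.toRingEquiv x') = r := hσ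
      rw [h2] at h1
      exact h1
    refine ⟨?_, N, ?_⟩
    · rw [← hτx]
      exact hloc τ
    · rw [← hτx]
      have h3 := hint.map τ.toIntAlgHom
      convert h3 using 1
      simp
  have hsplit := Normal.splits hgal.to_normal x'
  have hprod := hsplit.eq_prod_roots_of_monic (hPm.map _)
  -- coefficients
  have hPC : P.map (algebraMap ℚ ℂ) =
      (((P.map (algebraMap ℚ E)).roots.map fun a => X - C a).prod).map (algebraMap E ℂ) := by
    rw [← hprod, Polynomial.map_map]
    rfl
  have hlift : P.map (algebraMap ℚ ℂ) ∈ Polynomial.lifts S.subtype := by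
    rw [hPC, Polynomial.map_multiset_prod, Multiset.map_map, lifts_iff_liftsRing]
    refine Subring.multiset_prod_mem _ _ ?_
    intro f hf
    obtain ⟨r, hr, rfl⟩ := Multiset.mem_map.1 hf
    rw [← lifts_iff_liftsRing]
    simp only [Function.comp_apply, Polynomial.map_sub, Polynomial.map_X, Polynomial.map_C]
    refine ⟨X - C (⟨(r : ℂ), hroots r hr⟩ : S), ?_⟩
    simp
  have hcoeff : ∀ j, ∃ b : ℤ, P.coeff j = b := by
    intro j
    have h1 := (lifts_iff_coeff_lifts _).1 hlift j
    obtain ⟨s, hs⟩ := h1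
    rw [Polynomial.coeff_map] at hs
    have h2 : ((P.coeff j : ℚ) : ℂ) = s := (eq_ratCast (algebraMap ℚ ℂ) (P.coeff j)).symm.trans hs.symm
    have h3 : ((P.coeff j : ℚ) : ℂ) ∈ S := by
      rw [h2]
      exact s.2
    obtain ⟨h4, m, h5⟩ := h3
    have h6 : IsIntegral ℤ ((q : ℚ) ^ m * P.coeff j) := by
      have h7 : algebraMap ℚ ℂ ((q : ℚ) ^ m * P.coeff j) = (q : ℂ) ^ m * ((P.coeff j : ℚ) : ℂ) := by
        simp
      rw [← h7] at h5
      exact (isIntegral_algebraMap_iff (algebraMap ℚ ℂ).injective).1 h5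
    obtain ⟨a, ha⟩ := IsIntegrallyClosed.isIntegral_iff.1 h6
    exact rat_int_of_local hM h4 (m := m) (a := a) (by rw [← ha]; simp)
  have hPl : P ∈ Polynomial.lifts (Int.castRingHom ℚ) := by
    rw [lifts_iff_coeff_lifts]
    intro j
    obtain ⟨b, hb⟩ := hcoeff j
    exact ⟨b, by rw [hb]; simp⟩
  obtain ⟨Q, hQ, -, hQm⟩ := Polynomial.lifts_and_natDegree_eq_and_monic hPl hPm
  refine ⟨Q, hQm, ?_⟩
  have h8 : Polynomial.aeval x' P = 0 := minpoly.aeval ℚ x'
  have h9 : Polynomial.aeval x P = 0 := by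
    have := congrArg (algebraMap E ℂ) h8
    rwa [← Polynomial.aeval_algebraMap_apply, map_zero] at this
  rw [← hQ] at h9
  rw [Polynomial.aeval_def, Polynomial.eval₂_map] at h9
  have h10 : (algebraMap ℚ ℂ).comp (Int.castRingHom ℚ) = algebraMap ℤ ℂ := RingHom.ext_int _ _
  rwa [h10] at h9

end Cfsg.Agent.H22
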