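import Cfsg.Agent.Lib.H21.KnorrFull
import Cfsg.Agent.Lib.H22.PIndex

/-! # Knörr's theorem with stability; the stabilizer of a covered block -/

set_option autoImplicit false
set_option linter.unusedSectionVars false
set_option linter.style.haveILetI false
set_option linter.unusedSimpArgs false
set_option linter.unusedVariables false

namespace Cfsg.Agent.H22

open Cfsg Cfsg.Agent.H21 Module
open scoped ComplexConjugate

universe u

variable {G : Type u} [Group G] [Finite G] {p : ℕ} [hp : Fact p.Prime] {M : Ideal AlgInt}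

section

variable {N : Subgroup G} [hN : N.Normal]

theorem mem_blockStab_of_mem (b : Set (IrrCharacter N)) {n : G} (hn : n ∈ N) :
    n ∈ blockStab N b := by
  intro θ hθ
  have : conjIrr N n θ = θ := by
    apply Subtype.ext
    funext x
    rw [conjIrr_apply]
    have := isClassFunction_of_isCharacter (Cfsg.Agent.H21.isCharacter_of_irr θ.2) x (⟨n, hn⟩ : N)
    rw [← this]
    exact congrArg θ.1 (Subtype.ext rfl)
  rw [this]
  exact hθ

theorem blockStab_iff (b : Set (IrrCharacter N)) (g : G) :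
    g ∈ blockStab N b ↔ ∀ θ ∈ b, ∀ θ' : IrrCharacter N,
      (∀ n : N, (θ' : N → ℂ) n = (θ : N → ℂ) ⟨g * n * g⁻¹, hN.conj_mem n n.2 g⟩) → θ' ∈ b := by
  constructor
  · intro hg θ hθ θ' hθ'
    have : θ' = conjIrr N g θ := by
      apply Subtype.ext
      funext n
      rw [conjIrr_apply]
      exact hθ' n
    rw [this]
    exact hg θ hθ
  · intro h θ hθ
    exact h θ hθ _ (conjIrr_apply N g θ)

/-- **Knörr's theorem**, with a defect group inside the stabilizer. -/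
theorem knorr_stab [instG : Fintype G] (hM : IsPModular p M) (N : Subgroup G) [hN : N.Normal]
    [instN : Fintype N] (b : Set (IrrCharacter N)) (hb : IsPBlock M b) (Q : Subgroup G) (hQN : Q ≤ N)
    (hQ : IsDefectGroup p M b (Q.subgroupOf N)) (B : Set (IrrCharacter G)) (hB : IsPBlock M B)
    (hcov : ∃ χ ∈ B, ∃ θ ∈ b, classInner (fun n : N => (χ : G → ℂ) n) (θ : N → ℂ) ≠ 0) :
    ∃ P : Subgroup G, IsDefectGroup p M B P ∧ P ⊓ N = Q ∧ P ≤ blockStab N b := by
  classical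
  haveI : M.IsPrime := hM.2.1.isPrime
  obtain rfl : instG = fintypeOfFiniteH22 := Subsingleton.elim _ _
  obtain rfl : instN = fintypeOfFiniteH22 := Subsingleton.elim _ _
  set T := blockStab N b with hTdef
  have hNT : N ≤ T := fun n hn => mem_blockStab_of_mem b hn
  have hT := blockStab_iff b
  obtain ⟨-, -, h3⟩ := fong_reynolds_main hM N b hb T hT hNT
  obtain ⟨B', hB', hcov', hind⟩ := h3 B hB hcov
  obtain ⟨hdef, -⟩ := fong_reynolds_defect hM N b hb T hT hNT B' hB' hcov' B hind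
  obtain ⟨ψ, hψ, θ, hθ, hne⟩ := hcov'
  have hne' : cvr hNT ψ θ ≠ 0 := (inner_ne_iff _ _).mp hne
  haveI hNn : (N.subgroupOf T).Normal := Subgroup.normal_subgroupOf
  set b' : Set (IrrCharacter (N.subgroupOf T)) := irrMap (phiN hNT).symm '' b with hb'
  have hb'b : IsPBlock M b' := isPBlock_image _ hb
  have hinv' : ∀ t : T, ∀ θ' ∈ b', conjIrr (N.subgroupOf T) t θ' ∈ b' := by
    rintro t _ ⟨θ₀, hθ₀, rfl⟩
    have := thetaT_conj hNT θ₀ t
    refine ⟨_, t.2 θ₀ hθ₀, ?_⟩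
    exact this.symm
  have hQ' : IsDefectGroup p M b' ((Q.subgroupOf T).subgroupOf (N.subgroupOf T)) := by
    have h1 := isDefectGroup_image (phiN hNT).symm hQ
    have h2 : (Q.subgroupOf N).map (phiN hNT).symm.toMonoidHom =
        (Q.subgroupOf T).subgroupOf (N.subgroupOf T) := by
      ext x
      constructor
      · rintro ⟨y, hy, rfl⟩
        exact Subgroup.mem_subgroupOf.mpr (Subgroup.mem_subgroupOf.mpr (Subgroup.mem_subgroupOf.mp hy))
      · intro hx
        have hx' : ((x : T) : G) ∈ Q :=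
          Subgroup.mem_subgroupOf.mp (Subgroup.mem_subgroupOf.mp hx)
        refine ⟨phiN hNT x, Subgroup.mem_subgroupOf.mpr hx', ?_⟩
        exact (phiN hNT).symm_apply_apply x
    rw [← h2]
    exact h1
  have hQT : Q.subgroupOf T ≤ N.subgroupOf T := fun x hx =>
    Subgroup.mem_subgroupOf.mpr (hQN (Subgroup.mem_subgroupOf.mp hx))
  have hcovT : ∃ χ ∈ B', ∃ θ' ∈ b', ∑ n : N.subgroupOf T, conj (θ'.1 n) * χ.1 n ≠ 0 := by
    refine ⟨ψ, hψ, thetaT hNT θ, ⟨θ, hθ, rfl⟩, ?_⟩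
    rw [sum_thetaT]
    exact hne'
  obtain ⟨P', hP', hPeq⟩ := knorr_stable hM hb'b hinv' hQT hQ' hB' hcovT
  refine ⟨P'.map T.subtype, hdef P' hP', ?_, Subgroup.map_subtype_le _⟩
  ext x
  constructor
  · rintro ⟨⟨t, ht, rfl⟩, hxN⟩
    have : t ∈ P' ⊓ N.subgroupOf T := ⟨ht, Subgroup.mem_subgroupOf.mpr hxN⟩
    rw [hPeq] at this
    exact Subgroup.mem_subgroupOf.mp this
  · intro hx
    have hxT : x ∈ T := hNT (hQN hx)
    have h1 : (⟨x, hxT⟩ : T) ∈ Q.subgroupOf T := Subgroup.mem_subgroupOf.mpr hx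
    rw [← hPeq] at h1
    exact ⟨⟨⟨x, hxT⟩, h1.1, rfl⟩, hQN hx⟩

/-- Elements conjugate a defect group to another one. -/
theorem exists_conj_defect (hM : IsPModular p M) {B : Set (IrrCharacter G)} (hB : IsPBlock M B)
    {D D' : Subgroup G} (hD : IsDefectGroup p M B D) (hD' : IsDefectGroup p M B D') :
    ∃ x : G, cq x D = D' := by
  classical
  haveI : M.IsPrime := hM.2.1.isPrime
  obtain ⟨x, hx⟩ := subConj_of_defects hM hB hD hD'
  have h2 := subConj_of_defects hM hB hD' hD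
  have hcard := card_eq_of_subConj ⟨x, hx⟩ h2
  refine ⟨x, Subgroup.eq_of_le_of_card_ge ?_ ?_⟩
  · intro y hy
    rw [mem_cq] at hy
    have := hx _ hy
    simpa [mul_assoc] using this
  · have : Nat.card (cq x D) = Nat.card D := by
      exact Nat.card_congr (Subgroup.equivMapOfInjective _ _ (MulAut.conj x).injective).symm.toEquiv
    rw [this, hcard]

/-- Defect groups contained in a normal subgroup. -/
theorem defect_le_normal (hM : IsPModular p M) {B : Set (IrrCharacter G)} (hB : IsPBlock M B)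
    {D D' : Subgroup G} (hD : IsDefectGroup p M B D) (hD' : IsDefectGroup p M B D')
    (hle : D ≤ N) : D' ≤ N := by
  classical
  haveI : M.IsPrime := hM.2.1.isPrime
  obtain ⟨x, hx⟩ := subConj_of_defects hM hB hD' hD
  intro y hy
  have h1 := hle (hx y hy)
  have h2 := hN.conj_mem _ h1 x⁻¹
  simpa [mul_assoc] using h2

/-- A constituent of the restriction to `L` lying over a constituent on `N ≤ L`. -/
theorem exists_mid_constituent {N L : Subgroup G} (hNL : N ≤ L) (χ : IrrCharacter G)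
    (θ : IrrCharacter N) (hne : ∑ n : N, conj (θ.1 n) * χ.1 n ≠ 0) :
    ∃ θ₁ : IrrCharacter L, ∑ l : L, conj (θ₁.1 l) * χ.1 l ≠ 0 ∧
      ∑ n : N.subgroupOf L, conj ((irrMap (Subgroup.subgroupOfEquivOfLe hNL).symm θ).1 n) *
        θ₁.1 n ≠ 0 := by
  classical
  let a : L → ℂ := fun l => conj (χ.1 l)
  have hcl : IsClassFunction L a := by
    intro n k
    show conj (χ.1 ((k * n * k⁻¹ : L) : G)) = conj (χ.1 n)
    congr 1
    exact irr_conj' χ (n : G) (k : G)
  have h1 : ofOm (fun ψ => om ψ a) = a := ofOm_om a hcl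
  -- expansion of `χ` on `L`
  let k : IrrCharacter L → ℂ := fun ψ =>
    (Nat.card L : ℂ)⁻¹ * ∑ l : L, conj (ψ.1 l) * χ.1 l
  have h2 : ∀ l : L, χ.1 l = ∑ ψ : IrrCharacter L, k ψ * ψ.1 l := by
    intro l
    have h3 := congrFun h1 l
    unfold ofOm at h3
    have h4 : χ.1 l = conj (a l) := by simp [a]
    rw [h4, ← h3, map_mul, map_sum, map_inv₀, Complex.conj_natCast, Finset.mul_sum]
    refine Finset.sum_congr rfl fun ψ _ => ?_
    have h5 : ψ.1 1 ≠ 0 := irr_one_ne_zero' ψ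
    have h6 : conj (om ψ a) = (conj (ψ.1 1))⁻¹ * ∑ l : L, conj (ψ.1 l) * χ.1 l := by
      unfold om
      rw [map_mul, map_inv₀, map_sum]
      congr 1
      refine Finset.sum_congr rfl fun x _ => ?_
      simp [a, mul_comm]
    rw [map_mul, map_mul, h6, Complex.conj_conj]
    have h7 : conj (ψ.1 1) ≠ 0 := (map_ne_zero _).mpr h5
    simp only [k]
    field_simp
  -- reindex the inner sums
  let φ := Subgroup.subgroupOfEquivOfLe hNL
  have h8 : ∑ n : N, conj (θ.1 n) * χ.1 n =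
      ∑ ψ : IrrCharacter L, k ψ *
        ∑ n : N.subgroupOf L, conj ((irrMap φ.symm θ).1 n) * ψ.1 n := by
    rw [Finset.sum_congr rfl fun n _ => by rw [show χ.1 n = χ.1 (⟨(n : G), hNL n.2⟩ : L) from rfl, h2]]
    simp only [Finset.mul_sum]
    rw [Finset.sum_comm]
    refine Finset.sum_congr rfl fun ψ _ => ?_
    rw [← Equiv.sum_comp φ.toEquiv]
    refine Finset.sum_congr rfl fun n _ => ?_
    have h9 : (irrMap φ.symm θ).1 n = θ.1 (φ n) := by
      rw [irrMap_apply]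
      rfl
    rw [h9]
    have h10 : (⟨((φ n : N) : G), hNL (φ n).2⟩ : L) = (n : L) := Subtype.ext rfl
    show conj (θ.1 (φ n)) * (k ψ * ψ.1 ⟨((φ n : N) : G), hNL (φ n).2⟩) = _
    rw [h10]
    ring
  rw [h8] at hne
  obtain ⟨ψ, -, hψ⟩ := Finset.exists_ne_zero_of_sum_ne_zero hne
  refine ⟨ψ, ?_, right_ne_zero_of_mul hψ⟩
  have := left_ne_zero_of_mul hψ
  intro h0
  apply this
  simp only [k]
  rw [h0, mul_zero]


/-- Defect groups given in advance: S4671. -/
theorem knorr_given [instG : Fintype G] (hM : IsPModular p M) (N : Subgroup G) [hN : N.Normal]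
    [instN : Fintype N] (B : Set (IrrCharacter G)) (hB : IsPBlock M B) (P : Subgroup G)
    (hP : IsDefectGroup p M B P) :
    ∃ c : Set (IrrCharacter N), IsPBlock M c ∧ (∀ x ∈ P, StabilizesBlock N c x) ∧
      (∃ χ ∈ B, ∃ θ ∈ c, classInner (fun n : N => (χ : G → ℂ) n) (θ : N → ℂ) ≠ 0) ∧
      IsDefectGroup p M c ((P ⊓ N).subgroupOf N) := by
  classical
  haveI : M.IsPrime := hM.2.1.isPrime
  obtain ⟨χ, hχ⟩ := block_nonempty hB
  obtain ⟨θ, hθ⟩ := exists_constituent N χ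
  set c₀ : Set (IrrCharacter N) := blockOf M θ.1 with hc₀
  have hc₀B : IsPBlock M c₀ := isBlock_blockOf θ
  have hθc₀ : θ ∈ c₀ := self_mem_blockOf θ
  obtain ⟨Q₀, hQ₀⟩ := isDefectGroup_exists (p := p) hc₀B
  have hQeq : (Q₀.map N.subtype).subgroupOf N = Q₀ :=
    Subgroup.comap_map_eq_self_of_injective (Subgroup.subtype_injective N) Q₀
  obtain ⟨P₀, hP₀, hP₀N, hP₀T⟩ := knorr_stab hM N c₀ hc₀B (Q₀.map N.subtype)
    (Subgroup.map_subtype_le _) (by rw [hQeq]; exact hQ₀) B hB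
    ⟨χ, hχ, θ, hθc₀, (inner_ne_iff _ _).mpr (by
      convert hθ using 2)⟩
  obtain ⟨x, hx⟩ := exists_conj_defect hM hB hP₀ hP
  subst hx
  have hxN : x ∈ Subgroup.normalizer (N : Set G) := normalizer_eq_top x
  let φ := phiK N hxN
  refine ⟨irrMap φ '' c₀, isPBlock_image _ hc₀B, ?_, ⟨χ, hχ, irrMap φ θ, Set.mem_image_of_mem _ hθc₀, ?_⟩, ?_⟩
  · intro y hy
    rw [mem_cq] at hy
    have hyN : y ∈ Subgroup.normalizer (N : Set G) := normalizer_eq_top y
    rw [stabilizesBlock_iff hyN]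
    rintro _ ⟨_, ⟨θ₀, hθ₀, rfl⟩, rfl⟩
    refine ⟨conjIrr N (x⁻¹ * y * x)⁻¹ θ₀, (blockStab N c₀).inv_mem (hP₀T hy) θ₀ hθ₀, ?_⟩
    apply Subtype.ext
    funext n
    rw [irrMap_apply, irrMap_apply, irrMap_apply, conjIrr_apply]
    refine congrArg θ₀.1 (Subtype.ext ?_)
    show (x⁻¹ * y * x)⁻¹ * (x⁻¹ * n * x) * (x⁻¹ * y * x)⁻¹⁻¹ = x⁻¹ * (y⁻¹ * n * y) * x
    group
  · have h1 : irrMap φ θ = conjIrr N x⁻¹ θ := by
      apply Subtype.ext
      funext n
      rw [irrMap_apply, conjIrr_apply]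
      refine congrArg θ.1 (Subtype.ext ?_)
      show x⁻¹ * n * x = x⁻¹ * n * x⁻¹⁻¹
      simp
    rw [h1]
    refine (inner_ne_iff _ _).mpr ?_
    have := const_of_conj (χ := χ) x⁻¹ hθ
    convert this using 2
  · have h1 := isDefectGroup_image φ hQ₀
    convert h1 using 1
    ext n
    rw [Subgroup.mem_subgroupOf]
    constructor
    · rintro ⟨hn1, hn2⟩
      replace hn1 : (n : G) ∈ cq x P₀ := hn1
      replace hn2 : (n : G) ∈ N := hn2
      rw [mem_cq] at hn1
      have hn3 : x⁻¹ * (n : G) * x ∈ P₀ ⊓ N :=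
        ⟨hn1, by simpa [mul_assoc] using hN.conj_mem _ hn2 x⁻¹⟩
      rw [hP₀N] at hn3
      obtain ⟨n', hn', hnn'⟩ := hn3
      refine ⟨n', hn', ?_⟩
      apply Subtype.ext
      show x * (n' : G) * x⁻¹ = n
      have : (n' : G) = x⁻¹ * n * x := hnn'
      rw [this]
      group
    · rintro ⟨n', hn', rfl⟩
      have h2 : (n' : G) ∈ P₀ ⊓ N := by
        rw [hP₀N]
        exact ⟨n', hn', rfl⟩
      refine ⟨?_, (φ n').2⟩
      show ((φ n' : N) : G) ∈ cq x P₀
      rw [mem_cq]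
      have h3 : x⁻¹ * ((φ n' : N) : G) * x = n' := by
        show x⁻¹ * (x * (n' : G) * x⁻¹) * x = n'
        group
      rw [h3]
      exact h2.1

/-- The stabilizer of a covered block when a defect group lies in `N`. -/
theorem stab_le_of_defect (hM : IsPModular p M) {N : Subgroup G} [hN : N.Normal]
    (hidx : ∃ k : ℕ, N.index = p ^ k) {c : Set (IrrCharacter N)} (hc : IsPBlock M c)
    {b : Set (IrrCharacter G)} (hb : IsPBlock M b)
    (hcov : ∃ χ ∈ b, ∃ θ ∈ c, ∑ n : N, conj (θ.1 n) * χ.1 n ≠ 0) {D : Subgroup G}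
    (hD : IsDefectGroup p M b D) (hle : D ≤ N) : blockStab N c ≤ N := by
  classical
  haveI : M.IsPrime := hM.2.1.isPrime
  set T := blockStab N c with hTdef
  have hNT : N ≤ T := fun n hn => mem_blockStab_of_mem c hn
  obtain ⟨-, -, h3⟩ := fong_reynolds_main hM N c hc T (blockStab_iff c) hNT
  obtain ⟨χ₀, hχ₀, θ₀, hθ₀, hne₀⟩ := hcov
  obtain ⟨B', hB', hcov', hind⟩ := h3 b hb ⟨χ₀, hχ₀, θ₀, hθ₀, (inner_ne_iff _ _).mpr (by
    convert hne₀ using 2)⟩
  obtain ⟨hdef, -⟩ := fong_reynolds_defect hM N c hc T (blockStab_iff c) hNT B' hB' hcov' b hind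
  have hTN : T ≤ Subgroup.normalizer (N : Set G) := fun x _ => normalizer_eq_top x
  obtain ⟨k₀, hk₀⟩ := hidx
  have hk : ∃ k : ℕ, N.relIndex T = p ^ k := by
    have h1 : N.relIndex T ∣ N.index := Subgroup.relIndex_dvd_index_of_normal _ _
    rw [hk₀] at h1
    obtain ⟨j, -, hj⟩ := (Nat.dvd_prime_pow hp.out).mp h1
    exact ⟨j, hj⟩
  have hst : ∀ x ∈ T, StabilizesBlock N c x := by
    intro x hx
    rw [stabilizesBlock_iff (normalizer_eq_top x)]
    rintro _ ⟨θ, hθ, rfl⟩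
    have h1 := T.inv_mem hx θ hθ
    convert h1 using 1
    apply Subtype.ext
    funext n
    rw [irrMap_apply, conjIrr_apply]
    refine congrArg θ.1 (Subtype.ext ?_)
    show x⁻¹ * n * x = x⁻¹ * n * x⁻¹⁻¹
    simp
  obtain ⟨F, hF, hFc⟩ := exists_block_pIndex_sub hM hNT hTN hk hc hst
  haveI hNn : (N.subgroupOf T).Normal := Subgroup.normal_subgroupOf
  have hc' : IsPBlock M (irrMap (Subgroup.subgroupOfEquivOfLe hNT).symm '' c) := isPBlock_image _ hc
  have hFcov : ∃ χ ∈ F, ∃ θ ∈ irrMap (Subgroup.subgroupOfEquivOfLe hNT).symm '' c,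
      ∑ n : N.subgroupOf T, conj (θ.1 n) * χ.1 n ≠ 0 := by
    obtain ⟨χ, hχ⟩ := block_nonempty hF
    obtain ⟨θ, hθ⟩ := exists_constituent (N.subgroupOf T) χ
    refine ⟨χ, hχ, θ, ?_, hθ⟩
    refine constituent_mem (fun t => ?_) hχ hθ
    rw [sbc_subgroupOf]
    exact hFc t
  have hB'cov : ∃ χ ∈ B', ∃ θ ∈ irrMap (Subgroup.subgroupOfEquivOfLe hNT).symm '' c,
      ∑ n : N.subgroupOf T, conj (θ.1 n) * χ.1 n ≠ 0 := by
    obtain ⟨ψ, hψ, θ, hθ, hne⟩ := hcov'
    refine ⟨ψ, hψ, thetaT hNT θ, ⟨θ, hθ, rfl⟩, ?_⟩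
    rw [sum_thetaT]
    exact (inner_ne_iff _ _).mp hne
  have hFB : F = B' :=
    (existsUnique_cover_pIndex hM (by simpa [Subgroup.relIndex] using hk) hc').unique
      ⟨hF, hFcov⟩ ⟨hB', hB'cov⟩
  subst hFB
  obtain ⟨D₀, hD₀⟩ := isDefectGroup_exists (p := p) hF
  obtain ⟨h5, -⟩ := pIndex_defect_sub hM hNT hTN hk hc hst hF hFc hD₀
  have h6 : D₀.map T.subtype ≤ N := defect_le_normal hM hb hD (hdef D₀ hD₀) hle
  have h7 : D₀ ≤ N.subgroupOf T := by
    intro x hx
    exact Subgroup.mem_subgroupOf.mpr (h6 ⟨x, hx, rfl⟩)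
  rw [sup_eq_left.mpr h7] at h5
  intro x hx
  have h8 : (⟨x, hx⟩ : T) ∈ N.subgroupOf T := by
    rw [h5]
    exact Subgroup.mem_top _
  exact Subgroup.mem_subgroupOf.mp h8

/-- S4673. -/
theorem stab_inf_eq [instG : Fintype G] (hM : IsPModular p M) (N L : Subgroup G) [hN : N.Normal]
    [hL : L.Normal] [instN : Fintype N] (hNL : N ≤ L)
    (hLN : ∃ k : ℕ, (N.subgroupOf L).index = p ^ k) (B : Set (IrrCharacter G)) (hB : IsPBlock M B)
    (c : Set (IrrCharacter N)) (hc : IsPBlock M c)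
    (hcov : ∃ χ ∈ B, ∃ θ ∈ c, classInner (fun n : N => (χ : G → ℂ) n) (θ : N → ℂ) ≠ 0)
    (hD : ∃ D : Subgroup G, IsDefectGroup p M B D ∧ D ≤ N) (T : Subgroup G)
    (hT : ∀ x : G, x ∈ T ↔ StabilizesBlock N c x) : T ⊓ L = N := by
  classical
  obtain rfl : instG = fintypeOfFiniteH22 := Subsingleton.elim _ _
  obtain rfl : instN = fintypeOfFiniteH22 := Subsingleton.elim _ _
  haveI : M.IsPrime := hM.2.1.isPrime
  apply le_antisymm
  · rintro x ⟨hxT, hxL⟩
    obtain ⟨χ, hχ, θ, hθ, hne⟩ := hcov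
    have hne' : ∑ n : N, conj (θ.1 n) * χ.1 n ≠ 0 := (inner_ne_iff _ _).mp hne
    obtain ⟨θ₁, h1, h2⟩ := exists_mid_constituent hNL χ θ hne'
    set b : Set (IrrCharacter L) := blockOf M θ₁.1 with hb
    have hbB : IsPBlock M b := isBlock_blockOf θ₁
    have hθ₁b : θ₁ ∈ b := self_mem_blockOf θ₁
    obtain ⟨Q₀, hQ₀⟩ := isDefectGroup_exists (p := p) hbB
    have hQeq : (Q₀.map L.subtype).subgroupOf L = Q₀ :=
      Subgroup.comap_map_eq_self_of_injective (Subgroup.subtype_injective L) Q₀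
    obtain ⟨P, hP, hPL⟩ := knorr_full hM L b hbB (Q₀.map L.subtype)
      (Subgroup.map_subtype_le _) (by rw [hQeq]; exact hQ₀) B hB
      ⟨χ, hχ, θ₁, hθ₁b, (inner_ne_iff _ _).mpr h1⟩
    obtain ⟨D, hD₁, hD₂⟩ := hD
    have hPN : P ≤ N := defect_le_normal hM hB hD₁ hP hD₂
    have hQ₀N : Q₀ ≤ N.subgroupOf L := by
      intro q hq
      refine Subgroup.mem_subgroupOf.mpr ?_
      have : (q : G) ∈ P ⊓ L := by
        rw [hPL]
        exact ⟨q, hq, rfl⟩
      exact hPN this.1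
    haveI hNn : (N.subgroupOf L).Normal := Subgroup.normal_subgroupOf
    have hst := stab_le_of_defect hM (N := N.subgroupOf L) hLN
      (c := irrMap (Subgroup.subgroupOfEquivOfLe hNL).symm '' c) (isPBlock_image _ hc) hbB
      ⟨θ₁, hθ₁b, _, Set.mem_image_of_mem _ hθ, h2⟩ hQ₀ hQ₀N
    have hx' : (⟨x, hxL⟩ : L) ∈ blockStab (N.subgroupOf L)
        (irrMap (Subgroup.subgroupOfEquivOfLe hNL).symm '' c) := by
      rintro _ ⟨θ₀, hθ₀, rfl⟩
      have h3 := thetaT_conj hNL θ₀ (⟨x, hxL⟩ : L)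
      refine ⟨conjIrr N x θ₀, ?_, h3.symm⟩
      have h4 := (stabilizesBlock_iff (normalizer_eq_top x⁻¹)).mp (inv_stabilizes ((hT x).mp hxT))
        ⟨θ₀, hθ₀, rfl⟩
      convert h4 using 1
      apply Subtype.ext
      funext n
      rw [irrMap_apply, conjIrr_apply]
      refine congrArg θ₀.1 (Subtype.ext ?_)
      show x * n * x⁻¹ = x⁻¹⁻¹ * n * x⁻¹
      simp
    exact Subgroup.mem_subgroupOf.mp (hst hx')
  · intro n hn
    exact ⟨(hT n).mpr (stabilizes_of_mem c hn), hNL hn⟩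

end

end Cfsg.Agent.H22
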