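import Cfsg.Agent.Lib.H21.Subsec
import Cfsg.Agent.Lib.H22.Inertial

/-! # Blocks with central defect group have one Brauer character -/

set_option autoImplicit false
set_option linter.unusedSectionVars false
set_option linter.style.haveILetI false
set_option linter.unusedSimpArgs false
set_option linter.unusedVariables false

namespace Cfsg.Agent.H22

open Cfsg Cfsg.Agent.H21 Module
open scoped ComplexConjugate

universe u

variable {K : Type u} [Group K] [Finite K] {p : ℕ} [hp : Fact p.Prime] {M : Ideal AlgInt}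

/-- Inflation of an irreducible character. -/
noncomputable def inflIrr (Z : Subgroup K) [Z.Normal] (t : IrrCharacter (K ⧸ Z)) : IrrCharacter K :=
  ⟨t.1 ∘ QuotientGroup.mk' Z,
    isIrrCharacter_comp_of_surjective _ (QuotientGroup.mk'_surjective Z) t.2⟩

theorem inflIrr_apply (Z : Subgroup K) [Z.Normal] (t : IrrCharacter (K ⧸ Z)) (g : K) :
    (inflIrr Z t).1 g = t.1 (g : K ⧸ Z) := rfl

theorem blockRank_le_of_infl (Z : Subgroup K) [Z.Normal] {B' : Set (IrrCharacter (K ⧸ Z))}
    {B : Set (IrrCharacter K)} (hsub : ∀ t ∈ B', inflIrr Z t ∈ B) :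
    blockRank p B' ≤ blockRank p B := by
  classical
  have hlift : ∀ q : K ⧸ Z, ∃ g : K, ¬ p ∣ orderOf q → ((g : K ⧸ Z) = q ∧ ¬ p ∣ orderOf g) := by
    intro q
    by_cases hq : p ∣ orderOf q
    · exact ⟨1, fun h => absurd hq h⟩
    · obtain ⟨g, h1, h2⟩ := exists_regular_lift (P := Z) q hq
      exact ⟨g, fun _ => ⟨h1, h2⟩⟩
  choose lift hl using hlift
  let Φ : (K → ℂ) →ₗ[ℂ] (K ⧸ Z → ℂ) :=
    { toFun := fun f q => if p ∣ orderOf q then 0 else f (lift q)
      map_add' := by
        intro a b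
        funext q
        by_cases h : p ∣ orderOf q <;> simp [h]
      map_smul' := by
        intro c a
        funext q
        by_cases h : p ∣ orderOf q <;> simp [h] }
  have hΦ : ∀ t : IrrCharacter (K ⧸ Z), Φ (pRegularPart p (inflIrr Z t).1) = pRegularPart p t.1 := by
    intro t
    funext q
    show (if p ∣ orderOf q then 0 else pRegularPart p (inflIrr Z t).1 (lift q)) = _
    by_cases h : p ∣ orderOf q
    · rw [if_pos h, pRegularPart_of_singular p _ h]
    · rw [if_neg h, pRegularPart_of_regular p _ h, pRegularPart_of_regular p _ (hl q h).2,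
        inflIrr_apply, (hl q h).1]
  unfold blockRank
  have hle : Submodule.span ℂ ((fun χ : IrrCharacter (K ⧸ Z) => pRegularPart p (χ : K ⧸ Z → ℂ)) '' B') ≤
      (Submodule.span ℂ ((fun χ : IrrCharacter K => pRegularPart p (χ : K → ℂ)) '' B)).map Φ := by
    rw [Submodule.span_le]
    rintro _ ⟨t, ht, rfl⟩
    exact ⟨_, Submodule.subset_span ⟨inflIrr Z t, hsub t ht, rfl⟩, hΦ t⟩
  exact (Submodule.finrank_mono hle).trans (Submodule.finrank_map_le _ _)

theorem card_reg_classes_le (Z : Subgroup K) [Z.Normal] (hZc : ∀ z ∈ Z, ∀ g, z * g = g * z)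
    (hZp : IsPGroup p Z) :
    Nat.card {c : ConjClasses K // ¬ p ∣ orderOf c.out} ≤
      Nat.card {c : ConjClasses (K ⧸ Z) // ¬ p ∣ orderOf c.out} := by
  classical
  have hout : ∀ {X : Type u} [Group X] (x : X), IsConj (ConjClasses.mk x).out x := fun x =>
    ConjClasses.mk_eq_mk_iff_isConj.mp (Quotient.out_eq' (ConjClasses.mk x))
  have hord : ∀ {X : Type u} [Group X] {x y : X}, IsConj x y → orderOf x = orderOf y := by
    intro X _ x y h
    obtain ⟨c, rfl⟩ := isConj_iff.1 h
    exact (orderOf_injective (MulAut.conj c).toMonoidHom (MulEquiv.injective _) x).symm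
  refine Nat.card_le_card_of_injective
    (fun c => ⟨ConjClasses.mk ((c.1.out : K) : K ⧸ Z), ?_⟩) ?_
  · intro h
    rw [hord (hout _)] at h
    exact c.2 (h.trans (orderOf_map_dvd (QuotientGroup.mk' Z) c.1.out))
  · rintro ⟨c, hc⟩ ⟨c', hc'⟩ h
    apply Subtype.ext
    have h1 : ConjClasses.mk ((c.out : K) : K ⧸ Z) = ConjClasses.mk ((c'.out : K) : K ⧸ Z) :=
      congrArg Subtype.val h
    rw [ConjClasses.mk_eq_mk_iff_isConj, isConj_iff] at h1
    obtain ⟨g0, hg⟩ := h1
    obtain ⟨g, rfl⟩ := QuotientGroup.mk_surjective g0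
    set x := c.out with hx
    set y := c'.out with hy
    have h2 : (((g * x * g⁻¹ : K)) : K ⧸ Z) = (y : K ⧸ Z) := by
      rw [← hg]
      rfl
    have hz : (g * x * g⁻¹)⁻¹ * y ∈ Z := QuotientGroup.eq.mp h2
    set z := (g * x * g⁻¹)⁻¹ * y with hzd
    have hyw : y = g * x * g⁻¹ * z := by
      rw [hzd]
      group
    set w := g * x * g⁻¹ with hw
    have hcomm : Commute w z := ((hZc z hz w)).symm
    set m := orderOf x * orderOf y with hm
    have hwm : w ^ m = 1 := by
      have h3 : orderOf w = orderOf x := hord (isConj_iff.2 ⟨g, rfl⟩ : IsConj x w).symm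
      rw [hm, pow_mul, ← h3, pow_orderOf_eq_one, one_pow]
    have hym : y ^ m = 1 := by
      rw [hm, mul_comm, pow_mul, pow_orderOf_eq_one, one_pow]
    have hzm : z ^ m = 1 := by
      have h3 := hcomm.mul_pow m
      rw [← hyw, hym, hwm, one_mul] at h3
      exact h3.symm
    have hz1 : z = 1 := by
      have h4 : orderOf z ∣ m := orderOf_dvd_of_pow_eq_one hzm
      obtain ⟨j, hj⟩ := (IsPGroup.iff_orderOf.1 hZp) ⟨z, hz⟩
      rw [Subgroup.orderOf_mk] at hj
      rw [hj] at h4
      rcases j with _ | j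
      · rw [pow_zero] at hj
        exact orderOf_eq_one_iff.1 hj
      · exfalso
        have h5 : p ∣ m := (dvd_pow_self p (Nat.succ_ne_zero j)).trans h4
        rcases (hp.out.dvd_mul).1 h5 with h6 | h6
        · exact hc h6
        · exact hc' h6
    have hconj : IsConj x y := by
      rw [isConj_iff]
      refine ⟨g, ?_⟩
      rw [hyw, hz1, mul_one]
    have hc1 : c = ConjClasses.mk x := (Quotient.out_eq' c).symm
    have hc2 : c' = ConjClasses.mk y := (Quotient.out_eq' c').symm
    exact hc1.trans ((ConjClasses.mk_eq_mk_iff_isConj.mpr hconj).trans hc2.symm)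

/-- Inflation induces an equality of `p`-regular ranks of blocks. -/
theorem blockRank_infl_eq (hM : IsPModular p M) (Z : Subgroup K) [hZn : Z.Normal]
    (hZc : ∀ z ∈ Z, ∀ g, z * g = g * z) (hZp : IsPGroup p Z) (t : IrrCharacter (K ⧸ Z)) :
    blockRank p (blockOf M t.1) = blockRank p (blockOf M (inflIrr Z t).1) := by
  classical
  haveI : M.IsPrime := hM.2.1.isPrime
  have hidx := central_idx (p := p) Z hZc
  let F : Set (IrrCharacter (K ⧸ Z)) → Set (IrrCharacter K) := fun b =>
    if h : b.Nonempty then blockOf M (inflIrr Z h.some).1 else ∅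
  have hF : ∀ {b} (hb : IsPBlock M b) {u : IrrCharacter (K ⧸ Z)}, u ∈ b → F b = blockOf M (inflIrr Z u).1 := by
    intro b hb u hu
    have hne : b.Nonempty := ⟨u, hu⟩
    simp only [F, dif_pos hne]
    have h1 : SameBlock M (inflIrr Z hne.some).1 (inflIrr Z u).1 :=
      sameBlock_inflate Z (block_sameBlock hb hne.some_mem hu)
    exact (blockOf_eq_of_mem (χ := inflIrr Z hne.some) (ψ := inflIrr Z u) h1).symm
  have hle : ∀ b ∈ blocksF M (K ⧸ Z), blockRank p b ≤ blockRank p (F b) := by
    intro b hb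
    have hb' := mem_blocksF.mp hb
    refine blockRank_le_of_infl Z (fun u hu => ?_)
    rw [hF hb' hu]
    exact self_mem_blockOf _
  have hsum : ∑ b ∈ blocksF M (K ⧸ Z), blockRank p (F b) = ∑ B ∈ blocksF M K, blockRank p B := by
    refine Finset.sum_nbij F ?_ ?_ ?_ (fun _ _ => rfl)
    · intro b hb
      obtain ⟨u, hu⟩ := block_nonempty (mem_blocksF.mp hb)
      rw [hF (mem_blocksF.mp hb) hu]
      exact mem_blocksF.mpr (isBlock_blockOf _)
    · intro b hb b' hb' heq
      have hb1 := mem_blocksF.mp (Finset.mem_coe.mp hb)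
      have hb2 := mem_blocksF.mp (Finset.mem_coe.mp hb')
      obtain ⟨u, hu⟩ := block_nonempty hb1
      obtain ⟨u', hu'⟩ := block_nonempty hb2
      rw [hF hb1 hu, hF hb2 hu'] at heq
      have h1 : inflIrr Z u' ∈ blockOf M (inflIrr Z u).1 := by
        rw [heq]
        exact self_mem_blockOf _
      have h2 : SameBlock M u.1 u'.1 := (sameBlock_quot_iff hM hZp hidx u u').2 h1
      have h3 : u' ∈ b := blockSat_of_isBlock hb1 _ _ h2 hu
      exact block_eq_of_inter hb1 hb2 h3 hu'
    · intro B hB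
      have hB' := mem_blocksF.mp (Finset.mem_coe.mp hB)
      obtain ⟨u, θ, hθ, hθeq⟩ := exists_inflation_in_block hM hZp hidx hB'
      have h1 : inflIrr Z u = θ := Subtype.ext hθeq.symm
      refine ⟨blockOf M u.1, Finset.mem_coe.mpr (mem_blocksF.mpr (isBlock_blockOf u)), ?_⟩
      show F _ = B
      rw [hF (isBlock_blockOf u) (self_mem_blockOf u), h1]
      exact (block_eq_of_mem hB' hθ).symm
  have h1 := sum_blockRank_eq (p := p) (M := M) (K := K ⧸ Z) hM
  have h2 := sum_blockRank_eq (p := p) (M := M) (K := K) hM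
  have h3 := card_reg_classes_le (p := p) Z hZc hZp
  have hge : ∑ b ∈ blocksF M (K ⧸ Z), blockRank p (F b) ≤ ∑ b ∈ blocksF M (K ⧸ Z), blockRank p b := by
    rw [hsum, h1, h2]
    exact h3
  have heq := (Finset.sum_eq_sum_iff_of_le hle).mp (le_antisymm (Finset.sum_le_sum hle) hge)
  have h4 := heq (blockOf M t.1) (mem_blocksF.mpr (isBlock_blockOf t))
  rw [h4, hF (isBlock_blockOf t) (self_mem_blockOf t)]

/-- **A block with central defect group has one Brauer character.** -/
theorem blockRank_central (hM : IsPModular p M) (Z : Subgroup K) [hZn : Z.Normal]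
    (hZc : ∀ z ∈ Z, ∀ g, z * g = g * z) (hZp : IsPGroup p Z) {f : Set (IrrCharacter K)}
    (hf : IsPBlock M f) (hD : IsDefectGroup p M f Z) : blockRank p f = 1 := by
  classical
  haveI : M.IsPrime := hM.2.1.isPrime
  obtain ⟨θ, hθ, hker, hdeg⟩ := exists_ker_of_central_defect hM Z hZc hZp hf hD
  obtain ⟨tf, htf, htθ⟩ := exists_descend Z θ.2 hker
  let t : IrrCharacter (K ⧸ Z) := ⟨tf, htf⟩
  have hinfl : inflIrr Z t = θ := Subtype.ext htθ
  have hcard : Nat.card K = Nat.card (K ⧸ Z) * Nat.card Z :=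
    Subgroup.card_eq_card_quotient_mul_card_subgroup Z
  have hfac : (Nat.card K).factorization p =
      (Nat.card (K ⧸ Z)).factorization p + (Nat.card Z).factorization p := by
    rw [hcard, Nat.factorization_mul Nat.card_pos.ne' Nat.card_pos.ne']
    rfl
  have hdegt : charDegree t.1 = charDegree θ.1 := by
    unfold charDegree
    show ⌊(tf 1).re⌋₊ = _
    rw [← htθ]
    simp
  have hdz : ¬ p ∣ Nat.card (K ⧸ Z) / charDegree t.1 := by
    rw [not_dvd_codegree_iff, hdegt]
    omega
  have hsing : blockOf M t.1 = {t} := by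
    ext ψ
    rw [mem_blockOf, Set.mem_singleton_iff]
    constructor
    · exact fun h => eq_of_mem_block_of_defect_zero hM t hdz h
    · rintro rfl
      exact sameBlock_refl _
  have h1 := blockRank_infl_eq hM Z hZc hZp t
  rw [hinfl, ← block_eq_of_mem hf hθ, hsing] at h1
  rw [← h1]
  unfold blockRank
  rw [Set.image_singleton]
  apply finrank_span_singleton
  intro h0
  have h2 := congrFun h0 1
  rw [pRegularPart_of_regular p _ (by
    rw [orderOf_one]
    exact hp.out.one_lt.ne' ∘ Nat.dvd_one.mp)] at h2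
  exact irr_one_ne_zero' t h2

end Cfsg.Agent.H22
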