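import Cfsg.Agent.Lib.H22.Ord
import Cfsg.Agent.Lib.H22.Rank
import Cfsg.Agent.Lib.H21.CharInd
import Mathlib.LinearAlgebra.Matrix.Nonsingular

/-!
# Separated classes: the central characters have full rank modulo `M`

If `x₁, …, x_r` are pairwise non-conjugate and `g h⁻¹` is never a non-identity `p`-element for
conjugates `g`, `h` of the `x_i`, then the `r` columns `(ω_χ(x_j))_χ` are linearly independent
modulo `M`.
-/

set_option autoImplicit false
set_option linter.unusedSectionVars false
set_option linter.style.haveILetI false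
set_option linter.unusedSimpArgs false

namespace Cfsg.Agent.H22

open Cfsg Cfsg.Agent.H21 Module Matrix
open scoped ComplexConjugate

universe u

section Identity

variable {H : Type u} [Group H] [Fintype H] [Fintype (IrrCharacter H)]

/-- The coefficient function. -/
noncomputable def sepCoeff {r : ℕ} (x : Fin r → H) (b : Fin r → ℂ) (g : H) : ℂ :=
  ∑ j, b j * classIndicator (x j) g

theorem sepCoeff_isClass {r : ℕ} (x : Fin r → H) (b : Fin r → ℂ) :
    IsClassFunction H (sepCoeff x b) := by
  intro g k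
  unfold sepCoeff
  refine Finset.sum_congr rfl fun j _ => ?_
  rw [classIndicator_isClass (x j) g k]

theorem om_sepCoeff {r : ℕ} (x : Fin r → H) (b : Fin r → ℂ) (χ : IrrCharacter H) :
    om χ (sepCoeff x b) = ∑ j, b j * cc (x j) χ := by
  unfold om sepCoeff
  simp_rw [Finset.sum_mul, Finset.mul_sum]
  rw [Finset.sum_comm]
  refine Finset.sum_congr rfl fun j _ => ?_
  rw [← om_classIndicator]
  unfold om
  rw [Finset.mul_sum, Finset.mul_sum]
  refine Finset.sum_congr rfl fun g _ => ?_
  ring

theorem sep_identity {p : ℕ} [hp : Fact p.Prime] (P : Sylow p H) [Fintype (P : Subgroup H)] {r : ℕ} (x : Fin r → H)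
    (hx : ∀ i j, IsConj (x i) (x j) → i = j)
    (hsep : ∀ i j : Fin r, ∀ g h : H, IsConj (x i) g → IsConj (x j) h → ∀ k : ℕ, 0 < k →
      orderOf (g * h⁻¹) ≠ p ^ k) (b : Fin r → ℂ) (i₀ : Fin r) :
    (Nat.card H : ℂ) * b i₀ = ∑ χ : IrrCharacter H, om χ (sepCoeff x b) * χ.1 (x i₀)⁻¹ *
      ∑ u : (P : Subgroup H), χ.1 (u : H)⁻¹ := by
  classical
  set a := sepCoeff x b with ha
  have hac : IsClassFunction H a := sepCoeff_isClass x b
  have hval : a (x i₀) = b i₀ := by
    rw [ha]
    unfold sepCoeff
    rw [Finset.sum_eq_single i₀]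
    · have : classIndicator (x i₀) (x i₀) = 1 := if_pos (IsConj.refl _)
      rw [this, mul_one]
    · intro j _ hj
      have : classIndicator (x j) (x i₀) = 0 := if_neg (fun h => hj (hx _ _ h).symm)
      rw [this, mul_zero]
    · intro h; exact absurd (Finset.mem_univ _) h
  have hzero : ∀ (u : (P : Subgroup H)), u ≠ 1 → ∀ c : H, a ((u : H) * (c * x i₀ * c⁻¹)) = 0 := by
    intro u hu c
    rw [ha]
    unfold sepCoeff
    refine Finset.sum_eq_zero fun j _ => ?_
    have : classIndicator (x j) ((u : H) * (c * x i₀ * c⁻¹)) = 0 := by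
      refine if_neg fun hconj => ?_
      obtain ⟨k, hk⟩ := (IsPGroup.iff_orderOf.1 P.isPGroup') u
      have hk0 : 0 < k := by
        rcases Nat.eq_zero_or_pos k with h | h
        · subst h
          rw [pow_zero, orderOf_eq_one_iff] at hk
          exact absurd hk hu
        · exact h
      refine hsep j i₀ _ _ hconj.symm (isConj_iff.2 ⟨c, rfl⟩) k hk0 ?_
      rw [mul_inv_cancel_right, ← hk]
      exact (Subgroup.orderOf_coe u)
    rw [this, mul_zero]
  -- the left side
  have hL : ∑ u : (P : Subgroup H), ∑ c : H, a ((u : H) * (c * x i₀ * c⁻¹)) = (Nat.card H : ℂ) * b i₀ := by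
    rw [Finset.sum_eq_single (1 : (P : Subgroup H))]
    · have : ∀ c : H, a (((1 : (P : Subgroup H)) : H) * (c * x i₀ * c⁻¹)) = b i₀ := by
        intro c
        rw [Subgroup.coe_one, one_mul, hac, hval]
      simp only [this, Finset.sum_const, Finset.card_univ, nsmul_eq_mul, Nat.card_eq_fintype_card]
    · intro u _ hu
      exact Finset.sum_eq_zero fun c _ => hzero u hu c
    · intro h; exact absurd (Finset.mem_univ _) h
  rw [← hL]
  -- the expansion
  have hexp : ∀ w : H, a w = (Nat.card H : ℂ)⁻¹ * ∑ χ : IrrCharacter H,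
      om χ a * (χ.1 1 * χ.1 w⁻¹) := by
    intro w
    have h1 := congrFun (ofOm_om a hac) w
    unfold ofOm at h1
    conv_lhs => rw [← h1]
    congr 1
    refine Finset.sum_congr rfl fun χ _ => ?_
    rw [irr_inv']
  have hN := card_ne_zero_C (G := H)
  have hinner : ∀ (χ : IrrCharacter H) (u : H), ∑ c : H, χ.1 ((u * (c * x i₀ * c⁻¹))⁻¹) =
      (Nat.card H : ℂ) * χ.1 (x i₀)⁻¹ * χ.1 u⁻¹ / χ.1 1 := by
    intro χ u
    rw [← sum_conj_mul_char χ (x i₀)⁻¹ u⁻¹]
    refine Finset.sum_congr rfl fun c _ => ?_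
    congr 1
    group
  calc ∑ u : (P : Subgroup H), ∑ c : H, a ((u : H) * (c * x i₀ * c⁻¹))
      = ∑ u : (P : Subgroup H), ∑ c : H, (Nat.card H : ℂ)⁻¹ * ∑ χ : IrrCharacter H,
          om χ a * (χ.1 1 * χ.1 (((u : H) * (c * x i₀ * c⁻¹))⁻¹)) := by
        refine Finset.sum_congr rfl fun u _ => Finset.sum_congr rfl fun c _ => ?_
        rw [hexp]
    _ = ∑ u : (P : Subgroup H), ∑ χ : IrrCharacter H, (Nat.card H : ℂ)⁻¹ * (om χ a * χ.1 1 *
          ∑ c : H, χ.1 (((u : H) * (c * x i₀ * c⁻¹))⁻¹)) := by
        refine Finset.sum_congr rfl fun u _ => ?_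
        simp_rw [Finset.mul_sum]
        rw [Finset.sum_comm]
        refine Finset.sum_congr rfl fun χ _ => Finset.sum_congr rfl fun c _ => ?_
        ring
    _ = ∑ χ : IrrCharacter H, om χ a * χ.1 (x i₀)⁻¹ * ∑ u : (P : Subgroup H), χ.1 (u : H)⁻¹ := by
        rw [Finset.sum_comm]
        refine Finset.sum_congr rfl fun χ _ => ?_
        rw [Finset.mul_sum]
        refine Finset.sum_congr rfl fun u _ => ?_
        rw [hinner]
        have h3 := irr_one_ne_zero' χ
        field_simp

end Identity

section Local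

variable {H : Type u} [Group H] [Finite H] {p : ℕ} [hp : Fact p.Prime] {M : Ideal AlgInt}
  [hMp : M.IsPrime]

/-- Independence of the columns modulo `M`. -/
theorem sep_columns_independent (hM : IsPModular p M) {r : ℕ} (x : Fin r → H)
    (hx : ∀ i j, IsConj (x i) (x j) → i = j)
    (hsep : ∀ i j : Fin r, ∀ g h : H, IsConj (x i) g → IsConj (x j) h → ∀ k : ℕ, 0 < k →
      orderOf (g * h⁻¹) ≠ p ^ k) (b : Fin r → ℂ)
    (hb : ∀ χ : IrrCharacter H, MemLocalIdeal M (∑ j, b j * centralChar χ.1 (x j))) (i₀ : Fin r) :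
    MemLocalIdeal M (b i₀) := by
  classical
  haveI : Fintype H := Fintype.ofFinite H
  haveI : Fintype (IrrCharacter H) := Fintype.ofFinite _
  obtain ⟨P⟩ : Nonempty (Sylow p H) := inferInstance
  haveI : Fintype (P : Subgroup H) := Fintype.ofFinite _
  have hid := sep_identity P x hx hsep b i₀
  -- the multiplicities
  have hmult : ∀ χ : IrrCharacter H, ∃ m : ℕ, ∑ u : (P : Subgroup H), χ.1 (u : H)⁻¹ =
      (Nat.card (P : Subgroup H) : ℂ) * m := by
    intro χ
    haveI : Fintype (IrrCharacter (P : Subgroup H)) := Fintype.ofFinite _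
    have hc := isCharacter_restrict (P : Subgroup H) (isCharacter_of_irr χ.2)
    obtain ⟨m, hm⟩ := classInner_isNat hc (oneIrr (P : Subgroup H))
    refine ⟨m, ?_⟩
    rw [← hm]
    unfold classInner oneIrr
    have hne : (Nat.card (P : Subgroup H) : ℂ) ≠ 0 := by exact_mod_cast Nat.card_pos.ne'
    rw [← mul_assoc, mul_inv_cancel₀ hne, one_mul]
    simp only [map_one, mul_one]
    rw [← Equiv.sum_comp (Equiv.inv (P : Subgroup H))]
    refine Finset.sum_congr rfl fun u _ => ?_
    simp
  choose m hm using hmult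
  have hcard : (Nat.card H : ℂ) = ((P : Subgroup H).index : ℂ) * (Nat.card (P : Subgroup H) : ℂ) := by
    rw [mul_comm]
    exact_mod_cast (Subgroup.card_mul_index (P : Subgroup H)).symm
  have hne : (Nat.card (P : Subgroup H) : ℂ) ≠ 0 := by exact_mod_cast Nat.card_pos.ne'
  have hid2 : ((P : Subgroup H).index : ℂ) * b i₀ = ∑ χ : IrrCharacter H, om χ (sepCoeff x b) *
      χ.1 (x i₀)⁻¹ * (m χ : ℂ) := by
    apply mul_left_cancel₀ hne
    rw [Finset.mul_sum]
    calc _ = (Nat.card H : ℂ) * b i₀ := by rw [hcard]; ring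
      _ = _ := hid
      _ = _ := by
        refine Finset.sum_congr rfl fun χ _ => ?_
        rw [hm χ]; ring
  have hI : ¬ MemLocalIdeal M (((P : Subgroup H).index : ℕ) : ℂ) := by
    rw [mli_natCast_iff hM]
    exact P.not_dvd_index
  have h1 : MemLocalIdeal M (((P : Subgroup H).index : ℂ) * b i₀) := by
    rw [hid2]
    refine mli_sum _ _ fun χ _ => ?_
    rw [om_sepCoeff, mul_assoc]
    refine mli_mul_right ?_ (mlr_mul (mlr_of_isIntegral (irr_isIntegral' χ _)) (mlr_natCast _))
    exact hb χ
  have h2 : b i₀ = ((P : Subgroup H).index : ℂ)⁻¹ * (((P : Subgroup H).index : ℂ) * b i₀) := by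
    have h3 : ((P : Subgroup H).index : ℂ) ≠ 0 := by
      intro h0
      apply hI
      rw [h0]
      exact mli_zero
    field_simp
  rw [h2]
  exact mli_mul_left h1 (mlr_inv (mlr_natCast _) hI).2

end Local

section Minor

variable {M : Ideal AlgInt} [hMp : M.IsPrime]

/-- A matrix with columns independent modulo `M` has a maximal minor outside the ideal. -/
theorem exists_minor_of_independent {ι : Type*} {r : ℕ} (A : ι → Fin r → locR M)
    (hA : ∀ b : Fin r → locR M, (∀ i, MemLocalIdeal M (∑ j, (b j : ℂ) * (A i j : ℂ))) →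
      ∀ j, MemLocalIdeal M (b j : ℂ)) :
    ∃ f : Fin r → ι, ¬ MemLocalIdeal M
      (Matrix.det (Matrix.of fun i j : Fin r => ((A (f i) j : locR M) : ℂ))) := by
  classical
  let K := IsLocalRing.ResidueField (locR M)
  let π : locR M →+* K := piK M
  let v : ι → (Fin r → K) := fun i j => π (A i j)
  have hspan : Submodule.span K (Set.range v) = ⊤ := by
    by_contra hne
    obtain ⟨φ, hφ0, hle⟩ := Submodule.exists_le_ker_of_lt_top _ (lt_top_iff_ne_top.2 hne)
    let c : Fin r → K := fun j => φ (Pi.single j 1)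
    choose b hbc using fun j => piK_surjective M (c j)
    have hφ : ∀ y : Fin r → K, φ y = ∑ j, c j * y j := by
      intro y
      rw [LinearMap.pi_apply_eq_sum_univ φ y]
      refine Finset.sum_congr rfl fun j _ => ?_
      rw [smul_eq_mul, mul_comm]
      congr 2
      funext k
      simp [Pi.single_apply, eq_comm]
    have h1 : ∀ i, MemLocalIdeal M (∑ j, (b j : ℂ) * (A i j : ℂ)) := by
      intro i
      have h2 : φ (v i) = 0 := hle (Submodule.subset_span ⟨i, rfl⟩)
      rw [hφ] at h2
      have h3 : π (∑ j, b j * A i j) = 0 := by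
        rw [map_sum]
        rw [← h2]
        refine Finset.sum_congr rfl fun j _ => ?_
        rw [map_mul]
        show piK M (b j) * _ = _
        rw [hbc]
      have h4 := (piK_eq_zero_iff (∑ j, b j * A i j)).1 h3
      convert h4 using 1
      push_cast
      rfl
    have h2 := hA b h1
    apply hφ0
    ext y
    rw [LinearMap.comp_apply, LinearMap.zero_comp, LinearMap.zero_apply]
    have h3 : c y = 0 := by
      rw [← hbc y]
      exact (piK_eq_zero_iff _).2 (h2 y)
    exact h3
  obtain ⟨κ, a, -, hsp, hli⟩ := exists_linearIndependent' K v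
  rw [hspan] at hsp
  let B := Basis.mk hli (by rw [hsp])
  haveI : Fintype κ := FiniteDimensional.fintypeBasisIndex B
  have hcard : Fintype.card κ = r := by
    have := Module.finrank_eq_card_basis B
    simpa using this.symm
  let e : Fin r ≃ κ := (Fintype.equivFinOfCardEq hcard).symm
  refine ⟨a ∘ e, ?_⟩
  let A' : Matrix (Fin r) (Fin r) (locR M) := Matrix.of fun i j => A (a (e i)) j
  have hli2 : LinearIndependent K (A'.map π).row := by
    have : (A'.map π).row = (v ∘ a) ∘ e := by
      funext i j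
      rfl
    rw [this]
    exact hli.comp _ e.injective
  have hns := Matrix.Nonsingular.of_linearIndependent_row hli2
  have hdet : (A'.map π).det ≠ 0 := (Matrix.nonsingular_iff_det_ne_zero).1 hns
  have h1 : π A'.det ≠ 0 := by
    rw [RingHom.map_det]
    exact hdet
  have h2 : ¬ MemLocalIdeal M ((A'.det : locR M) : ℂ) := fun h => h1 ((piK_eq_zero_iff _).2 h)
  have h3 : ((A'.det : locR M) : ℂ) = Matrix.det (Matrix.of fun i j : Fin r =>
      ((A ((a ∘ e) i) j : locR M) : ℂ)) := by
    have := RingHom.map_det (iotaC M) A'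
    exact this
  rw [← h3]
  exact h2

end Minor

end Cfsg.Agent.H22
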