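import Cfsg.Agent.Lib.H22.BrauerCorr
import Cfsg.Agent.Lib.H22.SepRank
import Cfsg.Agent.Lib.H22.TCase
import Cfsg.Agent.Lib.H21.CentralDefect
import Cfsg.Agent.Lib.H21.InducedBlock

/-!
# Blocks detected by separated classes
-/

set_option autoImplicit false
set_option linter.unusedSectionVars false
set_option linter.style.haveILetI false
set_option linter.unusedSimpArgs false

namespace Cfsg.Agent.H22

open Cfsg Cfsg.Agent.H21 Module Matrix
open scoped ComplexConjugate

universe u

theorem quad_deg_ne_zero' {G : Type u} [Group G] [Finite G] (χ : IrrCharacter G) : (charDegree χ.1) ≠ 0 := by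
  haveI : Fintype G := Fintype.ofFinite G
  exact (irr_charDegree_pos χ.2).ne'

section Mats

attribute [-instance] Cfsg.Agent.H22.fintypeOfFiniteH22

variable {M : Ideal AlgInt} [hMp : M.IsPrime] {r : ℕ}

theorem not_mli_det_congr (A B : Fin r → Fin r → ℂ) (hA : ∀ i j, MemLocalRing M (A i j))
    (hB : ∀ i j, MemLocalRing M (B i j)) (hAB : ∀ i j, MemLocalIdeal M (A i j - B i j))
    (h : ¬ MemLocalIdeal M (Matrix.det (Matrix.of A))) : ¬ MemLocalIdeal M (Matrix.det (Matrix.of B)) := by
  let a : Matrix (Fin r) (Fin r) (locR M) := Matrix.of fun i j => ⟨A i j, hA i j⟩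
  let b : Matrix (Fin r) (Fin r) (locR M) := Matrix.of fun i j => ⟨B i j, hB i j⟩
  have ha : ((a.det : locR M) : ℂ) = Matrix.det (Matrix.of A) := RingHom.map_det (iotaC M) a
  have hb : ((b.det : locR M) : ℂ) = Matrix.det (Matrix.of B) := RingHom.map_det (iotaC M) b
  rw [← ha] at h
  rw [← hb]
  have hmap : a.map (piK M) = b.map (piK M) := by
    ext i j
    exact (piK_eq_iff _ _).2 (hAB i j)
  have heq : piK M a.det = piK M b.det := by
    rw [RingHom.map_det, RingHom.map_det]
    exact congrArg Matrix.det hmap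
  intro h2
  apply h
  rw [← piK_eq_zero_iff] at h2 ⊢
  rw [heq]
  exact h2

theorem mli_det_of_row (A : Fin r → Fin r → ℂ) (hA : ∀ i j, MemLocalRing M (A i j)) (i : Fin r)
    (h : ∀ j, MemLocalIdeal M (A i j)) : MemLocalIdeal M (Matrix.det (Matrix.of A)) := by
  let a : Matrix (Fin r) (Fin r) (locR M) := Matrix.of fun i j => ⟨A i j, hA i j⟩
  have ha : ((a.det : locR M) : ℂ) = Matrix.det (Matrix.of A) := RingHom.map_det (iotaC M) a
  rw [← ha, ← piK_eq_zero_iff, RingHom.map_det]
  apply Matrix.det_eq_zero_of_row_eq_zero i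
  intro j
  exact (piK_eq_zero_iff _).2 (h j)

theorem mli_det_of_rows (A : Fin r → Fin r → ℂ) (hA : ∀ i j, MemLocalRing M (A i j)) {i i' : Fin r}
    (hne : i ≠ i') (h : ∀ j, MemLocalIdeal M (A i j - A i' j)) :
    MemLocalIdeal M (Matrix.det (Matrix.of A)) := by
  let a : Matrix (Fin r) (Fin r) (locR M) := Matrix.of fun i j => ⟨A i j, hA i j⟩
  have ha : ((a.det : locR M) : ℂ) = Matrix.det (Matrix.of A) := RingHom.map_det (iotaC M) a
  rw [← ha, ← piK_eq_zero_iff, RingHom.map_det]
  apply Matrix.det_zero_of_row_eq hne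
  funext j
  exact (piK_eq_iff _ _).2 (h j)

end Mats

section Main

variable {G : Type u} [Group G] [Finite G] {p : ℕ} [hp : Fact p.Prime] {M : Ideal AlgInt}

/-- **Brauer correspondence, from `H`**, with the induced block statement. -/
theorem brauer_corr_up_ind (hM : IsPModular p M) {P H : Subgroup G} (hP : IsPGroup p P)
    (hH : Subgroup.normalizer (P : Set G) ≤ H) {c : Set (IrrCharacter H)} (hc : IsPBlock M c)
    (hcD : IsDefectGroup p M c (P.subgroupOf H)) :
    ∃ B : Set (IrrCharacter G), IsPBlock M B ∧ IsDefectGroup p M B P ∧ IsInducedBlock M H c B := by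
  classical
  haveI : M.IsPrime := hM.2.1.isPrime
  have hPH : P ≤ H := Subgroup.le_normalizer.trans hH
  have hCH : Subgroup.centralizer (P : Set G) ≤ H := (Subgroup.centralizer_le_normalizer _).trans hH
  have hz := zcomp_subgroupOf (M := M) hM hPH hCH
  have hP' : IsPGroup p (P.subgroupOf H) := hP.comap_of_injective _ (Subgroup.subtype_injective H)
  obtain ⟨e₀, hmax₀⟩ := exists_maximal_on_defect hM hcD hc
  have hcb := isBrauerPairOf_iff.mp hmax₀.1
  have heb : IsBrauerPair p M P (irrMap (zIso hz) '' e₀) := ⟨hP, isPBlock_image _ hcb.1.2⟩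
  obtain ⟨B, hBpair, hBuniq⟩ := existsUnique_block_of_pair hM heb
  have hBb := isBrauerPairOf_iff.mp hBpair
  have hB : IsPBlock M B := hBb.2.1
  obtain ⟨ξ₀, hξ₀⟩ := block_nonempty hcb.1.2
  have hind : IsInducedBlock M H c B := ⟨hc, hB, fun ψ hψ χ hχ g =>
    indCC_congr_of_pair hM hz hP' hP hc hB (hcb.2.2 hξ₀) (hBb.2.2 ⟨ξ₀, hξ₀, rfl⟩) hψ hχ g⟩
  -- maximality
  have hmax : IsMaximalBrauerPair p M B P (irrMap (zIso hz) '' e₀) := by
    refine ⟨hBpair, fun R g hRg hle => ?_⟩
    by_contra hne
    obtain ⟨⟨R₁, g₁⟩, hstep, hlt⟩ := exists_normal_step hle (Ne.symm hne)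
    have hstep' : IsNormalSubpair p M P (irrMap (zIso hz) '' e₀) R₁ g₁ := hstep
    obtain ⟨hb₁, hb₂, hle₁, hN, hstb, hsub⟩ := isNormalSubpair_iff.mp hstep'
    have hlt' : P < R₁ := hlt
    have hR₁H : R₁ ≤ H := hN.trans hH
    have hz₁ : ZComp H (R₁.subgroupOf H) R₁ :=
      zcomp_subgroupOf (M := M) hM hR₁H ((centralizer_le_of_le hle₁).trans hCH)
    have h1 := normalSubpair_descend_H hM (map_subgroupOf_subtype hPH) hCH hz hR₁H hz₁ hstep'
    have h2 := isBrauerPairOf_of_normalSubpair hM h1 hmax₀.1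
    have h3 := hmax₀.2 _ _ h2 (Relation.ReflTransGen.single h1)
    have h4 : R₁ = P := by
      have h5 := map_subgroupOf_subtype hR₁H
      rw [h3, map_subgroupOf_subtype hPH] at h5
      exact h5.symm
    exact hlt'.ne h4.symm
  exact ⟨B, hB, isDefectGroup_of_maximal hM hmax, hind⟩

/-- A normal `p`-subgroup maximal in the centralizer of a class with nonzero central character is
the defect group. -/
theorem defect_of_normal_cc {Y : Type u} [Group Y] [Finite Y] (hM : IsPModular p M) {Q : Subgroup Y}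
    [hQn : Q.Normal] (hQ : IsPGroup p Q) (χ : IrrCharacter Y) {y : Y} (hy : ¬ MemLocalIdeal M (cc y χ))
    (hQy : Q ≤ Subgroup.centralizer ({y} : Set Y))
    (hmax : ∀ U : Subgroup Y, IsPGroup p U → Q ≤ U → U ≤ Subgroup.centralizer ({y} : Set Y) → U = Q) :
    IsDefectGroup p M (blockOf M χ.1) Q := by
  classical
  haveI : M.IsPrime := hM.2.1.isPrime
  have hB : IsPBlock M (blockOf M χ.1) := isBlock_blockOf χ
  obtain ⟨D₁, hD₁⟩ := isDefectGroup_exists (p := p) hB
  have hle : Q ≤ D₁ := normal_le_defect hM hQ hB hD₁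
  have hsub := subConj_of_cc hM hB hD₁ (self_mem_blockOf χ) hy hQ hQy hmax
  obtain ⟨t, ht⟩ := hsub
  have hcard : Nat.card D₁ ≤ Nat.card Q := by
    have h1 : D₁.map (MulAut.conj t).toMonoidHom ≤ Q := by
      rintro _ ⟨s, hs, rfl⟩
      exact ht s hs
    calc Nat.card D₁ = Nat.card (D₁.map (MulAut.conj t).toMonoidHom) :=
          (Subgroup.card_map_of_injective (MulEquiv.injective _)).symm
      _ ≤ Nat.card Q := Subgroup.card_le_of_le h1
  have : D₁ = Q := (Subgroup.eq_of_le_of_card_ge hle hcard).symm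
  rwa [← this]

/-- Two elements of `C_G(D)` conjugate in `G` are conjugate in `N_G(D)`, when `D` is Sylow in the
centralizer. -/
theorem conj_in_normalizer {D : Subgroup G} (hDp : IsPGroup p D) {x0 h : G}
    (hDx : D ≤ Subgroup.centralizer ({x0} : Set G))
    (hmax : ∀ U : Subgroup G, IsPGroup p U → D ≤ U → U ≤ Subgroup.centralizer ({x0} : Set G) → U = D)
    (hDh : D ≤ Subgroup.centralizer ({h} : Set G)) (hconj : IsConj x0 h) :
    ∃ n ∈ Subgroup.normalizer (D : Set G), n * h * n⁻¹ = x0 := by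
  classical
  obtain ⟨g, hg⟩ := isConj_iff.1 hconj
  let C := Subgroup.centralizer ({h} : Set G)
  obtain ⟨T⟩ : Nonempty (Sylow p C) := inferInstance
  let E := D.map (MulAut.conj g).toMonoidHom
  have hE : IsPGroup p E := hDp.map _
  have hEC : E ≤ C := by
    rintro _ ⟨d, hd, rfl⟩
    rw [mem_centralizer_singleton_iff]
    have h1 : x0 * d = d * x0 := mem_centralizer_singleton_iff.1 (hDx hd)
    simp only [MulEquiv.coe_toMonoidHom, MulAut.conj_apply, ← hg]
    calc g * x0 * g⁻¹ * (g * d * g⁻¹) = g * (x0 * d) * g⁻¹ := by group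
      _ = g * (d * x0) * g⁻¹ := by rw [h1]
      _ = g * d * g⁻¹ * (g * x0 * g⁻¹) := by group
  obtain ⟨c₁, hc₁C, hc₁⟩ := exists_conj_in_sylow C hDp hDh T
  obtain ⟨c₂, hc₂C, hc₂⟩ := exists_conj_in_sylow C hE hEC T
  let That := (T : Subgroup C).map C.subtype
  have hThatp : IsPGroup p That := T.2.map _
  have hThatC : That ≤ C := by
    rintro _ ⟨t, -, rfl⟩
    exact t.2
  let w := c₂ * g
  let U := That.map (MulAut.conj w⁻¹).toMonoidHom
  have hUp : IsPGroup p U := hThatp.map _
  have hc₂h : c₂ * h * c₂⁻¹ = h := by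
    have := mem_centralizer_singleton_iff.1 hc₂C
    rw [← this]
    group
  have hwh : w⁻¹ * h * w = x0 := by
    show (c₂ * g)⁻¹ * h * (c₂ * g) = x0
    have h1 : (c₂ * g)⁻¹ * h * (c₂ * g) = g⁻¹ * (c₂⁻¹ * h * c₂) * g := by group
    have h2 : c₂⁻¹ * h * c₂ = h := by
      have := mem_centralizer_singleton_iff.1 hc₂C
      calc c₂⁻¹ * h * c₂ = c₂⁻¹ * (h * c₂) := by group
        _ = c₂⁻¹ * (c₂ * h) := by rw [this]
        _ = h := by group
    rw [h1, h2, ← hg]
    group
  have hUC : U ≤ Subgroup.centralizer ({x0} : Set G) := by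
    rintro _ ⟨t, ht, rfl⟩
    rw [mem_centralizer_singleton_iff]
    have h1 : h * t = t * h := mem_centralizer_singleton_iff.1 (hThatC ht)
    simp only [MulEquiv.coe_toMonoidHom, MulAut.conj_apply, inv_inv]
    rw [← hwh]
    calc w⁻¹ * h * w * (w⁻¹ * t * w) = w⁻¹ * (h * t) * w := by group
      _ = w⁻¹ * (t * h) * w := by rw [h1]
      _ = w⁻¹ * t * w * (w⁻¹ * h * w) := by group
  have hDU : D ≤ U := by
    intro d hd
    refine ⟨w * d * w⁻¹, ?_, ?_⟩
    · have h1 := hc₂ (g * d * g⁻¹) ⟨d, hd, rfl⟩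
      have h2 : w * d * w⁻¹ = c₂ * (g * d * g⁻¹) * c₂⁻¹ := by
        show (c₂ * g) * d * (c₂ * g)⁻¹ = _
        group
      rw [h2]
      exact h1
    · simp only [MulEquiv.coe_toMonoidHom, MulAut.conj_apply, inv_inv]
      group
  have hUD : U = D := hmax U hUp hDU hUC
  let n := w⁻¹ * c₁
  have hnD : ∀ d ∈ D, n * d * n⁻¹ ∈ D := by
    intro d hd
    have h1 := hc₁ d hd
    have h2 : n * d * n⁻¹ = (MulAut.conj w⁻¹).toMonoidHom (c₁ * d * c₁⁻¹) := by
      simp only [MulEquiv.coe_toMonoidHom, MulAut.conj_apply, inv_inv]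
      show (w⁻¹ * c₁) * d * (w⁻¹ * c₁)⁻¹ = _
      group
    rw [h2, ← hUD]
    exact ⟨_, h1, rfl⟩
  refine ⟨n, ?_, ?_⟩
  · rw [Subgroup.mem_normalizer_iff]
    intro y
    refine ⟨hnD y, fun hy => ?_⟩
    have h3 := map_conj_eq_of_card hnD rfl
    rw [← h3] at hy
    obtain ⟨d, hd, hdy⟩ := hy
    simp only [MulEquiv.coe_toMonoidHom, MulAut.conj_apply] at hdy
    have : d = y := by
      have h4 : n * d * n⁻¹ * n = n * y * n⁻¹ * n := by rw [hdy]
      simpa using h4
    rwa [← this]
  · show (w⁻¹ * c₁) * h * (w⁻¹ * c₁)⁻¹ = x0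
    have h1 : c₁ * h * c₁⁻¹ = h := by
      have := mem_centralizer_singleton_iff.1 hc₁C
      rw [← this]
      group
    calc (w⁻¹ * c₁) * h * (w⁻¹ * c₁)⁻¹ = w⁻¹ * (c₁ * h * c₁⁻¹) * w := by group
      _ = x0 := by rw [h1, hwh]

/-- The induced central character at a separated class. -/
theorem cc_congr_induced (hM : IsPModular p M) {D : Subgroup G} (hDp : IsPGroup p D) {x0 : G}
    (hx0 : x0 ∈ Subgroup.normalizer (D : Set G))
    (hDx : D ≤ Subgroup.centralizer ({x0} : Set G))
    (hmax : ∀ U : Subgroup G, IsPGroup p U → D ≤ U → U ≤ Subgroup.centralizer ({x0} : Set G) → U = D)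
    (ξ : IrrCharacter (Subgroup.normalizer (D : Set G))) :
    MemLocalIdeal M (inducedCentralChar (Subgroup.normalizer (D : Set G)) ξ.1 x0 -
      cc (⟨x0, hx0⟩ : Subgroup.normalizer (D : Set G)) ξ) := by
  classical
  haveI : M.IsPrime := hM.2.1.isPrime
  let N := Subgroup.normalizer (D : Set G)
  haveI : Fintype G := Fintype.ofFinite G
  haveI : Fintype N := Fintype.ofFinite N
  haveI : Fintype (IrrCharacter N) := Fintype.ofFinite _
  haveI : Fintype (ConjClasses N) := Fintype.ofFinite _
  let y : N := ⟨x0, hx0⟩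
  let Q : Subgroup N := D.subgroupOf N
  have hQ : IsPGroup p Q := hDp.comap_of_injective _ (Subgroup.subtype_injective N)
  haveI hQn : Q.Normal := Subgroup.normal_in_normalizer
  let a : N → ℂ := fun h => (if IsConj x0 (h : G) then 1 else 0) - classIndicator y h
  have hac : IsClassFunction N a := by
    intro h k
    show (if IsConj x0 ((k * h * k⁻¹ : N) : G) then (1 : ℂ) else 0) - classIndicator y (k * h * k⁻¹)
      = (if IsConj x0 (h : G) then 1 else 0) - classIndicator y h
    rw [classIndicator_isClass y h k]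
    have : IsConj x0 ((k * h * k⁻¹ : N) : G) ↔ IsConj x0 (h : G) := by
      have h1 : IsConj (h : G) ((k * h * k⁻¹ : N) : G) := isConj_iff.2 ⟨(k : G), rfl⟩
      exact ⟨fun h2 => h2.trans h1.symm, fun h2 => h2.trans h1⟩
    simp only [this]
  have hom : om ξ a = inducedCentralChar N ξ.1 x0 - cc y ξ := by
    have h0 := irr_one_ne_zero' ξ
    have h1 : inducedCentralChar N ξ.1 x0 =
        (ξ.1 1)⁻¹ * ∑ h : N, (if IsConj x0 (h : G) then 1 else 0) * ξ.1 h := by
      rw [inducedCentralChar_eq_sum, Finset.mul_sum]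
      refine Finset.sum_congr rfl fun h _ => ?_
      split_ifs
      · field_simp
      · simp
    rw [h1, ← om_classIndicator]
    unfold om
    rw [← mul_sub, ← Finset.sum_sub_distrib]
    congr 1
    refine Finset.sum_congr rfl fun h _ => ?_
    simp only [a]
    ring
  rw [← hom, om_eq_sum_classes a hac]
  refine mli_sum _ _ fun C _ => ?_
  set h : N := C.out with hh
  by_cases hc : h ∈ Subgroup.centralizer (Q : Set N)
  · have hDh : D ≤ Subgroup.centralizer ({(h : G)} : Set G) := by
      intro d hd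
      rw [mem_centralizer_singleton_iff]
      have h1 : (⟨d, Subgroup.le_normalizer hd⟩ : N) ∈ Q := by
        rw [Subgroup.mem_subgroupOf]
        exact hd
      have h2 := Subgroup.mem_centralizer_iff.1 hc _ h1
      exact (congrArg Subtype.val h2).symm
    have hiff : IsConj x0 (h : G) ↔ IsConj h y := by
      constructor
      · intro h1
        obtain ⟨n, hn, hne⟩ := conj_in_normalizer hDp hDx hmax hDh h1
        rw [isConj_iff]
        exact ⟨⟨n, hn⟩, Subtype.ext hne⟩
      · intro h1
        obtain ⟨n, hn⟩ := isConj_iff.1 h1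
        have h2 : (n : G) * h * (n : G)⁻¹ = x0 := congrArg Subtype.val hn
        exact (isConj_iff.2 ⟨(n : G), h2⟩).symm
    have ha0 : a h = 0 := by
      simp only [a]
      unfold classIndicator
      by_cases h5 : IsConj h y
      · rw [if_pos (hiff.2 h5), if_pos h5, sub_self]
      · rw [if_neg (fun h6 => h5 (hiff.1 h6)), if_neg h5, sub_self]
    rw [ha0, zero_mul]
    exact mli_zero
  · have h1 := cc_mli_of_not_centralizer hM Q hQ hc ξ
    have hloc : MemLocalRing M (a h) := by
      simp only [a]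
      unfold classIndicator
      refine mlr_sub ?_ ?_
      · split_ifs
        · exact mlr_one
        · exact mlr_zero
      · split_ifs
        · exact mlr_one
        · exact mlr_zero
    exact mli_mul_left h1 hloc

section

attribute [-instance] Cfsg.Agent.H22.fintypeOfFiniteH22

/-- **Blocks detected by separated classes.** -/
theorem det_blocks (hM : IsPModular p M) (D : Subgroup G) {r : ℕ} (x : Fin r → G)
    (hx : ∀ i j : Fin r, IsConj (x i) (x j) → i = j)
    (hD : ∀ i : Fin r, ∃ S : Sylow p ↥(Subgroup.centralizer ({x i} : Set G)),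
      (S : Subgroup ↥(Subgroup.centralizer ({x i} : Set G))).map
        (Subgroup.centralizer ({x i} : Set G)).subtype = D)
    (hsep : ∀ i j : Fin r, ∀ g h : G, IsConj (x i) g → IsConj (x j) h → ∀ k : ℕ, 0 < k →
      orderOf (g * h⁻¹) ≠ p ^ k) :
    ∃ B : Fin r → Set (IrrCharacter G), Function.Injective B ∧
      (∀ i : Fin r, IsPBlock M (B i) ∧ IsDefectGroup p M (B i) D) ∧
      ∀ χ : Fin r → IrrCharacter G,
        (∀ i : Fin r, χ i ∈ B i ∧ blockHeight p (B i) (χ i : G → ℂ) = 0) →
        ¬ MemLocalIdeal M (Matrix.det (Matrix.of fun i j : Fin r => (χ i : G → ℂ) (x j))) := by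
  classical
  haveI : M.IsPrime := hM.2.1.isPrime
  rcases Nat.eq_zero_or_pos r with rfl | hr
  · refine ⟨fun i => i.elim0, fun i => i.elim0, fun i => i.elim0, fun χ _ => ?_⟩
    rw [Matrix.det_isEmpty]
    exact not_mli_one
  let i0 : Fin r := ⟨0, hr⟩
  have hDp : IsPGroup p D := by
    obtain ⟨S, hS⟩ := hD i0
    rw [← hS]
    exact S.2.map _
  have hDC : ∀ i, D ≤ Subgroup.centralizer ({x i} : Set G) := by
    intro i
    obtain ⟨S, hS⟩ := hD i
    rw [← hS]
    rintro _ ⟨t, -, rfl⟩
    exact t.2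
  have hDmax : ∀ i, ∀ U : Subgroup G, IsPGroup p U → D ≤ U →
      U ≤ Subgroup.centralizer ({x i} : Set G) → U = D := by
    intro i U hU hDU hUC
    obtain ⟨S, hS⟩ := hD i
    have hU' : IsPGroup p (U.subgroupOf (Subgroup.centralizer ({x i} : Set G))) :=
      hU.comap_of_injective _ (Subgroup.subtype_injective _)
    have hle : (S : Subgroup (Subgroup.centralizer ({x i} : Set G))) ≤
        U.subgroupOf (Subgroup.centralizer ({x i} : Set G)) := by
      intro t ht
      rw [Subgroup.mem_subgroupOf]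
      apply hDU
      rw [← hS]
      exact ⟨t, ht, rfl⟩
    have h1 := S.is_maximal' hU' hle
    apply le_antisymm _ hDU
    intro u hu
    have h2 : (⟨u, hUC hu⟩ : Subgroup.centralizer ({x i} : Set G)) ∈
        U.subgroupOf (Subgroup.centralizer ({x i} : Set G)) := by
      rw [Subgroup.mem_subgroupOf]
      exact hu
    rw [h1] at h2
    rw [← hS]
    exact ⟨_, h2, rfl⟩
  let N := Subgroup.normalizer (D : Set G)
  haveI : Fintype N := Fintype.ofFinite N
  haveI : Fintype (IrrCharacter N) := Fintype.ofFinite _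
  haveI : Fintype G := Fintype.ofFinite G
  haveI : Fintype (IrrCharacter G) := Fintype.ofFinite _
  have hxN : ∀ j, x j ∈ N := fun j =>
    Subgroup.centralizer_le_normalizer _ (le_centralizer_singleton_iff.1 (hDC j))
  let xt : Fin r → N := fun j => ⟨x j, hxN j⟩
  have hxt : ∀ i j, IsConj (xt i) (xt j) → i = j := by
    intro i j h
    apply hx
    obtain ⟨c, hc⟩ := isConj_iff.1 h
    exact isConj_iff.2 ⟨c, congrArg Subtype.val hc⟩
  have hsept : ∀ i j : Fin r, ∀ g h : N, IsConj (xt i) g → IsConj (xt j) h → ∀ k : ℕ, 0 < k →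
      orderOf (g * h⁻¹) ≠ p ^ k := by
    intro i j g h h1 h2 k hk
    have h3 : orderOf (g * h⁻¹) = orderOf ((g : G) * (h : G)⁻¹) :=
      (Subgroup.orderOf_coe (g * h⁻¹)).symm
    rw [h3]
    refine hsep i j g h ?_ ?_ k hk
    · obtain ⟨c, hc⟩ := isConj_iff.1 h1
      exact isConj_iff.2 ⟨c, congrArg Subtype.val hc⟩
    · obtain ⟨c, hc⟩ := isConj_iff.1 h2
      exact isConj_iff.2 ⟨c, congrArg Subtype.val hc⟩
  let A : IrrCharacter N → Fin r → locR M := fun χ j =>
    ⟨cc (xt j) χ, mlr_of_isIntegral (cc_isIntegral _ _)⟩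
  obtain ⟨f, hf⟩ := exists_minor_of_independent A
    (fun b hb j => sep_columns_independent hM xt hxt hsept (fun j => (b j : ℂ)) hb j)
  have hrow : ∀ i, ∃ j, ¬ MemLocalIdeal M (cc (xt j) (f i)) := by
    intro i
    by_contra hc
    push Not at hc
    exact hf (mli_det_of_row _ (fun i j => (A (f i) j).2) i hc)
  let Q : Subgroup N := D.subgroupOf N
  have hQ : IsPGroup p Q := hDp.comap_of_injective _ (Subgroup.subtype_injective N)
  haveI hQn : Q.Normal := Subgroup.normal_in_normalizer
  have hcD : ∀ i, IsDefectGroup p M (blockOf M (f i).1) Q := by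
    intro i
    obtain ⟨j, hj⟩ := hrow i
    refine defect_of_normal_cc hM hQ (f i) hj ?_ ?_
    · intro q hq
      rw [mem_centralizer_singleton_iff]
      exact Subtype.ext (mem_centralizer_singleton_iff.1 (hDC j hq))
    · intro U hU hQU hUC
      have hm := hDmax j (U.map N.subtype) (hU.map _) (by
        intro d hd
        refine ⟨⟨d, Subgroup.le_normalizer hd⟩, hQU ?_, rfl⟩
        rw [Subgroup.mem_subgroupOf]
        exact hd) (by
        rintro _ ⟨u, hu, rfl⟩
        rw [mem_centralizer_singleton_iff]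
        exact congrArg Subtype.val (mem_centralizer_singleton_iff.1 (hUC hu)))
      apply le_antisymm _ hQU
      intro u hu
      rw [Subgroup.mem_subgroupOf]
      show (u : G) ∈ D
      rw [← hm]
      exact ⟨u, hu, rfl⟩
  have hex : ∀ i, ∃ B : Set (IrrCharacter G), IsPBlock M B ∧ IsDefectGroup p M B D ∧
      IsInducedBlock M N (blockOf M (f i).1) B := fun i =>
    brauer_corr_up_ind hM hDp le_rfl (isBlock_blockOf (f i)) (hcD i)
  choose B hB hBD hind using hex
  have hcong : ∀ i j (χ' : IrrCharacter G), χ' ∈ B i →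
      MemLocalIdeal M (cc (xt j) (f i) - centralChar χ'.1 (x j)) := by
    intro i j χ' hχ'
    have h1 := cc_congr_induced hM hDp (hxN j) (hDC j) (hDmax j) (f i)
    have h2 := (hind i).2.2 (f i) (self_mem_blockOf _) χ' hχ' (x j)
    have h3 := mli_add (mli_neg h1) h2
    convert h3 using 1
    ring
  refine ⟨B, ?_, fun i => ⟨hB i, hBD i⟩, ?_⟩
  · intro i i' hii
    by_contra hne
    obtain ⟨χ', hχ'⟩ := block_nonempty (hB i)
    apply hf
    refine mli_det_of_rows _ (fun i j => (A (f i) j).2) hne fun j => ?_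
    have h1 := hcong i j χ' hχ'
    have h2 := hcong i' j χ' (hii ▸ hχ')
    have h3 := mli_sub h1 h2
    convert h3 using 1
    show _ = (cc (xt j) (f i) - centralChar χ'.1 (x j)) - (cc (xt j) (f i') - centralChar χ'.1 (x j))
    show cc (xt j) (f i) - cc (xt j) (f i') = _
    ring
  · intro χ hχ
    have hne1 : ¬ MemLocalIdeal M (Matrix.det (Matrix.of fun i j : Fin r => centralChar (χ i).1 (x j))) :=
      not_mli_det_congr _ _ (fun i j => (A (f i) j).2)
        (fun i j => mlr_of_isIntegral (cc_isIntegral (x j) (χ i)))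
        (fun i j => hcong i j (χ i) (hχ i).1) hf
    let idx : Fin r → ℕ := fun j => (Subgroup.centralizer ({x j} : Set G)).index
    let deg : Fin r → ℕ := fun i => charDegree (χ i).1
    have hdeg : ∀ i, (χ i).1 1 = (deg i : ℂ) := fun i => one_eq_charDegree (Cfsg.Agent.H21.isCharacter_of_irr (χ i).2)
    have hfac : (Matrix.of fun i j : Fin r => centralChar (χ i).1 (x j)) =
        Matrix.of fun i j : Fin r => ((deg i : ℂ)⁻¹) * ((Matrix.of fun i' j' : Fin r =>
          ((idx j' : ℂ)) * (χ i').1 (x j')) i j) := by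
      ext i j
      simp only [Matrix.of_apply]
      unfold centralChar
      rw [hdeg i]
      have h0 : (deg i : ℂ) ≠ 0 := by
        rw [← hdeg i]
        exact irr_one_ne_zero' (χ i)
      field_simp
      simp only [idx]
      ring
    have hratio : ∀ k, MemLocalRing M ((idx k : ℂ) * (deg k : ℂ)⁻¹) := by
      intro k
      have hp' := hp.out
      have h1 := factorization_index_add (G := G) (p := p) (x k)
      have h2 : (Nat.card (Subgroup.centralizer ({x k} : Set G))).factorization p = blockDefect p (B k) := by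
        obtain ⟨S, hS⟩ := hD k
        have h3 : Nat.card D = Nat.card S := by
          rw [← hS]
          exact Subgroup.card_map_of_injective (Subgroup.subtype_injective _)
        have h4 := S.card_eq_multiplicity
        have h5 := card_defect hM (hB k) (hBD k)
        rw [h3, h4] at h5
        exact Nat.pow_right_injective hp'.two_le h5
      have h6 := (hχ k).2
      unfold blockHeight at h6
      have h7 : minExp p (B k) = (Nat.card G).factorization p - blockDefect p (B k) :=
        minExp_eq_of_defect (hB k) rfl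
      have h8 : (deg k).factorization p ≤ (idx k).factorization p := by
        have h9 : (deg k).factorization p ≤ minExp p (B k) := Nat.sub_eq_zero_iff_le.1 h6
        show (deg k).factorization p ≤ (Subgroup.centralizer ({x k} : Set G)).index.factorization p
        omega
      have hd0 : deg k ≠ 0 := quad_deg_ne_zero' (χ k)
      have hi0 : idx k ≠ 0 := Subgroup.index_ne_zero_of_finite
      obtain ⟨i', hi'⟩ := (Nat.Prime.pow_dvd_iff_le_factorization hp' hi0).2 h8
      have hd' := Nat.ordProj_mul_ordCompl_eq_self (deg k) p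
      have hnd : ¬ p ∣ ordCompl[p] (deg k) := Nat.not_dvd_ordCompl hp' hd0
      have hne : ((p ^ (deg k).factorization p : ℕ) : ℂ) ≠ 0 := by
        exact_mod_cast (pow_ne_zero _ hp'.ne_zero)
      have hne2 : ¬ MemLocalIdeal M ((ordCompl[p] (deg k) : ℕ) : ℂ) := by
        rw [mli_natCast_iff hM]
        exact hnd
      have hne3 : ((ordCompl[p] (deg k) : ℕ) : ℂ) ≠ 0 := by
        intro h0
        apply hne2
        rw [h0]
        exact mli_zero
      have heq : (idx k : ℂ) * (deg k : ℂ)⁻¹ = (i' : ℂ) * ((ordCompl[p] (deg k) : ℕ) : ℂ)⁻¹ := by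
        have h10 : (idx k : ℂ) = ((p ^ (deg k).factorization p : ℕ) : ℂ) * (i' : ℂ) := by
          exact_mod_cast hi'
        have h11 : (deg k : ℂ) = ((p ^ (deg k).factorization p : ℕ) : ℂ) * ((ordCompl[p] (deg k) : ℕ) : ℂ) := by
          exact_mod_cast hd'.symm
        rw [h10]
        nth_rewrite 1 [h11]
        field_simp
      rw [heq]
      exact mlr_mul (mlr_natCast _) (mlr_inv (mlr_natCast _) hne2).2
    intro hdet
    apply hne1
    rw [hfac, Matrix.det_mul_column, ]
    have h12 : Matrix.det (Matrix.of fun i' j' : Fin r => ((idx j' : ℂ)) * (χ i').1 (x j')) =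
        (∏ k, (idx k : ℂ)) * Matrix.det (Matrix.of fun i j : Fin r => (χ i : G → ℂ) (x j)) :=
      Matrix.det_mul_row (fun k => (idx k : ℂ)) (Matrix.of fun i j : Fin r => (χ i : G → ℂ) (x j))
    rw [h12, ← mul_assoc, ← Finset.prod_mul_distrib]
    refine mli_mul_left hdet (mlr_prod _ _ fun k _ => ?_)
    rw [mul_comm]
    exact hratio k

end

end Main

end Cfsg.Agent.H22
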