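import Cfsg.Agent.Lib.H06.Brauer4
import Cfsg.Agent.Lib.H06.TypeP
import Cfsg.Agent.Lib.H22.KnorrStab

/-! # Stability of a height-zero character under a Sylow subgroup of the block stabilizer -/

set_option autoImplicit false
set_option linter.unusedSectionVars false
set_option linter.style.haveILetI false
set_option linter.unusedSimpArgs false
set_option linter.unusedVariables false

namespace Cfsg.Agent.H22

open Cfsg Cfsg.Agent.H21 Module
open scoped ComplexConjugate

universe u

/-- The degree formula in the Clifford correspondence, as a divisibility. -/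
theorem clifford_degree_dvd {N : Type u} [Group N] [instN : Finite N] (H T : Subgroup N)
    [hN : H.Normal] (hHT : H ≤ T) {θ : H → ℂ} (hθ : IsIrrCharacter H θ)
    (hT : ∀ g : N, g ∈ T ↔ ∀ h : H, θ ⟨g * h * g⁻¹, hN.conj_mem h h.2 g⟩ = θ h)
    {χ : N → ℂ} (hχ : IsIrrCharacter N χ) (hc : classInner (fun h : H => χ h) θ ≠ 0) :
    T.index * charDegree θ ∣ charDegree χ := by
  classical
  have hχc := Cfsg.Agent.H21.isCharacter_of_irr hχ
  have hχT : IsCharacter T (fun t : T => χ t) := isCharacter_restrict T hχc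
  have hclT := isClassFunction_of_isCharacter hχT
  set θ' : H.subgroupOf T → ℂ := H06.subTheta H T θ with hθ'
  have hcard : Nat.card (H.subgroupOf T) = Nat.card H :=
    Nat.card_congr (Subgroup.subgroupOfEquivOfLe hHT).toEquiv
  have h1 : classInner (fun h : H.subgroupOf T => χ ((h : T) : N)) θ' =
      classInner (fun h : H => χ h) θ := by
    simp only [classInner]
    rw [hcard]
    congr 1
    refine Fintype.sum_equiv (Subgroup.subgroupOfEquivOfLe hHT).toEquiv _ _ fun h => ?_
    rfl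
  have h2 : classInner (indFun (H.subgroupOf T) θ') (fun t : T => χ t) ≠ 0 := by
    rw [frobenius_reciprocity (H.subgroupOf T) θ' _ hclT]
    intro h3
    apply hc
    rw [← h1, ← Cfsg.Agent.H21.classInner_comm_conj, h3, map_zero]
  have hind := isCharacter_indFun (H.subgroupOf T) (Cfsg.Agent.H21.isCharacter_of_irr (H06.subTheta_irr H T hHT hθ))
  rw [H06.classInner_parseval (isClassFunction_of_isCharacter hind) hclT] at h2
  obtain ⟨ψ, -, hψ⟩ := Finset.exists_ne_zero_of_sum_ne_zero h2
  have hψ1 := left_ne_zero_of_mul hψ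
  have hψ2 : classInner (fun t : T => χ t) (ψ : T → ℂ) ≠ 0 := by
    intro h
    apply right_ne_zero_of_mul hψ
    rw [h, map_zero]
  obtain ⟨hirr, -⟩ := H06.clifford_correspondence H T hHT hθ hT ψ.2 ψ.2 hψ1 hψ1
  have h3 : classInner (indFun T (ψ : T → ℂ)) χ ≠ 0 := by
    rw [frobenius_reciprocity T _ _ (isClassFunction_of_isCharacter hχc)]
    intro h
    apply hψ2
    rw [← Cfsg.Agent.H21.classInner_comm_conj, h, map_zero]
  have h4 : χ = indFun T (ψ : T → ℂ) := by
    by_contra hne
    exact h3 (H06.classInner_irr_ne hirr hχ (fun h => hne h.symm))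
  obtain ⟨e, he, -, hres⟩ := H06.restrict_of_inner_ne H T hHT hθ hT ψ.2 hψ1
  have h5 : charDegree ψ.1 = e * charDegree θ := by
    have h6 := hres 1
    have h7 : ψ.1 ⟨((1 : H) : N), hHT (1 : H).2⟩ = ψ.1 1 := rfl
    rw [h7] at h6
    rw [Cfsg.Agent.H21.one_eq_charDegree (Cfsg.Agent.H21.isCharacter_of_irr ψ.2),
      Cfsg.Agent.H21.one_eq_charDegree (Cfsg.Agent.H21.isCharacter_of_irr hθ)] at h6
    exact_mod_cast h6
  rw [h4, charDegree_indFun T (Cfsg.Agent.H21.isCharacter_of_irr ψ.2), h5]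
  exact ⟨e, by ring⟩

variable {G : Type u} [Group G] [Finite G] {p : ℕ} [hp : Fact p.Prime] {M : Ideal AlgInt}

theorem height_zero_stable (hM : IsPModular p M) (H : Subgroup G) [hH : H.Normal]
    (b : Set (IrrCharacter H)) (hb : IsPBlock M b) (T : Subgroup G) (hHT : H ≤ T)
    (hst : ∀ x ∈ T, StabilizesBlock H b x) (P : Sylow p T) :
    ∃ θ ∈ b, blockHeight p b θ.1 = 0 ∧ (P : Subgroup T).map T.subtype ≤ H06.inertiaSub H θ.1 := by
  classical
  haveI : M.IsPrime := hM.2.1.isPrime
  set P' : Subgroup G := (P : Subgroup T).map T.subtype with hP'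
  set L : Subgroup G := H ⊔ P' with hL
  have hHL : H ≤ L := le_sup_left
  have hLT : L ≤ T := sup_le hHT (Subgroup.map_subtype_le _)
  have hLN : L ≤ Subgroup.normalizer (H : Set G) := fun x _ => normalizer_eq_top x
  have hPp : IsPGroup p P' := (P.isPGroup').map _
  have hk : ∃ k : ℕ, H.relIndex L = p ^ k := by
    have h1 : H.relIndex L = H.relIndex P' := Subgroup.relIndex_sup_left (K := H) (H := P')
    obtain ⟨n, hn⟩ := (IsPGroup.iff_card).1 hPp
    have h2 : H.relIndex P' ∣ p ^ n := by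
      rw [← hn]
      exact Subgroup.index_dvd_card _
    obtain ⟨j, -, hj⟩ := (Nat.dvd_prime_pow hp.out).mp h2
    exact ⟨j, by rw [h1, hj]⟩
  have hstL : ∀ x ∈ L, StabilizesBlock H b x := fun x hx => hst x (hLT hx)
  obtain ⟨F, hF, hFc⟩ := exists_block_pIndex_sub hM hHL hLN hk hb hstL
  obtain ⟨D₀, hD₀⟩ := isDefectGroup_exists (p := p) hF
  obtain ⟨h5, h6⟩ := pIndex_defect_sub hM hHL hLN hk hb hstL hF hFc hD₀
  -- the numerical identity
  have hcF := H21.card_defect hM hF hD₀
  have hcb := H21.card_defect hM hb h6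
  haveI hNL : (H.subgroupOf L).Normal := Subgroup.normal_subgroupOf
  have hsup := card_sup_mul_card_inf (H.subgroupOf L) D₀
  rw [h5, Subgroup.card_top, mul_comm] at hsup
  have hD' : Nat.card (D₀ ⊓ H.subgroupOf L : Subgroup L) =
      Nat.card ((D₀.map L.subtype ⊓ H).subgroupOf H) := by
    have h7 : (D₀ ⊓ H.subgroupOf L).map L.subtype = D₀.map L.subtype ⊓ H := by
      ext x
      constructor
      · rintro ⟨y, ⟨hy1, hy2⟩, rfl⟩
        exact ⟨⟨y, hy1, rfl⟩, Subgroup.mem_subgroupOf.mp hy2⟩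
      · rintro ⟨⟨y, hy1, rfl⟩, hy2⟩
        exact ⟨y, ⟨hy1, Subgroup.mem_subgroupOf.mpr hy2⟩, rfl⟩
    rw [Nat.card_congr (Subgroup.subgroupOfEquivOfLe (inf_le_right : D₀.map L.subtype ⊓ H ≤ H)).toEquiv,
      ← h7]
    exact Nat.card_congr (Subgroup.equivMapOfInjective _ _ L.subtype_injective).toEquiv
  have hHcard : Nat.card (H.subgroupOf L) = Nat.card H :=
    Nat.card_congr (Subgroup.subgroupOfEquivOfLe hHL).toEquiv
  rw [hD', hcb, hcF, hHcard] at hsup
  have hfact : blockDefect p b + (Nat.card L).factorization p =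
      blockDefect p F + (Nat.card H).factorization p := by
    have h8 : (p ^ blockDefect p b * Nat.card L).factorization p = (Nat.card H * p ^ blockDefect p F).factorization p := by
      rw [hsup]
    rw [Nat.factorization_mul (pow_ne_zero _ hp.out.ne_zero) Nat.card_pos.ne',
      Nat.factorization_mul Nat.card_pos.ne' (pow_ne_zero _ hp.out.ne_zero)] at h8
    simp only [Finsupp.add_apply, Nat.factorization_pow, Finsupp.smul_apply, smul_eq_mul,
      hp.out.factorization_self, mul_one] at h8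
    omega
  have hmin : H21.minExp p F = H21.minExp p b := by
    have h9 := H21.blockDefect_eq p b
    have h10 := H21.blockDefect_eq p F
    have h11 := H21.minExp_le_card (p := p) hb
    have h12 := H21.minExp_le_card (p := p) hF
    omega
  -- the character
  obtain ⟨χ₁, hχ₁, hχ₁e⟩ := H21.exists_min_height (p := p) hF
  obtain ⟨θ₁, hθ₁⟩ := exists_constituent (H.subgroupOf L) χ₁
  have hθ₁mem : θ₁ ∈ irrMap (Subgroup.subgroupOfEquivOfLe hHL).symm '' b :=
    constituent_mem (fun t => by rw [sbc_subgroupOf]; exact hFc t) hχ₁ hθ₁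
  obtain ⟨θ₀, hθ₀, rfl⟩ := hθ₁mem
  set φ := Subgroup.subgroupOfEquivOfLe hHL with hφ
  -- the stabilizer in `L`
  set θL : H.subgroupOf L → ℂ := (irrMap φ.symm θ₀).1 with hθL
  set I : Subgroup L := H06.inertiaSub (H.subgroupOf L) θL with hI
  have hclθ : IsClassFunction (H.subgroupOf L) θL :=
    isClassFunction_of_isCharacter (Cfsg.Agent.H21.isCharacter_of_irr (irrMap φ.symm θ₀).2)
  have hHI : H.subgroupOf L ≤ I := H06.le_inertiaSub _ hclθ
  have hne : classInner (fun h : H.subgroupOf L => χ₁.1 h) θL ≠ 0 := (inner_ne_iff _ _).mpr hθ₁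
  have hdvd := clifford_degree_dvd (H.subgroupOf L) I hHI (irrMap φ.symm θ₀).2
    (fun g => H06.mem_inertiaSub _) χ₁.2 hne
  have hdeg : charDegree θL = charDegree θ₀.1 := by
    have h13 : θL 1 = θ₀.1 1 := by
      exact (irrMap_apply φ.symm θ₀ 1).trans (congrArg θ₀.1 (map_one _))
    have h14 := Cfsg.Agent.H21.one_eq_charDegree (χ := θL)
      (Cfsg.Agent.H21.isCharacter_of_irr (irrMap φ.symm θ₀).2)
    have h15 := Cfsg.Agent.H21.one_eq_charDegree (Cfsg.Agent.H21.isCharacter_of_irr θ₀.2)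
    rw [h14, h15] at h13
    exact_mod_cast h13
  rw [hdeg] at hdvd
  have hχne : charDegree χ₁.1 ≠ 0 := (irr_charDegree_pos χ₁.2).ne'
  have hθne : charDegree θ₀.1 ≠ 0 := (irr_charDegree_pos θ₀.2).ne'
  have hIne : I.index ≠ 0 := Subgroup.index_ne_zero_of_finite
  have hfac := (Nat.factorization_le_iff_dvd (Nat.mul_ne_zero hIne hθne) hχne).2 hdvd p
  rw [Nat.factorization_mul hIne hθne, Finsupp.add_apply, hχ₁e, hmin] at hfac
  have hmin2 := H21.minExp_le (p := p) hθ₀
  have hI0 : I.index.factorization p = 0 := by omega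
  have hheight : blockHeight p b θ₀.1 = 0 := by
    have : blockHeight p b θ₀.1 = (charDegree θ₀.1).factorization p - H21.minExp p b := rfl
    omega
  -- the index of `I` is a power of `p`
  obtain ⟨k, hk'⟩ := hk
  have hIdvd : I.index ∣ p ^ k := by
    rw [← hk']
    exact Subgroup.index_dvd_of_le hHI
  obtain ⟨j, -, hj⟩ := (Nat.dvd_prime_pow hp.out).mp hIdvd
  have hI1 : I = ⊤ := by
    rw [← Subgroup.index_eq_one]
    rw [hj, Nat.factorization_pow, Finsupp.smul_apply, hp.out.factorization_self] at hI0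
    simp only [smul_eq_mul, mul_one] at hI0
    rw [hj, hI0, pow_zero]
  refine ⟨θ₀, hθ₀, hheight, ?_⟩
  intro x hx h
  have hxL : x ∈ L := Subgroup.mem_sup_right hx
  have hxI : (⟨x, hxL⟩ : L) ∈ I := by
    rw [hI1]
    exact Subgroup.mem_top _
  have hh : (h : G) ∈ L := hHL h.2
  have h14 := (H06.mem_inertiaSub (K := H.subgroupOf L)).1 hxI (φ.symm h)
  have h15 : ∀ y : H.subgroupOf L, θL y = θ₀.1 (φ y) := by
    intro y
    exact irrMap_apply φ.symm θ₀ y
  rw [h15, h15] at h14
  have h16 : φ (φ.symm h) = h := φ.apply_symm_apply h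
  rw [h16] at h14
  rw [← h14]
  exact congrArg θ₀.1 (Subtype.ext rfl)

end Cfsg.Agent.H22
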