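import Cfsg.Agent.Lib.H22.Ord
import Cfsg.Agent.Lib.H23.GalDeg
import Cfsg.Agent.Lib.H01.FrobAct

/-! # Multiplicativity of characters on products of prime-power elements of coprime orders -/

set_option autoImplicit false
set_option linter.unusedSectionVars false
set_option linter.style.haveILetI false
set_option linter.unusedSimpArgs false
set_option linter.unusedVariables false

namespace Cfsg.Agent.H22

open Cfsg Cfsg.Agent.H21 Cfsg.Agent.H23 Cfsg.Agent.H01
open scoped ComplexConjugate commutatorElement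

section Forward

variable {G : Type*} [Group G] [Fintype G] [Fintype (IrrCharacter G)]

/-- The hypothesis of the theorem. -/
def HypPP (G : Type*) [Group G] : Prop :=
  ∀ (x y : G) (χ : IrrCharacter G), x ≠ 1 → y ≠ 1 →
    (∃ p q a b : ℕ, p.Prime ∧ q.Prime ∧ p ≠ q ∧ orderOf x = p ^ a ∧ orderOf y = q ^ b) →
      χ.1 (x * y) = χ.1 x * χ.1 y

theorem isConj_orderOfH {a b : G} (h : IsConj a b) : orderOf a = orderOf b := by
  obtain ⟨c, rfl⟩ := isConj_iff.mp h
  have : c * a * c⁻¹ = MulAut.conj c a := rfl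
  rw [this, MulEquiv.orderOf_eq]

theorem hypPP_vanish (h : HypPP G) (x y : G) (hx : x ≠ 1) (hy : y ≠ 1)
    (hpq : ∃ p q a b : ℕ, p.Prime ∧ q.Prime ∧ p ≠ q ∧ orderOf x = p ^ a ∧ orderOf y = q ^ b)
    (χ : IrrCharacter G) (hχ : χ.1 1 ≠ 1) : χ.1 (x * y) = 0 := by
  classical
  have hc := isCharacter_of_irr χ.2
  have h1 : ∀ b : G, χ.1 (b * x * b⁻¹ * y) = χ.1 x * χ.1 y := by
    intro b
    have hne : b * x * b⁻¹ ≠ 1 := by
      intro h0
      apply hx
      have h2 : x = b⁻¹ * (b * x * b⁻¹) * b := by group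
      rw [h2, h0]
      group
    have hord : orderOf (b * x * b⁻¹) = orderOf x := by
      have : b * x * b⁻¹ = MulAut.conj b x := rfl
      rw [this, MulEquiv.orderOf_eq]
    have h3 := h (b * x * b⁻¹) y χ hne hy (by
      obtain ⟨p, q, a, c, h4, h5, h6, h7, h8⟩ := hpq
      exact ⟨p, q, a, c, h4, h5, h6, by rw [hord, h7], h8⟩)
    rw [h3, isCharacter_conj hc]
  have h2 := sum_conj_mul_char χ x y
  simp only [h1, Finset.sum_const, Finset.card_univ, nsmul_eq_mul] at h2
  rw [← Nat.card_eq_fintype_card] at h2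
  have h0 : (Nat.card G : ℂ) ≠ 0 := by simp [Nat.card_pos.ne']
  have hd : χ.1 1 ≠ 0 := by
    have h5 := irr_charDegree_pos χ.2
    rw [one_eq_charDegree hc]
    exact_mod_cast h5.ne'
  have h3 : χ.1 x * χ.1 y * (χ.1 1 - 1) = 0 := by
    field_simp at h2
    linear_combination h2
  have h4 : χ.1 x * χ.1 y = 0 := by
    rcases mul_eq_zero.mp h3 with h5 | h5
    · exact h5
    · exact absurd (sub_eq_zero.mp h5) hχ
  have h5 := h x y χ hx hy hpq
  rw [h5, h4]

theorem charDegree_eq_one_of_at_one {χ : IrrCharacter G} (h : χ.1 1 = 1) : charDegree χ.1 = 1 := by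
  have h1 := one_eq_charDegree (isCharacter_of_irr χ.2)
  rw [h] at h1
  exact_mod_cast h1.symm

theorem hypPP_isConj (h : HypPP G) (x y : G) (hx : x ≠ 1) (hy : y ≠ 1)
    (hpq : ∃ p q a b : ℕ, p.Prime ∧ q.Prime ∧ p ≠ q ∧ orderOf x = p ^ a ∧ orderOf y = q ^ b)
    (g : G) (hg : g * (x * y)⁻¹ ∈ commutator G) : IsConj g (x * y) := by
  classical
  by_contra hn
  have h1 := column_orthogonality_of_not_isConj hn
  have h2 : ∀ χ : IrrCharacter G, (χ : G → ℂ) g * conj ((χ : G → ℂ) (x * y)) =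
      if χ.1 1 = 1 then 1 else 0 := by
    intro χ
    by_cases hχ : χ.1 1 = 1
    · rw [if_pos hχ]
      have hd := charDegree_eq_one_of_at_one hχ
      have hc := isCharacter_of_irr χ.2
      have h3 : χ.1 g = χ.1 (g * (x * y)⁻¹) * χ.1 (x * y) := by
        rw [← linear_mul hc hd]
        congr 1
        group
      rw [h3, linear_on_commutator χ hd hg, hχ, one_mul, Complex.mul_conj]
      have h4 := linear_norm hc hd (x * y)
      rw [Complex.normSq_eq_norm_sq, h4]
      simp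
    · rw [if_neg hχ, hypPP_vanish h x y hx hy hpq χ hχ]
      simp
  simp only [h2] at h1
  rw [Finset.sum_boole] at h1
  have h3 : ((Finset.univ.filter fun χ : IrrCharacter G => χ.1 1 = 1).card : ℕ) = 0 := by
    exact_mod_cast h1
  rw [Finset.card_eq_zero] at h3
  have h4 : (⟨fun _ => (1 : ℂ), isIrrCharacter_one⟩ : IrrCharacter G) ∈
      (Finset.univ.filter fun χ : IrrCharacter G => χ.1 1 = 1) := by
    simp
  rw [h3] at h4
  simp at h4

theorem hypPP_commutator_pgroup (h : HypPP G) (hnc : commutator G ≠ ⊥) :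
    ∃ p : ℕ, p.Prime ∧ IsPGroup p (commutator G) := by
  classical
  have hc1 : Nat.card (commutator G) ≠ 1 := by
    intro hc
    exact hnc (Subgroup.card_eq_one.mp hc)
  set p := (Nat.card (commutator G)).minFac with hp
  have hpp : p.Prime := Nat.minFac_prime hc1
  refine ⟨p, hpp, ?_⟩
  have hall : ∀ {r : ℕ}, r.Prime → r ∣ Nat.card (commutator G) → r = p := by
    intro r hr hrd
    by_contra hne
    haveI : Fact r.Prime := ⟨hr⟩
    haveI : Fact p.Prime := ⟨hpp⟩
    obtain ⟨u, hu⟩ := exists_prime_orderOf_dvd_card' r hrd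
    obtain ⟨v, hv⟩ := exists_prime_orderOf_dvd_card' p (Nat.minFac_dvd _)
    have hu' : orderOf (u : G) = r := by rw [Subgroup.orderOf_coe, hu]
    have hv' : orderOf (v : G) = p := by rw [Subgroup.orderOf_coe, hv]
    have hu1 : (u : G) ≠ 1 := by
      intro h0
      rw [h0, orderOf_one] at hu'
      exact hr.one_lt.ne hu'
    have hv1 : (v : G) ≠ 1 := by
      intro h0
      rw [h0, orderOf_one] at hv'
      exact hpp.one_lt.ne hv'
    have hmem : (1 : G) * ((u : G) * (v : G))⁻¹ ∈ commutator G := by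
      rw [one_mul]
      exact inv_mem (mul_mem u.2 v.2)
    have hconj := hypPP_isConj h (u : G) (v : G) hu1 hv1
      ⟨r, p, 1, 1, hr, hpp, hne, by rw [hu', pow_one], by rw [hv', pow_one]⟩ 1 hmem
    have h1 : (u : G) * (v : G) = 1 := (isConj_one_right.mp hconj)
    have h2 : (u : G) = (v : G)⁻¹ := eq_inv_of_mul_eq_one_left h1
    rw [h2, orderOf_inv, hv'] at hu'
    exact hne hu'.symm
  apply IsPGroup.of_card (n := (Nat.card (commutator G)).primeFactorsList.length)
  exact Nat.eq_prime_pow_of_unique_prime_dvd Nat.card_pos.ne' hall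

/-- The forward implication. -/
theorem hypPP_forward (h : HypPP G) :
    (∃ p : ℕ, p.Prime ∧ IsPGroup p G) ∨ IsMulCommutative G ∨
      ∃ (p : ℕ) (_ : Fact p.Prime) (P : Sylow p G) (A : Subgroup G), (P : Subgroup G).Normal ∧
        IsCyclic ↥A ∧ A ≠ ⊥ ∧ (Nat.card ↥A).Coprime p ∧ A ⊔ (P : Subgroup G) = ⊤ ∧
        IsMulCommutative ↥((P : Subgroup G) ⊓ Subgroup.centralizer (A : Set G)) ∧
        (⁅A, (P : Subgroup G)⁆).Normal ∧
        ((P : Subgroup G) ⊓ Subgroup.centralizer (A : Set G)) ⊔ ⁅A, (P : Subgroup G)⁆ =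
          (P : Subgroup G) ∧
        ((P : Subgroup G) ⊓ Subgroup.centralizer (A : Set G)) ⊓ ⁅A, (P : Subgroup G)⁆ = ⊥ ∧
        ∀ a ∈ A, a ≠ 1 → ∀ d ∈ ⁅A, (P : Subgroup G)⁆, a * d = d * a → d = 1 := by
  classical
  by_cases hab : commutator G = ⊥
  · right; left
    constructor
    constructor
    intro a b
    have h1 : ⁅a, b⁆ ∈ commutator G := Subgroup.commutator_mem_commutator (Subgroup.mem_top a)
      (Subgroup.mem_top b)
    rw [hab, Subgroup.mem_bot, commutatorElement_eq_one_iff_mul_comm] at h1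
    exact h1
  obtain ⟨p, hp, hD⟩ := hypPP_commutator_pgroup h hab
  by_cases hpg : IsPGroup p G
  · exact Or.inl ⟨p, hp, hpg⟩
  right; right
  haveI hpf : Fact p.Prime := ⟨hp⟩
  set D := commutator G with hDdef
  haveI hDn : D.Normal := inferInstance
  obtain ⟨P, hDP⟩ := hD.exists_le_sylow
  have hcomm : ∀ g k : G, g * k * g⁻¹ * k⁻¹ ∈ D := fun g k =>
    Subgroup.commutator_mem_commutator (Subgroup.mem_top g) (Subgroup.mem_top k)
  haveI hPn : (P : Subgroup G).Normal := by
    constructor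
    intro u hu g
    have h1 := hDP (hcomm g u)
    have h2 : g * u * g⁻¹ = (g * u * g⁻¹ * u⁻¹) * u := by group
    rw [h2]
    exact mul_mem h1 hu
  obtain ⟨A, hA⟩ := Subgroup.exists_left_complement'_of_coprime (N := (P : Subgroup G))
    (Sylow.card_coprime_index P)
  have hAP : A ⊓ (P : Subgroup G) = ⊥ := hA.disjoint.eq_bot
  have hAPt : A ⊔ (P : Subgroup G) = ⊤ := hA.sup_eq_top
  have hcard : Nat.card A * Nat.card (P : Subgroup G) = Nat.card G := hA.card_mul_card
  have hAidx : Nat.card A = (P : Subgroup G).index := by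
    have h1 := (P : Subgroup G).card_mul_index
    rw [← hcard, mul_comm] at h1
    exact Nat.eq_of_mul_eq_mul_right Nat.card_pos h1.symm
  have hAcop : (Nat.card A).Coprime p := by
    rw [hAidx]
    have h1 := Sylow.card_coprime_index P
    have hPp : IsPGroup p (P : Subgroup G) := P.isPGroup'
    obtain ⟨n, hn⟩ := IsPGroup.iff_card.mp hPp
    by_cases hP1 : (P : Subgroup G) = ⊥
    · exfalso
      apply hpg
      have hle : D ≤ (P : Subgroup G) := hDP
      rw [hP1, le_bot_iff] at hle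
      exact absurd hle hab
    have hn0 : n ≠ 0 := by
      rintro rfl
      rw [pow_zero] at hn
      exact hP1 (Subgroup.card_eq_one.mp hn)
    rw [hn] at h1
    exact ((Nat.coprime_pow_left_iff (Nat.pos_of_ne_zero hn0) _ _).mp h1).symm
  have hAne : A ≠ ⊥ := by
    intro h0
    apply hpg
    rw [h0, bot_sup_eq] at hAPt
    have hPp : IsPGroup p (P : Subgroup G) := P.isPGroup'
    rw [hAPt] at hPp
    exact hPp.of_surjective (MonoidHom.id _ |>.comp (Subgroup.topEquiv (G := G)).toMonoidHom)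
      (Subgroup.topEquiv (G := G)).surjective
  have hAcomm : ∀ a ∈ A, ∀ b ∈ A, a * b = b * a := by
    intro a ha b hb
    have h1 : a * b * a⁻¹ * b⁻¹ ∈ A := mul_mem (mul_mem (mul_mem ha hb) (inv_mem ha)) (inv_mem hb)
    have h2 : a * b * a⁻¹ * b⁻¹ ∈ (P : Subgroup G) := hDP (hcomm a b)
    have h3 : a * b * a⁻¹ * b⁻¹ ∈ A ⊓ (P : Subgroup G) := ⟨h1, h2⟩
    rw [hAP, Subgroup.mem_bot] at h3
    have h4 : a * b = (a * b * a⁻¹ * b⁻¹) * (b * a) := by group
    rw [h4, h3, one_mul]
  -- no fixed points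
  have hfpf : ∀ a ∈ A, a ≠ 1 → ∀ d ∈ D, a * d = d * a → d = 1 := by
    intro a ha ha1 d hd hcd
    by_contra hd1
    -- a power of prime order
    obtain ⟨q, hq, hqd⟩ := Nat.exists_prime_and_dvd (n := orderOf a) (by
      intro h0
      exact ha1 (orderOf_eq_one_iff.mp h0))
    have hao : orderOf a ≠ 0 := (orderOf_pos a).ne'
    have h1 := orderOf_pow_orderOf_div hao hqd
    set a₁ := a ^ (orderOf a / q) with ha₁
    have ha₁1 : a₁ ≠ 1 := by
      intro h0
      rw [h0, orderOf_one] at h1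
      exact hq.one_lt.ne h1
    have hqp : q ≠ p := by
      rintro rfl
      have h2 : orderOf a ∣ Nat.card A := by
        rw [← Subgroup.orderOf_mk a ha]
        exact orderOf_dvd_natCard _
      have h3 := Nat.Coprime.coprime_dvd_left (hqd.trans h2) hAcop
      rw [Nat.coprime_self] at h3
      exact hq.one_lt.ne h3.symm
    obtain ⟨b, hb⟩ : ∃ b : ℕ, orderOf d = p ^ b := by
      have := (IsPGroup.iff_orderOf.mp hD) ⟨d, hd⟩
      obtain ⟨b, hb⟩ := this
      rw [Subgroup.orderOf_mk] at hb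
      exact ⟨b, hb⟩
    have hcomm1 : Commute a₁ d := by
      have : Commute a d := hcd
      exact this.pow_left _
    have hconj := hypPP_isConj h a₁ d ha₁1 hd1
      ⟨q, p, 1, b, hq, hp, hqp, by rw [h1, pow_one], hb⟩ a₁ (by
        have : a₁ * (a₁ * d)⁻¹ = a₁ * d⁻¹ * a₁⁻¹ := by group
        rw [this]
        exact hDn.conj_mem _ (inv_mem hd) _)
    have h2 := isConj_orderOfH hconj
    rw [hcomm1.orderOf_mul_eq_mul_orderOf_of_coprime, h1, hb] at h2
    · have hb0 : p ^ b = 1 := by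
        have h3 : q * 1 = q * p ^ b := by rw [mul_one]; exact h2
        exact (Nat.eq_of_mul_eq_mul_left hq.pos h3).symm
      apply hd1
      apply orderOf_eq_one_iff.mp
      rw [hb, hb0]
    · rw [h1, hb]
      exact Nat.Coprime.pow_right _ ((Nat.coprime_primes hq hp).mpr hqp)
  -- surjectivity of the commutator map
  have hsurj : ∀ a ∈ A, a ≠ 1 → ∀ s ∈ D, ∃ e ∈ D, a * e * a⁻¹ * e⁻¹ = s := by
    intro a ha ha1 s hs
    let φ : D → D := fun e => ⟨a * e * a⁻¹ * e⁻¹, hcomm a e⟩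
    have hinj : Function.Injective φ := by
      intro e f hef
      have h1 : a * (e : G) * a⁻¹ * (e : G)⁻¹ = a * (f : G) * a⁻¹ * (f : G)⁻¹ :=
        congrArg Subtype.val hef
      have h2 : a * ((f : G)⁻¹ * (e : G)) = ((f : G)⁻¹ * (e : G)) * a := by
        have h3 : (e : G) * a⁻¹ * (e : G)⁻¹ = (f : G) * a⁻¹ * (f : G)⁻¹ := by
          have h4 : a⁻¹ * (a * (e : G) * a⁻¹ * (e : G)⁻¹) = a⁻¹ * (a * (f : G) * a⁻¹ * (f : G)⁻¹) := by
            rw [h1]
          simpa [mul_assoc] using h4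
        have h5 : (f : G)⁻¹ * (e : G) * a⁻¹ = a⁻¹ * ((f : G)⁻¹ * (e : G)) := by
          have h6 : (f : G)⁻¹ * ((e : G) * a⁻¹ * (e : G)⁻¹) * (e : G) =
              (f : G)⁻¹ * ((f : G) * a⁻¹ * (f : G)⁻¹) * (e : G) := by rw [h3]
          simpa [mul_assoc] using h6
        have h7 : a * ((f : G)⁻¹ * (e : G) * a⁻¹) * a = a * (a⁻¹ * ((f : G)⁻¹ * (e : G))) * a := by
          rw [h5]
        simpa [mul_assoc] using h7
      have h8 := hfpf a ha ha1 _ (mul_mem (inv_mem f.2) e.2) h2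
      apply Subtype.ext
      exact (inv_mul_eq_one.mp h8).symm
    obtain ⟨e, he⟩ := (Finite.injective_iff_surjective.mp hinj) ⟨s, hs⟩
    exact ⟨e, e.2, congrArg Subtype.val he⟩
  obtain ⟨a₀, ha₀, ha₀1⟩ : ∃ a ∈ A, a ≠ 1 := (Subgroup.ne_bot_iff_exists_ne_one.mp hAne) |>.elim
    fun a ha => ⟨a, a.2, fun h0 => ha (Subtype.ext h0)⟩
  have hDeq : ⁅A, (P : Subgroup G)⁆ = D := by
    apply le_antisymm
    · exact Subgroup.commutator_mono le_top le_top
    · intro s hs
      obtain ⟨e, he, rfl⟩ := hsurj a₀ ha₀ ha₀1 s hs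
      exact Subgroup.commutator_mem_commutator ha₀ (hDP he)
  -- cyclicity
  have hAcyc : IsCyclic A := by
    letI : CommGroup A := { (inferInstance : Group A) with
      mul_comm := fun a b => Subtype.ext (hAcomm a a.2 b b.2) }
    by_contra hnc
    obtain ⟨r, hr, a, b, har, hbr, hb1, hind⟩ := exists_independent_pair hnc
    haveI : Fact r.Prime := ⟨hr⟩
    have hrp : r ≠ p := by
      rintro rfl
      have h2 : orderOf b ∣ Nat.card A := orderOf_dvd_natCard _
      have h3 : orderOf b ∣ r := orderOf_dvd_of_pow_eq_one hbr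
      have h4 : orderOf b = r := by
        rcases (Nat.dvd_prime hr).mp h3 with h5 | h5
        · exact absurd (orderOf_eq_one_iff.mp h5) hb1
        · exact h5
      rw [h4] at h2
      have h3 := Nat.Coprime.coprime_dvd_left h2 hAcop
      rw [Nat.coprime_self] at h3
      exact hr.one_lt.ne h3.symm
    refine false_of_pair (K := D) hab (a := (a : G)) (b := (b : G)) (p := r)
      (hAcomm a a.2 b b.2) ?_ ?_ ?_ ?_ ?_ ?_
    · rw [← Subgroup.coe_pow, har]; rfl
    · rw [← Subgroup.coe_pow, hbr]; rfl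
    · rw [Subgroup.normalizer_eq_top_iff.mpr hDn]
      exact Subgroup.mem_top _
    · rw [Subgroup.normalizer_eq_top_iff.mpr hDn]
      exact Subgroup.mem_top _
    · obtain ⟨n, hn⟩ := IsPGroup.iff_card.mp hD
      rw [hn]
      exact Nat.Coprime.pow_left _ ((Nat.coprime_primes hp hr).mpr hrp.symm)
    · intro x hx
      have hxA : x ∈ A := by
        rcases hx with rfl | ⟨i, -, rfl⟩
        · exact b.2
        · exact mul_mem a.2 (pow_mem b.2 i)
      have hx1 : x ≠ 1 := by
        rcases hx with rfl | ⟨i, -, rfl⟩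
        · exact fun h0 => hb1 (Subtype.ext h0)
        · intro h0
          apply hind i
          apply Subtype.ext
          simpa using h0
      rw [eq_bot_iff]
      rintro d ⟨hd1, hd2⟩
      rw [Subgroup.mem_bot]
      apply hfpf x hxA hx1 d hd1
      have := Subgroup.mem_centralizer_iff.mp hd2 x (Set.mem_singleton x)
      exact this
  obtain ⟨g₀, hg₀⟩ := hAcyc.exists_generator
  have ha₁mem : (g₀ : G) ∈ A := g₀.2
  have hg₁ : (g₀ : G) ≠ 1 := by
    intro h0
    have : g₀ = 1 := Subtype.ext h0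
    apply hAne
    rw [eq_bot_iff]
    intro a ha
    obtain ⟨k, hk⟩ := Subgroup.mem_zpowers_iff.mp (hg₀ ⟨a, ha⟩)
    rw [this, one_zpow] at hk
    have := congrArg Subtype.val hk
    exact (Subgroup.mem_bot).mpr this.symm
  have hcentA : ∀ c : G, (g₀ : G) * c = c * (g₀ : G) → c ∈ Subgroup.centralizer (A : Set G) := by
    intro c hc
    rw [Subgroup.mem_centralizer_iff]
    intro a ha
    obtain ⟨k, hk⟩ := Subgroup.mem_zpowers_iff.mp (hg₀ ⟨a, ha⟩)
    have h1 : a = (g₀ : G) ^ k := by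
      rw [← Subgroup.coe_zpow, hk]
    rw [h1]
    exact ((show Commute (g₀ : G) c from hc).zpow_left k)
  have hCD : ((P : Subgroup G) ⊓ Subgroup.centralizer (A : Set G)) ⊓ D = ⊥ := by
    rw [eq_bot_iff]
    rintro d ⟨⟨hd1, hd2⟩, hd3⟩
    rw [Subgroup.mem_bot]
    apply hfpf a₀ ha₀ ha₀1 d hd3
    exact Subgroup.mem_centralizer_iff.mp hd2 a₀ ha₀
  have hsup : ((P : Subgroup G) ⊓ Subgroup.centralizer (A : Set G)) ⊔ D = (P : Subgroup G) := by
    apply le_antisymm
    · exact sup_le inf_le_left hDP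
    · intro u hu
      have hs : (g₀ : G) * u * (g₀ : G)⁻¹ * u⁻¹ ∈ D := hcomm _ _
      obtain ⟨e, he, hes⟩ := hsurj g₀ g₀.2 hg₁ _ hs
      have hcu : e⁻¹ * u ∈ (P : Subgroup G) := mul_mem (inv_mem (hDP he)) hu
      have hcc : (g₀ : G) * (e⁻¹ * u) = (e⁻¹ * u) * (g₀ : G) := by
        have h1 : (g₀ : G) * u * (g₀ : G)⁻¹ = (g₀ : G) * e * (g₀ : G)⁻¹ * e⁻¹ * u := by
          rw [hes]
          group
        have h2 : (g₀ : G) * u = (g₀ : G) * e * (g₀ : G)⁻¹ * e⁻¹ * u * (g₀ : G) := by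
          rw [← h1]
          group
        have h3 : (g₀ : G) * (e⁻¹ * u) * (g₀ : G)⁻¹ = e⁻¹ * u := by
          have h4 : (g₀ : G) * (e⁻¹ * u) * (g₀ : G)⁻¹ =
              ((g₀ : G) * e⁻¹ * (g₀ : G)⁻¹) * ((g₀ : G) * u * (g₀ : G)⁻¹) := by group
          rw [h4, h1]
          group
        calc (g₀ : G) * (e⁻¹ * u) = ((g₀ : G) * (e⁻¹ * u) * (g₀ : G)⁻¹) * (g₀ : G) := by group
          _ = _ := by rw [h3]
      have h6 : u = e * (e⁻¹ * u) := by group
      rw [h6]
      refine mul_mem (Subgroup.mem_sup_right he) (Subgroup.mem_sup_left ⟨hcu, hcentA _ hcc⟩)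
  refine ⟨p, hpf, P, A, hPn, hAcyc, hAne, hAcop, hAPt, ?_, ?_, ?_, ?_, ?_⟩
  · constructor
    constructor
    rintro ⟨c₁, hc₁⟩ ⟨c₂, hc₂⟩
    apply Subtype.ext
    show c₁ * c₂ = c₂ * c₁
    have h0 : c₁ * c₂ * c₁⁻¹ * c₂⁻¹ ∈ ((P : Subgroup G) ⊓ Subgroup.centralizer (A : Set G)) :=
      mul_mem (mul_mem (mul_mem hc₁ hc₂) (inv_mem hc₁)) (inv_mem hc₂)
    have h1 : c₁ * c₂ * c₁⁻¹ * c₂⁻¹ ∈ ((P : Subgroup G) ⊓ Subgroup.centralizer (A : Set G)) ⊓ D :=
      Subgroup.mem_inf.mpr ⟨h0, hcomm c₁ c₂⟩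
    rw [hCD, Subgroup.mem_bot] at h1
    have h2 : c₁ * c₂ = (c₁ * c₂ * c₁⁻¹ * c₂⁻¹) * (c₂ * c₁) := by group
    rw [h2, h1, one_mul]
  · rw [hDeq]
    exact hDn
  · rw [hDeq]
    exact hsup
  · rw [hDeq]
    exact hCD
  · intro a ha ha1 d hd hcd
    rw [hDeq] at hd
    exact hfpf a ha ha1 d hd hcd

end Forward

section Backward

variable {G : Type*} [Group G] [Fintype G] [Fintype (IrrCharacter G)]

theorem hypPP_of_pgroup {p : ℕ} (hp : p.Prime) (h : IsPGroup p G) : HypPP G := by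
  intro x y χ hx hy hpq
  exfalso
  haveI : Fact p.Prime := ⟨hp⟩
  obtain ⟨r, s, a, b, hr, hs, hrs, hoa, hob⟩ := hpq
  have key : ∀ (u : G) (r a : ℕ), u ≠ 1 → r.Prime → orderOf u = r ^ a → r = p := by
    intro u r a hu hr hoa
    obtain ⟨k, hk⟩ := IsPGroup.iff_orderOf.mp h u
    have ha : a ≠ 0 := by
      rintro rfl
      rw [pow_zero] at hoa
      exact hu (orderOf_eq_one_iff.mp hoa)
    have h1 : r ∣ p ^ k := by
      rw [← hk, hoa]
      exact dvd_pow_self r ha
    exact (Nat.prime_dvd_prime_iff_eq hr hp).mp (hr.dvd_of_dvd_pow h1)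
  exact hrs ((key x r a hx hr hoa).trans (key y s b hy hs hob).symm)

theorem hypPP_of_comm (h : IsMulCommutative G) : HypPP G := by
  intro x y χ hx hy hpq
  have hd := irr_degree_one_of_comm (fun a b => h.is_comm.comm a b) χ.2
  exact linear_mul (isCharacter_of_irr χ.2) hd x y

/-- The sum over a normal subgroup acts by a scalar, either `0` or the order. -/
theorem sum_normal_scalar (D : Subgroup G) [hD : D.Normal] (χ : IrrCharacter G) :
    ∃ c : ℂ, (∀ y : G, ∑ d : D, χ.1 ((d : G) * y) = c * χ.1 y) ∧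
      (c = 0 ∨ c = (Nat.card D : ℂ)) := by
  classical
  let a : G → ℂ := fun g => if g ∈ D then 1 else 0
  have ha : IsClassFunction G a := by
    intro g k
    simp only [a]
    by_cases hg : g ∈ D
    · rw [if_pos hg, if_pos (hD.conj_mem g hg k)]
    · rw [if_neg hg, if_neg]
      intro h
      apply hg
      have := hD.conj_mem _ h k⁻¹
      simpa [mul_assoc] using this
  have hs : ∀ y, ∑ x, a x * χ.1 (x * y) = ∑ d : D, χ.1 ((d : G) * y) := by
    intro y
    have h1 : ∀ x, a x * χ.1 (x * y) = if x ∈ D then χ.1 (x * y) else 0 := by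
      intro x
      simp only [a]
      split_ifs <;> simp
    simp only [h1]
    rw [← Finset.sum_filter]
    symm
    refine Finset.sum_bij (fun (d : D) _ => (d : G)) ?_ ?_ ?_ ?_
    · intro d _
      simp
    · intro d _ e _ hde
      exact Subtype.ext hde
    · intro b hb
      rw [Finset.mem_filter] at hb
      exact ⟨⟨b, hb.2⟩, Finset.mem_univ _, rfl⟩
    · intro d _
      rfl
  have hmain := fun y => sum_class_mul_char a ha χ y
  simp only [hs] at hmain
  refine ⟨om χ a, hmain, ?_⟩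
  set c := om χ a with hc
  have hd0 : χ.1 1 ≠ 0 := by
    have h5 := irr_charDegree_pos χ.2
    rw [one_eq_charDegree (isCharacter_of_irr χ.2)]
    exact_mod_cast h5.ne'
  have h2 : ∑ e : D, ∑ d : D, χ.1 ((d : G) * ((e : G) * 1)) = (Nat.card D : ℂ) * (c * χ.1 1) := by
    have h3 : ∀ e : D, ∑ d : D, χ.1 ((d : G) * ((e : G) * 1)) = c * χ.1 1 := by
      intro e
      rw [← hmain 1]
      refine Fintype.sum_equiv (Equiv.mulRight e) _ _ fun d => ?_
      simp [mul_assoc]
    simp only [h3, Finset.sum_const, Finset.card_univ, nsmul_eq_mul]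
    rw [Nat.card_eq_fintype_card]
  have h4 : ∑ e : D, ∑ d : D, χ.1 ((d : G) * ((e : G) * 1)) = c * (c * χ.1 1) := by
    simp only [hmain, ← Finset.mul_sum]
  rw [h4] at h2
  have h5 : c * (c - (Nat.card D : ℂ)) = 0 := by
    have h6 : c * (c - (Nat.card D : ℂ)) * χ.1 1 = 0 := by linear_combination h2
    rcases mul_eq_zero.mp h6 with h7 | h7
    · exact h7
    · exact absurd h7 hd0
  rcases mul_eq_zero.mp h5 with h6 | h6
  · exact Or.inl h6
  · exact Or.inr (sub_eq_zero.mp h6)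

theorem ker_of_sum_eq (D : Subgroup G) (χ : IrrCharacter G)
    (h : ∑ d : D, χ.1 ((d : G) * 1) = (Nat.card D : ℂ) * χ.1 1) (d : G) (hd : d ∈ D) :
    χ.1 d = χ.1 1 := by
  classical
  have hc := isCharacter_of_irr χ.2
  have h1 : ∀ e : G, ‖χ.1 e‖ ≤ (charDegree χ.1 : ℝ) := isCharacter_norm_le hc
  have h2 : χ.1 1 = (charDegree χ.1 : ℂ) := one_eq_charDegree hc
  set n : ℝ := (charDegree χ.1 : ℝ) with hn
  have h3 : ∑ e : D, (n - (χ.1 (e : G)).re) = 0 := by
    have h4 := congrArg Complex.re h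
    simp only [mul_one, Complex.re_sum] at h4
    rw [Finset.sum_sub_distrib, h4, h2]
    simp [Nat.card_eq_fintype_card, hn]
  have h5 : ∀ e : D, 0 ≤ n - (χ.1 (e : G)).re := by
    intro e
    have := (Complex.re_le_norm (χ.1 (e : G))).trans (h1 e)
    linarith
  have h6 := (Finset.sum_eq_zero_iff_of_nonneg (fun e _ => h5 e)).mp h3 ⟨d, hd⟩ (Finset.mem_univ _)
  have h7 : (χ.1 d).re = n := by
    have : n - (χ.1 d).re = 0 := h6
    linarith
  have h8 : ‖χ.1 d‖ ≤ n := h1 d
  have h9 : (χ.1 d).im = 0 := by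
    have h10 := Complex.sq_norm (χ.1 d)
    rw [Complex.normSq_apply, h7] at h10
    have h11 : ‖χ.1 d‖ ^ 2 ≤ n ^ 2 := by
      have := norm_nonneg (χ.1 d)
      nlinarith
    nlinarith [sq_nonneg (χ.1 d).im]
  rw [h2]
  apply Complex.ext
  · simp [h7, hn]
  · simp [h9]

theorem vanish_of_fpf (D : Subgroup G) [hD : D.Normal] (g : G)
    (hg : ∀ d ∈ D, g * d = d * g → d = 1) (χ : IrrCharacter G)
    (hker : ¬ ∀ d ∈ D, χ.1 d = χ.1 1) : χ.1 g = 0 := by
  classical
  obtain ⟨c, hc, hc2⟩ := sum_normal_scalar D χ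
  rcases hc2 with h0 | h0
  · have hcl := isCharacter_of_irr χ.2
    have h1 : ∀ d : D, χ.1 ((d : G) * g) = χ.1 g := by
      intro d
      let φ : D → D := fun w => ⟨w * (g * (w : G)⁻¹ * g⁻¹), by
        exact mul_mem w.2 (hD.conj_mem _ (inv_mem w.2) g)⟩
      have hinj : Function.Injective φ := by
        intro u v huv
        have h2 : (u : G) * (g * (u : G)⁻¹ * g⁻¹) = (v : G) * (g * (v : G)⁻¹ * g⁻¹) :=
          congrArg Subtype.val huv
        have h3 : g * ((v : G)⁻¹ * (u : G)) = ((v : G)⁻¹ * (u : G)) * g := by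
          have h4 : (v : G)⁻¹ * ((u : G) * (g * (u : G)⁻¹ * g⁻¹)) * g * (u : G) =
              (v : G)⁻¹ * ((v : G) * (g * (v : G)⁻¹ * g⁻¹)) * g * (u : G) := by rw [h2]
          have h5 : (v : G)⁻¹ * ((u : G) * (g * (u : G)⁻¹ * g⁻¹)) * g * (u : G) =
              (v : G)⁻¹ * (u : G) * g := by group
          have h6 : (v : G)⁻¹ * ((v : G) * (g * (v : G)⁻¹ * g⁻¹)) * g * (u : G) =
              g * ((v : G)⁻¹ * (u : G)) := by group
          rw [h5, h6] at h4
          exact h4.symm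
        have h7 := hg _ (mul_mem (inv_mem v.2) u.2) h3
        apply Subtype.ext
        exact (inv_mul_eq_one.mp h7).symm
      obtain ⟨w, hw⟩ := (Finite.injective_iff_surjective.mp hinj) d
      have h2 : (d : G) * g = (w : G) * g * (w : G)⁻¹ := by
        have h3 : (w : G) * (g * (w : G)⁻¹ * g⁻¹) = d := congrArg Subtype.val hw
        rw [← h3]
        group
      rw [h2, isCharacter_conj hcl]
    have h2 := hc g
    rw [h0, zero_mul] at h2
    simp only [h1, Finset.sum_const, Finset.card_univ, nsmul_eq_mul] at h2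
    rcases mul_eq_zero.mp h2 with h3 | h3
    · exfalso
      have : Fintype.card D ≠ 0 := Fintype.card_ne_zero
      exact this (by exact_mod_cast h3)
    · exact h3
  · exfalso
    apply hker
    apply ker_of_sum_eq D χ
    rw [hc 1, h0]

theorem linear_of_ker (D : Subgroup G) [hD : D.Normal] (hcomm : ∀ g h : G, g * h * g⁻¹ * h⁻¹ ∈ D)
    (χ : IrrCharacter G) (hker : ∀ d ∈ D, χ.1 d = χ.1 1) : charDegree χ.1 = 1 := by
  classical
  let f : G →* G ⧸ D := QuotientGroup.mk' D
  have hf : Function.Surjective f := QuotientGroup.mk'_surjective D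
  obtain ⟨χ', hχ', he⟩ := isIrrCharacter_descend f hf χ.2 (by
    intro k hk
    apply hker
    exact (QuotientGroup.eq_one_iff k).mp hk)
  have hc : ∀ a b : G ⧸ D, a * b = b * a := by
    intro a b
    obtain ⟨a, rfl⟩ := QuotientGroup.mk_surjective a
    obtain ⟨b, rfl⟩ := QuotientGroup.mk_surjective b
    have h1 : ((a * b * a⁻¹ * b⁻¹ : G) : G ⧸ D) = 1 := (QuotientGroup.eq_one_iff _).mpr (hcomm a b)
    have h2 : (a : G ⧸ D) * b * (a : G ⧸ D)⁻¹ * (b : G ⧸ D)⁻¹ = 1 := h1
    have h3 : (a : G ⧸ D) * b = ((a : G ⧸ D) * b * (a : G ⧸ D)⁻¹ * (b : G ⧸ D)⁻¹) * (b * a) := by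
      group
    rw [h3, h2, one_mul]
  have hd := irr_degree_one_of_comm hc hχ'
  have h1 : χ.1 1 = χ' 1 := by
    have := congrFun he 1
    simp only [Function.comp_apply, map_one] at this
    exact this.symm
  have h2 := one_eq_charDegree (isCharacter_of_irr hχ')
  rw [hd] at h2
  have h3 := one_eq_charDegree (isCharacter_of_irr χ.2)
  rw [h1, h2] at h3
  exact_mod_cast h3.symm

/-- The third alternative implies the hypothesis. -/
theorem hypPP_of_structure {p : ℕ} [hp : Fact p.Prime] (P : Sylow p G) (A : Subgroup G)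
    (hPn : (P : Subgroup G).Normal) (hAc : IsCyclic ↥A) (hcop : (Nat.card ↥A).Coprime p)
    (hsup : A ⊔ (P : Subgroup G) = ⊤)
    (hCc : IsMulCommutative ↥((P : Subgroup G) ⊓ Subgroup.centralizer (A : Set G)))
    (hDn : (⁅A, (P : Subgroup G)⁆).Normal)
    (hCD : ((P : Subgroup G) ⊓ Subgroup.centralizer (A : Set G)) ⊔ ⁅A, (P : Subgroup G)⁆ =
      (P : Subgroup G))
    (hfpf : ∀ a ∈ A, a ≠ 1 → ∀ d ∈ ⁅A, (P : Subgroup G)⁆, a * d = d * a → d = 1) : HypPP G := by
  classical
  haveI := hPn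
  haveI := hDn
  set D := ⁅A, (P : Subgroup G)⁆ with hD
  set C := (P : Subgroup G) ⊓ Subgroup.centralizer (A : Set G) with hC
  -- decomposition of elements
  have hdecP : ∀ u ∈ (P : Subgroup G), ∃ c ∈ C, ∃ d ∈ D, u = c * d := by
    intro u hu
    rw [← hCD] at hu
    have hu2 : u ∈ ((C ⊔ D : Subgroup G) : Set G) := hu
    rw [Subgroup.mul_normal] at hu2
    obtain ⟨c, hc, d, hd, rfl⟩ := Set.mem_mul.mp hu2
    exact ⟨c, hc, d, hd, rfl⟩
  have hdecG : ∀ g : G, ∃ a ∈ A, ∃ u ∈ (P : Subgroup G), g = a * u := by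
    intro g
    have hg : g ∈ A ⊔ (P : Subgroup G) := by rw [hsup]; exact Subgroup.mem_top g
    have hg2 : g ∈ ((A ⊔ (P : Subgroup G) : Subgroup G) : Set G) := hg
    rw [Subgroup.mul_normal] at hg2
    obtain ⟨a, ha, u, hu, rfl⟩ := Set.mem_mul.mp hg2
    exact ⟨a, ha, u, hu, rfl⟩
  -- commutators lie in `D`
  have hcomm : ∀ g h : G, g * h * g⁻¹ * h⁻¹ ∈ D := by
    let π : G →* G ⧸ D := QuotientGroup.mk' D
    have hπ : ∀ g, π g = 1 ↔ g ∈ D := fun g => QuotientGroup.eq_one_iff g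
    have hAA : ∀ a ∈ A, ∀ b ∈ A, Commute (π a) (π b) := by
      intro a ha b hb
      have h1 : a * b = b * a := by
        have := (IsCyclic.isMulCommutative (α := A)).is_comm.comm ⟨a, ha⟩ ⟨b, hb⟩
        exact congrArg Subtype.val this
      show π a * π b = π b * π a
      rw [← map_mul, ← map_mul, h1]
    have hAP : ∀ a ∈ A, ∀ u ∈ (P : Subgroup G), Commute (π a) (π u) := by
      intro a ha u hu
      have h1 : a * u * a⁻¹ * u⁻¹ ∈ D := Subgroup.commutator_mem_commutator ha hu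
      have h2 := (hπ _).mpr h1
      simp only [map_mul, map_inv] at h2
      show π a * π u = π u * π a
      have h3 : π a * π u = (π a * π u * (π a)⁻¹ * (π u)⁻¹) * (π u * π a) := by group
      rw [h3, h2, one_mul]
    have hPP : ∀ u ∈ (P : Subgroup G), ∀ v ∈ (P : Subgroup G), Commute (π u) (π v) := by
      intro u hu v hv
      obtain ⟨c, hc, d, hd, rfl⟩ := hdecP u hu
      obtain ⟨c', hc', d', hd', rfl⟩ := hdecP v hv
      have h1 : π d = 1 := (hπ d).mpr hd
      have h2 : π d' = 1 := (hπ d').mpr hd'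
      simp only [map_mul, h1, h2, mul_one]
      have h3 : c * c' = c' * c := by
        have := hCc.is_comm.comm ⟨c, hc⟩ ⟨c', hc'⟩
        exact congrArg Subtype.val this
      show π c * π c' = π c' * π c
      rw [← map_mul, ← map_mul, h3]
    intro g h
    obtain ⟨a, ha, u, hu, rfl⟩ := hdecG g
    obtain ⟨b, hb, v, hv, rfl⟩ := hdecG h
    rw [← hπ]
    have h1 : Commute (π (a * u)) (π (b * v)) := by
      simp only [map_mul]
      apply Commute.mul_left
      · exact Commute.mul_right (hAA a ha b hb) (hAP a ha v hv)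
      · exact Commute.mul_right (hAP b hb u hu).symm (hPP u hu v hv)
    simp only [map_mul (π), map_inv]
    have h2 := h1.eq
    simp only [map_mul] at h2 ⊢
    rw [h2]
    group
  -- fixed point freeness off `P`
  have hfree : ∀ g : G, g ∉ (P : Subgroup G) → ∀ d ∈ D, g * d = d * g → d = 1 := by
    intro g hg
    obtain ⟨a, ha, u, hu, rfl⟩ := hdecG g
    obtain ⟨c, hc, d₀, hd₀, rfl⟩ := hdecP u hu
    have ha1 : a ≠ 1 := by
      rintro rfl
      apply hg
      rw [one_mul]
      exact hu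
    have hac : Commute a c := by
      have := Subgroup.mem_centralizer_iff.mp hc.2 a ha
      exact this
    -- the element `h = a * c` has no fixed points
    have hh : ∀ d ∈ D, (a * c) * d = d * (a * c) → d = 1 := by
      intro d hd hcd
      have hoa : orderOf a ∣ Nat.card A := by
        rw [← Subgroup.orderOf_mk a ha]
        exact orderOf_dvd_natCard _
      have hco : ∃ k : ℕ, orderOf c = p ^ k := by
        have hPp : IsPGroup p (P : Subgroup G) := P.isPGroup'
        obtain ⟨k, hk⟩ := (IsPGroup.iff_orderOf.mp hPp) ⟨c, hc.1⟩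
        rw [Subgroup.orderOf_mk] at hk
        exact ⟨k, hk⟩
      obtain ⟨k, hk⟩ := hco
      have hcop2 : Nat.Coprime (orderOf a) (orderOf c) := by
        rw [hk]
        exact Nat.Coprime.pow_right _ (Nat.Coprime.coprime_dvd_left hoa hcop)
      let m := Nat.chineseRemainder hcop2 1 0
      have hm1 : (m : ℕ) ≡ 1 [MOD orderOf a] := m.2.1
      have hm2 : (m : ℕ) ≡ 0 [MOD orderOf c] := m.2.2
      have h1 : (a * c) ^ (m : ℕ) = a := by
        rw [hac.mul_pow]
        have h2 : a ^ (m : ℕ) = a := by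
          have := (pow_eq_pow_iff_modEq (x := a)).mpr hm1
          rwa [pow_one] at this
        have h3 : c ^ (m : ℕ) = 1 := by
          have := (pow_eq_pow_iff_modEq (x := c)).mpr hm2
          rwa [pow_zero] at this
        rw [h2, h3, mul_one]
      have h2 : Commute (a * c) d := hcd
      have h3 : Commute a d := by
        have := h2.pow_left (m : ℕ)
        rwa [h1] at this
      exact hfpf a ha ha1 d hd h3
    -- `g = a c d₀` is `D`-conjugate to `a c`
    set h := a * c with hhdef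
    let φ : D → D := fun w => ⟨h⁻¹ * w * h * (w : G)⁻¹, by
      have h1 := hDn.conj_mem w w.2 h⁻¹
      have h2 : h⁻¹ * (w : G) * h = h⁻¹ * (w : G) * h⁻¹⁻¹ := by simp
      rw [h2]
      exact mul_mem h1 (inv_mem w.2)⟩
    have hinj : Function.Injective φ := by
      intro u v huv
      have h2 : h⁻¹ * (u : G) * h * (u : G)⁻¹ = h⁻¹ * (v : G) * h * (v : G)⁻¹ :=
        congrArg Subtype.val huv
      have h3 : h * ((v : G)⁻¹ * (u : G)) = ((v : G)⁻¹ * (u : G)) * h := by
        have h4 : (v : G)⁻¹ * (h * (h⁻¹ * (u : G) * h * (u : G)⁻¹)) * (u : G) =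
            (v : G)⁻¹ * (h * (h⁻¹ * (v : G) * h * (v : G)⁻¹)) * (u : G) := by rw [h2]
        have h5 : (v : G)⁻¹ * (h * (h⁻¹ * (u : G) * h * (u : G)⁻¹)) * (u : G) =
            (v : G)⁻¹ * (u : G) * h := by group
        have h6 : (v : G)⁻¹ * (h * (h⁻¹ * (v : G) * h * (v : G)⁻¹)) * (u : G) =
            h * ((v : G)⁻¹ * (u : G)) := by group
        rw [h5, h6] at h4
        exact h4.symm
      have h7 := hh _ (mul_mem (inv_mem v.2) u.2) h3
      apply Subtype.ext
      exact (inv_mul_eq_one.mp h7).symm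
    obtain ⟨w, hw⟩ := (Finite.injective_iff_surjective.mp hinj) ⟨d₀, hd₀⟩
    have hw' : h⁻¹ * (w : G) * h * (w : G)⁻¹ = d₀ := congrArg Subtype.val hw
    have hg2 : a * (c * d₀) = (w : G) * h * (w : G)⁻¹ := by
      rw [← hw', ← mul_assoc, ← hhdef]
      group
    rw [hg2]
    intro d hd hcd
    have h1 : (w : G)⁻¹ * d * (w : G) ∈ D := by
      have := hDn.conj_mem d hd (w : G)⁻¹
      simpa using this
    have h2 : h * ((w : G)⁻¹ * d * (w : G)) = ((w : G)⁻¹ * d * (w : G)) * h := by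
      have h3 : (w : G)⁻¹ * ((w : G) * h * (w : G)⁻¹ * d) * (w : G) =
          (w : G)⁻¹ * (d * ((w : G) * h * (w : G)⁻¹)) * (w : G) := by rw [hcd]
      calc h * ((w : G)⁻¹ * d * (w : G)) = (w : G)⁻¹ * ((w : G) * h * (w : G)⁻¹ * d) * (w : G) := by
            group
        _ = (w : G)⁻¹ * (d * ((w : G) * h * (w : G)⁻¹)) * (w : G) := h3
        _ = _ := by group
    have h3 := hh _ h1 h2
    have h4 : d = (w : G) * ((w : G)⁻¹ * d * (w : G)) * (w : G)⁻¹ := by group
    rw [h4, h3]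
    group
  intro x y χ hx hy hpq
  obtain ⟨r, s, a, b, hr, hs, hrs, hoa, hob⟩ := hpq
  have hPp : IsPGroup p (P : Subgroup G) := P.isPGroup'
  have key : ∀ (u : G) (r a : ℕ), u ≠ 1 → r.Prime → orderOf u = r ^ a →
      u ∈ (P : Subgroup G) → r = p := by
    intro u r a hu hr hoa huP
    obtain ⟨k, hk⟩ := (IsPGroup.iff_orderOf.mp hPp) ⟨u, huP⟩
    rw [Subgroup.orderOf_mk] at hk
    have ha : a ≠ 0 := by
      rintro rfl
      rw [pow_zero] at hoa
      exact hu (orderOf_eq_one_iff.mp hoa)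
    have h1 : r ∣ p ^ k := by
      rw [← hk, hoa]
      exact dvd_pow_self r ha
    exact (Nat.prime_dvd_prime_iff_eq hr hp.out).mp (hr.dvd_of_dvd_pow h1)
  have hnot : x ∉ (P : Subgroup G) ∨ y ∉ (P : Subgroup G) := by
    by_contra hcon
    push Not at hcon
    exact hrs ((key x r a hx hr hoa hcon.1).trans (key y s b hy hs hob hcon.2).symm)
  have hxy : x * y ∉ (P : Subgroup G) := by
    intro hmem
    let π : G →* G ⧸ (P : Subgroup G) := QuotientGroup.mk' _
    have hπ : ∀ g, π g = 1 ↔ g ∈ (P : Subgroup G) := fun g => QuotientGroup.eq_one_iff g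
    have h1 : π x * π y = 1 := by
      rw [← map_mul]
      exact (hπ _).mpr hmem
    have h2 : π x = (π y)⁻¹ := eq_inv_of_mul_eq_one_left h1
    have h3 : (π x) ^ (r ^ a) = 1 := by
      rw [← map_pow, ← hoa, pow_orderOf_eq_one, map_one]
    have h4 : (π x) ^ (s ^ b) = 1 := by
      rw [h2, inv_pow, ← map_pow, ← hob, pow_orderOf_eq_one, map_one, inv_one]
    have h5 : Nat.Coprime (r ^ a) (s ^ b) :=
      Nat.Coprime.pow _ _ ((Nat.coprime_primes hr hs).mpr hrs)
    have h6 : orderOf (π x) = 1 := by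
      have h7 := Nat.dvd_gcd (orderOf_dvd_of_pow_eq_one h3) (orderOf_dvd_of_pow_eq_one h4)
      rw [h5] at h7
      exact Nat.dvd_one.mp h7
    have h8 : π x = 1 := orderOf_eq_one_iff.mp h6
    have h9 : π y = 1 := by
      rw [h8] at h1
      simpa using h1
    rcases hnot with h10 | h10
    · exact h10 ((hπ x).mp h8)
    · exact h10 ((hπ y).mp h9)
  by_cases hker : ∀ d ∈ D, χ.1 d = χ.1 1
  · exact linear_mul (isCharacter_of_irr χ.2) (linear_of_ker D hcomm χ hker) x y
  · rw [vanish_of_fpf D (x * y) (hfree _ hxy) χ hker]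
    rcases hnot with h10 | h10
    · rw [vanish_of_fpf D x (hfree _ h10) χ hker, zero_mul]
    · rw [vanish_of_fpf D y (hfree _ h10) χ hker, mul_zero]

end Backward

end Cfsg.Agent.H22
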