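import Cfsg.Agent.Lib.H22.Ord
import Cfsg.Agent.Lib.H23.PrincLin
import Cfsg.Agent.Lib.H06.FittingHall
import Cfsg.Agent.Lib.H03.PConstr
import Cfsg.Prelude.Def_CaseTheorems

/-!
# Elements `u` with `χ(1) - χ(u)` constant or `χ(u) = 0`
-/

set_option autoImplicit false
set_option linter.unusedSectionVars false
set_option linter.style.haveILetI false
set_option linter.unusedSimpArgs false

namespace Cfsg.Agent.H22

open Cfsg Cfsg.Agent.H21 Cfsg.Agent.H23 Module
open scoped ComplexConjugate commutatorElement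

universe u

variable {G : Type u} [Group G] [Finite G]

theorem quad_deg_ne_zero (χ : IrrCharacter G) : (charDegree χ.1) ≠ 0 := by
  haveI : Fintype G := Fintype.ofFinite G
  exact (irr_charDegree_pos χ.2).ne'

/-- A linear character kills commutators. -/
theorem quad_linear_commutator {μ : G → ℂ} (hμ : IsCharacter G μ)
    (h1 : charDegree μ = 1) {x : G} (hx : x ∈ commutator G) : μ x = 1 := by
  obtain ⟨l, hl⟩ := Cfsg.Agent.H06.Brauer.exists_hom_of_linear hμ h1
  have : commutator G ≤ l.ker := by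
    rw [_root_.commutator_def, Subgroup.commutator_le]
    intro a _ b _
    rw [MonoidHom.mem_ker, commutatorElement_def]
    simp only [map_mul, map_inv]
    rw [mul_comm (l a) (l b)]
    group
  have h2 : l x = 1 := this hx
  rw [← hl, h2]; simp

omit [Finite G] in
theorem aux_a_imp' {O : Subgroup G} [O.Normal] (v : G) (h : Subgroup.zpowers v ⊔ O = ⊤) :
    commutator G ≤ O := by
  have hall : ∀ g : G, ∃ k : ℤ, ∃ o ∈ O, g = v ^ k * o := by
    intro g
    have hg : g ∈ Subgroup.zpowers v ⊔ O := by rw [h]; trivial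
    rw [Subgroup.mem_sup_of_normal_right] at hg
    obtain ⟨a, ha, o, ho, rfl⟩ := hg
    obtain ⟨k, rfl⟩ := Subgroup.mem_zpowers_iff.1 ha
    exact ⟨k, o, ho, rfl⟩
  rw [_root_.commutator_def, Subgroup.commutator_le]
  intro a _ b _
  obtain ⟨k, o, ho, rfl⟩ := hall a
  obtain ⟨l, o', ho', rfl⟩ := hall b
  rw [← QuotientGroup.eq_one_iff (N := O)]
  have h1 : ((o : G) : G ⧸ O) = 1 := (QuotientGroup.eq_one_iff _).2 ho
  have h2 : ((o' : G) : G ⧸ O) = 1 := (QuotientGroup.eq_one_iff _).2 ho'
  simp only [commutatorElement_def, QuotientGroup.mk_mul, QuotientGroup.mk_inv, h1, h2, mul_one,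
    mul_inv_rev, inv_one, one_mul, QuotientGroup.mk_zpow]
  have : Commute ((v : G ⧸ O) ^ k) ((v : G ⧸ O) ^ l) := Commute.zpow_zpow_self _ k l
  rw [this.eq]
  group

theorem aux_a_imp (v : G) (H : orderOf v = 2 ∧ Subgroup.zpowers v ⊔ oddCore G = ⊤ ∧
    Subgroup.centralizer ({v} : Set G) = Subgroup.zpowers v) : commutator G ≠ ⊤ := by
  intro hperf
  obtain ⟨h2, htop, -⟩ := H
  haveI hO : (oddCore G).Normal := Cfsg.Agent.H03.pPrimeCore_normal'
  have h1 := aux_a_imp' v htop
  rw [hperf] at h1
  have hv : v ∈ oddCore G := h1 (Subgroup.mem_top v)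
  have hco : (Nat.card (oddCore G)).Coprime 2 := Cfsg.Agent.H06.coprime_card_pPrimeCore 2
  have h3 : orderOf (⟨v, hv⟩ : oddCore G) = 2 := by
    rw [Subgroup.orderOf_mk]; exact h2
  have h4 : 2 ∣ Nat.card (oddCore G) := h3 ▸ orderOf_dvd_natCard _
  have := Nat.Coprime.eq_one_of_dvd hco.symm h4
  omega

section

variable (u : G) (hu : u ≠ 1) (c : ℂ)
  (hyp : ∀ χ : IrrCharacter G, (χ : G → ℂ) ≠ (fun _ => (1 : ℂ)) →
    ((χ : G → ℂ) 1 - (χ : G → ℂ) u = c ∨ (χ : G → ℂ) u = 0))

include hu hyp

omit hu in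
theorem quad_term [Fintype G] (χ : IrrCharacter G) (hχ : χ.1 ≠ fun _ => (1 : ℂ)) :
    χ.1 u = 0 ∨ χ.1 u = (charDegree χ.1 : ℂ) - c := by
  rcases hyp χ hχ with h | h
  · right
    rw [← h, one_eq_charDegree (isCharacter_of_irr χ.2)]
    ring
  · exact Or.inl h

/-- The sum formula. -/
theorem quad_sum [Fintype G] [Fintype (IrrCharacter G)] :
    1 + ∑ χ ∈ Finset.univ.erase (oneIrr G), (charDegree χ.1 : ℂ) * χ.1 u = 0 := by
  have h := sum_degree_mul_value_ne (G := G) hu
  rw [← Finset.add_sum_erase _ _ (Finset.mem_univ (oneIrr G))] at h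
  have h1 : (charDegree (oneIrr G).1 : ℂ) * (oneIrr G).1 u = 1 := by
    have : (charDegree (oneIrr G).1) = 1 := by
      have h2 := one_eq_charDegree (isCharacter_of_irr (oneIrr G).2)
      have h3 : (oneIrr G).1 1 = 1 := rfl
      rw [h3] at h2
      exact_mod_cast h2.symm
    rw [this]; simp [oneIrr]
  rw [h1] at h
  exact h

omit hu hyp in
theorem oneIrr_ne_iff (χ : IrrCharacter G) : χ ≠ oneIrr G ↔ χ.1 ≠ fun _ => (1 : ℂ) := by
  constructor
  · intro h h2; exact h (Subtype.ext h2)
  · intro h h2; exact h (congrArg Subtype.val h2)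

omit hu hyp in
theorem linear_perfect_eq_one (hperf : commutator G = ⊤) (χ : IrrCharacter G) (hd : charDegree χ.1 = 1) :
    χ = oneIrr G := by
  haveI : Fintype G := Fintype.ofFinite G
  apply Subtype.ext
  funext g
  exact quad_linear_commutator (isCharacter_of_irr χ.2) hd (by rw [hperf]; trivial)

/-- `(c)` implies `(b)`. -/
theorem aux_c_imp (h2 : c = 2) : commutator G ≠ ⊤ := by
  intro hperf
  haveI : Fintype G := Fintype.ofFinite G
  haveI : Fintype (IrrCharacter G) := Fintype.ofFinite _
  have hs := quad_sum u hu c hyp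
  have hre := congrArg Complex.re hs
  simp only [Complex.add_re, Complex.one_re, Complex.zero_re, Complex.re_sum] at hre
  have hnn : 0 ≤ ∑ χ ∈ Finset.univ.erase (oneIrr G), ((charDegree χ.1 : ℂ) * χ.1 u).re := by
    refine Finset.sum_nonneg fun χ hχ => ?_
    have hne : χ ≠ oneIrr G := (Finset.mem_erase.1 hχ).1
    rcases quad_term u c hyp χ ((oneIrr_ne_iff χ).1 hne) with h | h
    · rw [h]; simp
    · rw [h, h2]
      have hd : 2 ≤ charDegree χ.1 := by
        have h0 := quad_deg_ne_zero χ
        by_contra hlt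
        have h1 : charDegree χ.1 = 1 := by omega
        exact hne (linear_perfect_eq_one hperf χ h1)
      have h3 : ((charDegree χ.1 : ℂ) * ((charDegree χ.1 : ℂ) - 2)).re
          = (charDegree χ.1 : ℝ) * ((charDegree χ.1 : ℝ) - 2) := by
        simp [Complex.mul_re]
      rw [h3]
      have h4 : (2 : ℝ) ≤ charDegree χ.1 := by exact_mod_cast hd
      have h5 : (0 : ℝ) ≤ (charDegree χ.1 : ℝ) := by positivity
      exact mul_nonneg h5 (by linarith)
  linarith

/-- The main direction. -/
theorem aux_main (hne : commutator G ≠ ⊤) : c = 2 ∧ commutator G ≠ ⊤ ∧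
    (orderOf u = 2 ∧ Subgroup.zpowers u ⊔ oddCore G = ⊤ ∧
      Subgroup.centralizer ({u} : Set G) = Subgroup.zpowers u) := by
  classical
  haveI : Fintype G := Fintype.ofFinite G
  haveI : Fintype (IrrCharacter G) := Fintype.ofFinite _
  -- homs
  have hhomne : ∀ ω : G →* ℂˣ, ω ≠ 1 → (homIrr ω).1 ≠ fun _ => (1 : ℂ) := by
    intro ω hω h
    apply hω
    ext g
    have := congrFun h g
    simpa using this
  have hhom : ∀ ω : G →* ℂˣ, ω ≠ 1 → 1 - (ω u : ℂ) = c := by
    intro ω hω
    rcases hyp (homIrr ω) (hhomne ω hω) with h | h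
    · simpa using h
    · exact absurd h (by simp)
  -- a nonprincipal linear character
  have hindex : (commutator G).index ≠ 1 := by
    intro h; exact hne (Subgroup.index_eq_one.1 h)
  have hdegone : charDegree (oneIrr G).1 = 1 := by
    have h2 := one_eq_charDegree (isCharacter_of_irr (oneIrr G).2)
    have h3 : (oneIrr G).1 1 = 1 := rfl
    rw [h3] at h2
    exact_mod_cast h2.symm
  have hexl : ∃ χ : IrrCharacter G, charDegree χ.1 = 1 ∧ χ ≠ oneIrr G := by
    by_contra hcon
    push Not at hcon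
    apply hindex
    rw [← card_linear_eq_index]
    rw [Nat.card_eq_one_iff_unique]
    refine ⟨⟨fun a b => Subtype.ext ?_⟩, ⟨⟨oneIrr G, hdegone⟩⟩⟩
    rw [hcon a.1 a.2, hcon b.1 b.2]
  obtain ⟨lam, hlam1, hlamne⟩ := hexl
  obtain ⟨ω, hω⟩ := Cfsg.Agent.H06.Brauer.exists_hom_of_linear (isCharacter_of_irr lam.2) hlam1
  have hωne : ω ≠ 1 := by
    intro h
    apply hlamne
    apply Subtype.ext
    funext g
    rw [← hω g, h]
    simp [oneIrr]
  have hωi : ω⁻¹ ≠ 1 := by
    intro h
    apply hωne
    rw [← inv_inv ω, h]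
    ext g
    simp
  have h1 := hhom ω hωne
  have h2 := hhom ω⁻¹ hωi
  set z : ℂ := (ω u : ℂ) with hz
  have hz0 : z ≠ 0 := by simp [hz]
  have h3 : ((ω⁻¹ u : ℂˣ) : ℂ) = z⁻¹ := by
    simp [hz]
  rw [h3] at h2
  have hzz : z ^ 2 = 1 := by
    have : z = z⁻¹ := by
      have := h1.trans h2.symm
      linear_combination -this
    calc z ^ 2 = z * z⁻¹ := by rw [pow_two]; nth_rewrite 2 [this]; rfl
      _ = 1 := mul_inv_cancel₀ hz0
  have hzcases : z = 1 ∨ z = -1 := by
    have : (z - 1) * (z + 1) = 0 := by linear_combination hzz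
    rcases mul_eq_zero.1 this with h | h
    · left; linear_combination h
    · right; linear_combination h
  have hs := quad_sum u hu c hyp
  have hre := congrArg Complex.re hs
  simp only [Complex.add_re, Complex.one_re, Complex.zero_re, Complex.re_sum] at hre
  have hzm : z = -1 := by
    rcases hzcases with h | h
    · exfalso
      have hc0 : c = 0 := by rw [← h1, h]; ring
      have hnn : 0 ≤ ∑ χ ∈ Finset.univ.erase (oneIrr G), ((charDegree χ.1 : ℂ) * χ.1 u).re := by
        refine Finset.sum_nonneg fun χ hχ => ?_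
        have hne : χ ≠ oneIrr G := (Finset.mem_erase.1 hχ).1
        rcases quad_term u c hyp χ ((oneIrr_ne_iff χ).1 hne) with h | h
        · rw [h]; simp
        · rw [h, hc0]
          have h3 : ((charDegree χ.1 : ℂ) * ((charDegree χ.1 : ℂ) - 0)).re
              = (charDegree χ.1 : ℝ) * (charDegree χ.1 : ℝ) := by
            simp [Complex.mul_re]
          rw [h3]
          positivity
      linarith
    · exact h
  have hc2 : c = 2 := by rw [← h1, hzm]; ring
  -- all nontrivial homs take value `-1`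
  have hall : ∀ ω' : G →* ℂˣ, ω' ≠ 1 → (ω' u : ℂ) = -1 := by
    intro ω' h'
    have := hhom ω' h'
    rw [hc2] at this
    linear_combination -this
  have huniq : ∀ ω' : G →* ℂˣ, ω' ≠ 1 → ω' = ω := by
    intro ω' h'
    by_contra hcon
    have hq : ω' * ω⁻¹ ≠ 1 := by
      intro h
      exact hcon (mul_inv_eq_one.1 h)
    have h5 := hall _ hq
    have h6 : (((ω' * ω⁻¹) u : ℂˣ) : ℂ) = (ω' u : ℂ) * (z)⁻¹ := by
      simp [hz]
    rw [h6, hall ω' h', hzm] at h5
    norm_num at h5
  -- linear characters are `1` and `lam`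
  have hlin : ∀ χ : IrrCharacter G, charDegree χ.1 = 1 → χ = oneIrr G ∨ χ = lam := by
    intro χ hχ
    by_cases h : χ = oneIrr G
    · exact Or.inl h
    · right
      obtain ⟨ω', hω'⟩ := Cfsg.Agent.H06.Brauer.exists_hom_of_linear (isCharacter_of_irr χ.2) hχ
      have hne' : ω' ≠ 1 := by
        intro h3
        apply h
        apply Subtype.ext
        funext g
        rw [← hω' g, h3]
        simp [oneIrr]
      have := huniq ω' hne'
      apply Subtype.ext
      funext g
      rw [← hω' g, ← hω g, this]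
  have hlamu : lam.1 u = -1 := by rw [← hω u]; exact hzm
  -- the rest of the sum
  rw [← Finset.add_sum_erase _ _ (Finset.mem_erase.2 ⟨hlamne, Finset.mem_univ lam⟩)] at hre
  have hlamterm : ((charDegree lam.1 : ℂ) * lam.1 u).re = -1 := by
    rw [hlam1, hlamu]; simp
  rw [hlamterm] at hre
  have hrest : ∀ χ ∈ (Finset.univ.erase (oneIrr G)).erase lam,
      0 ≤ ((charDegree χ.1 : ℂ) * χ.1 u).re ∧ (((charDegree χ.1 : ℂ) * χ.1 u).re = 0 → χ.1 u = 0) := by
    intro χ hχ
    have hne1 : χ ≠ lam := (Finset.mem_erase.1 hχ).1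
    have hne2 : χ ≠ oneIrr G := (Finset.mem_erase.1 (Finset.mem_erase.1 hχ).2).1
    have hd : 2 ≤ charDegree χ.1 := by
      have h0 := quad_deg_ne_zero χ
      by_contra hlt
      have h1 : charDegree χ.1 = 1 := by omega
      rcases hlin χ h1 with h | h
      · exact hne2 h
      · exact hne1 h
    rcases quad_term u c hyp χ ((oneIrr_ne_iff χ).1 hne2) with h | h
    · rw [h]; simp
    · rw [h, hc2]
      have h3 : ((charDegree χ.1 : ℂ) * ((charDegree χ.1 : ℂ) - 2)).re
          = (charDegree χ.1 : ℝ) * ((charDegree χ.1 : ℝ) - 2) := by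
        simp [Complex.mul_re]
      rw [h3]
      have h4 : (2 : ℝ) ≤ charDegree χ.1 := by exact_mod_cast hd
      have h5 : (0 : ℝ) < (charDegree χ.1 : ℝ) := by linarith
      refine ⟨mul_nonneg h5.le (by linarith), fun h6 => ?_⟩
      have h7 : (charDegree χ.1 : ℝ) = 2 := by
        rcases mul_eq_zero.1 h6 with h8 | h8
        · linarith
        · linarith
      have h8 : (charDegree χ.1 : ℂ) = 2 := by exact_mod_cast h7
      rw [h8]; ring
  have hsumz : ∑ χ ∈ (Finset.univ.erase (oneIrr G)).erase lam, ((charDegree χ.1 : ℂ) * χ.1 u).re = 0 := by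
    linarith
  have hzero : ∀ χ : IrrCharacter G, χ ≠ oneIrr G → χ ≠ lam → χ.1 u = 0 := by
    intro χ h1' h2'
    have hmem : χ ∈ (Finset.univ.erase (oneIrr G)).erase lam :=
      Finset.mem_erase.2 ⟨h2', Finset.mem_erase.2 ⟨h1', Finset.mem_univ _⟩⟩
    have := (Finset.sum_eq_zero_iff_of_nonneg (fun x hx => (hrest x hx).1)).1 hsumz χ hmem
    exact (hrest χ hmem).2 this
  -- the centralizer
  have hcol := column_orthogonality_of_isConj (IsConj.refl u)
  rw [Finset.sum_eq_add (oneIrr G) lam (Ne.symm hlamne) ?_ (by simp) (by simp)] at hcol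
  swap
  · intro χ _ hχ
    rw [hzero χ hχ.1 hχ.2]; simp
  have hcard2 : Nat.card (Subgroup.centralizer ({u} : Set G)) = 2 := by
    have h5 : ((oneIrr G).1 u * conj ((oneIrr G).1 u) + lam.1 u * conj (lam.1 u)) = 2 := by
      rw [hlamu]; simp [oneIrr]; norm_num
    rw [h5] at hcol
    exact_mod_cast hcol.symm
  have hle : Subgroup.zpowers u ≤ Subgroup.centralizer ({u} : Set G) := by
    rw [Subgroup.zpowers_le, Subgroup.mem_centralizer_iff]
    rintro x hx
    rw [Set.mem_singleton_iff.1 hx]
  have hordpos : 1 < orderOf u := by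
    have h0 := orderOf_pos u
    have h1 : orderOf u ≠ 1 := by
      intro h; exact hu (orderOf_eq_one_iff.1 h)
    omega
  have hord : orderOf u = 2 := by
    have h3 : orderOf u ∣ 2 := by
      rw [← hcard2, ← Nat.card_zpowers]
      exact Subgroup.card_dvd_of_le hle
    have := Nat.le_of_dvd (by norm_num) h3
    omega
  have hcent : Subgroup.centralizer ({u} : Set G) = Subgroup.zpowers u := by
    symm
    apply Subgroup.eq_of_le_of_card_ge hle
    rw [hcard2, Nat.card_zpowers, hord]
  -- index of the commutator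
  have hidx : (commutator G).index = 2 := by
    rw [← card_linear_eq_index, Nat.card_eq_two_iff]
    refine ⟨⟨oneIrr G, hdegone⟩, ⟨lam, hlam1⟩, ?_, ?_⟩
    · intro h
      exact hlamne (congrArg Subtype.val h).symm
    · ext ⟨χ, hχ⟩
      simp only [Set.mem_insert_iff, Set.mem_singleton_iff, Set.mem_univ, iff_true, Subtype.mk.injEq]
      exact hlin χ hχ
  -- the Sylow subgroup
  have hpg : IsPGroup 2 (Subgroup.zpowers u) := by
    apply IsPGroup.of_card (n := 1)
    rw [Nat.card_zpowers, hord]; norm_num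
  haveI : Fact (Nat.Prime 2) := ⟨Nat.prime_two⟩
  obtain ⟨P, hP⟩ := hpg.exists_le_sylow
  have huP : u ∈ (P : Subgroup G) := hP (Subgroup.mem_zpowers u)
  haveI : Nontrivial (P : Subgroup G) := by
    refine ⟨⟨⟨u, huP⟩, 1, ?_⟩⟩
    intro h
    exact hu (congrArg Subtype.val h)
  haveI := P.isPGroup'.center_nontrivial
  obtain ⟨⟨w, hw⟩, hw1⟩ := exists_ne (1 : Subgroup.center (P : Subgroup G))
  have hw1' : (w : G) ≠ 1 := by
    intro h
    apply hw1
    apply Subtype.ext
    apply Subtype.ext
    exact h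
  have hwu : (w : G) ∈ Subgroup.zpowers u := by
    rw [← hcent, Subgroup.mem_centralizer_iff]
    rintro x hx
    rw [Set.mem_singleton_iff.1 hx]
    have := Subgroup.mem_center_iff.1 hw ⟨u, huP⟩
    exact congrArg Subtype.val this
  have hzpow : ∀ y ∈ Subgroup.zpowers u, y = 1 ∨ y = u := by
    intro y hy
    have hy' : y ∈ (Subgroup.zpowers u : Set G) := hy
    obtain ⟨k, rfl⟩ := Subgroup.mem_zpowers_iff.1 hy
    rcases Int.even_or_odd k with he | ho
    · left
      obtain ⟨m, rfl⟩ := he
      rw [← two_mul, zpow_mul]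
      have : u ^ (2 : ℤ) = 1 := by
        rw [zpow_two, ← pow_two, ← hord, pow_orderOf_eq_one]
      rw [this, one_zpow]
    · right
      obtain ⟨m, rfl⟩ := ho
      rw [zpow_add, zpow_mul]
      have : u ^ (2 : ℤ) = 1 := by
        rw [zpow_two, ← pow_two, ← hord, pow_orderOf_eq_one]
      rw [this, one_zpow, one_mul, zpow_one]
  have hwequ : (w : G) = u := (hzpow _ hwu).resolve_left hw1'
  have hPle : (P : Subgroup G) ≤ Subgroup.centralizer ({u} : Set G) := by
    intro y hy
    rw [Subgroup.mem_centralizer_iff]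
    rintro x hx
    rw [Set.mem_singleton_iff.1 hx, ← hwequ]
    have := Subgroup.mem_center_iff.1 hw ⟨y, hy⟩
    exact (congrArg Subtype.val this).symm
  have hPcard : Nat.card (P : Subgroup G) ∣ 2 := by
    have h6 := Subgroup.card_dvd_of_le hPle
    rw [hcard2] at h6
    exact h6
  -- the commutator has odd order
  have hmul : Nat.card (commutator G) * 2 = Nat.card G := by
    have := Subgroup.card_mul_index (commutator G)
    rwa [hidx] at this
  have hodd : (Nat.card (commutator G)).Coprime 2 := by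
    rw [Nat.coprime_comm, Nat.Prime.coprime_iff_not_dvd Nat.prime_two]
    intro hd
    have h4 : 2 ^ 2 ∣ Nat.card G := by
      rw [← hmul, pow_two]
      exact Nat.mul_dvd_mul_right hd 2
    have h5 := P.pow_dvd_card_of_pow_dvd_card h4
    have := Nat.le_of_dvd (by norm_num) (h5.trans hPcard)
    omega
  have hleO : commutator G ≤ oddCore G := le_sSup ⟨inferInstance, hodd⟩
  have hunot : u ∉ commutator G := by
    intro h
    have := quad_linear_commutator (isCharacter_of_irr lam.2) hlam1 h
    rw [hlamu] at this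
    norm_num at this
  refine ⟨hc2, hne, hord, ?_, hcent⟩
  rw [eq_top_iff]
  intro g _
  by_cases hg : g ∈ commutator G
  · exact Subgroup.mem_sup_right (hleO hg)
  · have h6 : g * u ∈ commutator G := by
      rw [Subgroup.mul_mem_iff_of_index_two hidx]
      exact ⟨fun h => absurd h hg, fun h => absurd h hunot⟩
    have h7 : g = (g * u) * u⁻¹ := by group
    rw [h7]
    exact Subgroup.mul_mem _ (Subgroup.mem_sup_right (hleO h6))
      (Subgroup.mem_sup_left (Subgroup.inv_mem _ (Subgroup.mem_zpowers u)))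

end

end Cfsg.Agent.H22
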