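import Cfsg.Agent.Lib.H22.ValRed
import Cfsg.Agent.Lib.H21.CharCore

/-! # The norm of a small character on a subgroup containing the normalizer of a TI Sylow subgroup -/

set_option autoImplicit false
set_option linter.unusedSectionVars false
set_option linter.style.haveILetI false
set_option linter.unusedSimpArgs false
set_option linter.unusedVariables false

namespace Cfsg.Agent.H22

open Cfsg Module
open scoped ComplexConjugate Pointwise

universe u

section

variable {G : Type u} [Group G] {n : ℕ}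

/-- Conjugation on matrices. -/
noncomputable def matConj (R : G →* Matrix (Fin n) (Fin n) ℂ) :
    G →* Module.End ℂ (Matrix (Fin n) (Fin n) ℂ) where
  toFun g :=
    { toFun := fun T => R g * T * R g⁻¹
      map_add' := fun A B => by simp [mul_add, add_mul]
      map_smul' := fun c A => by simp [Matrix.mul_smul, Matrix.smul_mul] }
  map_one' := by
    ext T i j
    simp
  map_mul' := fun a b => by
    ext T i j
    simp [Matrix.mul_assoc, mul_inv_rev]

theorem matConj_apply (R : G →* Matrix (Fin n) (Fin n) ℂ) (g : G) (T : Matrix (Fin n) (Fin n) ℂ) :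
    matConj R g T = R g * T * R g⁻¹ := rfl

theorem matConj_trace (R : G →* Matrix (Fin n) (Fin n) ℂ) (g : G) (T : Matrix (Fin n) (Fin n) ℂ) :
    (matConj R g T).trace = T.trace := by
  rw [matConj_apply, Matrix.trace_mul_cycle, ← map_mul, inv_mul_cancel, map_one, one_mul]

/-- Averaging along a homomorphism. -/
noncomputable def avgE {K : Type*} [Group K] [Fintype K] (f : K →* G)
    (R : G →* Matrix (Fin n) (Fin n) ℂ) (T : Matrix (Fin n) (Fin n) ℂ) :
    Matrix (Fin n) (Fin n) ℂ :=
  (Nat.card K : ℂ)⁻¹ • ∑ k, matConj R (f k) T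

theorem avgE_fixed {K : Type*} [Group K] [Fintype K] (f : K →* G)
    (R : G →* Matrix (Fin n) (Fin n) ℂ) (T : Matrix (Fin n) (Fin n) ℂ) (k : K) :
    matConj R (f k) (avgE f R T) = avgE f R T := by
  unfold avgE
  rw [map_smul, map_sum]
  congr 1
  refine Fintype.sum_equiv (Equiv.mulLeft k) _ _ fun h => ?_
  simp only [Equiv.coe_mulLeft, map_mul, Module.End.mul_apply]

theorem avgE_trace {K : Type*} [Group K] [Fintype K] (f : K →* G)
    (R : G →* Matrix (Fin n) (Fin n) ℂ) (T : Matrix (Fin n) (Fin n) ℂ) :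
    (avgE f R T).trace = T.trace := by
  unfold avgE
  rw [Matrix.trace_smul, Matrix.trace_sum]
  simp only [matConj_trace, Finset.sum_const, Finset.card_univ, ← Nat.card_eq_fintype_card, nsmul_eq_mul,
    smul_eq_mul]
  have : (Nat.card K : ℂ) ≠ 0 := by exact_mod_cast Nat.card_pos.ne'
  field_simp

/-- The `G`-average absorbs. -/
theorem avgE_id_comp {K : Type*} [Group K] [Fintype K] [Fintype G] (f : K →* G)
    (R : G →* Matrix (Fin n) (Fin n) ℂ) (T : Matrix (Fin n) (Fin n) ℂ) :
    avgE (MonoidHom.id G) R (avgE f R T) = avgE (MonoidHom.id G) R T := by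
  have h1 : ∀ k : K, avgE (MonoidHom.id G) R (matConj R (f k) T) = avgE (MonoidHom.id G) R T := by
    intro k
    unfold avgE
    congr 1
    refine Fintype.sum_equiv (Equiv.mulRight (f k)) _ _ fun g => ?_
    simp only [MonoidHom.id_apply, Equiv.coe_mulRight, map_mul, Module.End.mul_apply]
  have h2 : avgE (MonoidHom.id G) R (avgE f R T) =
      (Nat.card K : ℂ)⁻¹ • ∑ k, avgE (MonoidHom.id G) R (matConj R (f k) T) := by
    unfold avgE
    simp only [map_smul, map_sum, Finset.smul_sum, smul_comm (_ : ℂ) (_ : ℂ)]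
    rw [Finset.sum_comm]
  rw [h2]
  simp only [h1, Finset.sum_const, Finset.card_univ, ← Nat.card_eq_fintype_card]
  rw [← Nat.cast_smul_eq_nsmul ℂ, smul_smul]
  have : (Nat.card K : ℂ) ≠ 0 := by exact_mod_cast Nat.card_pos.ne'
  rw [inv_mul_cancel₀ this, one_smul]

/-- The inner product in terms of the average on the matrix units. -/
theorem sum_avgE_single {K : Type*} [Group K] [Fintype K] (f : K →* G)
    (R : G →* Matrix (Fin n) (Fin n) ℂ) :
    ∑ i, ∑ j, (avgE f R (Matrix.single i j 1)) i j =
      (Nat.card K : ℂ)⁻¹ * ∑ k, (R (f k)).trace * (R (f k)⁻¹).trace := by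
  unfold avgE
  simp only [Matrix.smul_apply, Matrix.sum_apply, smul_eq_mul]
  simp only [← Finset.mul_sum]
  congr 1
  rw [Finset.sum_comm]
  simp only [Finset.sum_comm (s := (Finset.univ : Finset (Fin n))) (t := (Finset.univ : Finset K))]
  refine Finset.sum_congr rfl fun k _ => ?_
  simp only [matConj_apply, Matrix.trace, Matrix.diag, Finset.sum_mul_sum]
  rw [Finset.sum_comm]
  refine Finset.sum_congr rfl fun i _ => Finset.sum_congr rfl fun j _ => ?_
  simp [Matrix.mul_apply, Matrix.single_apply, Finset.sum_ite_eq, ite_and]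

end

section Main

variable {G : Type u} [Group G] [Fintype G] {p : ℕ} [hp : Fact p.Prime] {n : ℕ}

theorem ti_avg_eq (P : Sylow p G)
    (hTI : ∀ g : G, g ∉ Subgroup.normalizer ((P : Subgroup G) : Set G) →
      ∀ x ∈ (P : Subgroup G), g⁻¹ * x * g ∈ (P : Subgroup G) → x = 1)
    (R : G →* Matrix (Fin n) (Fin n) ℂ) (hdim : n ^ 2 ≤ Nat.card (P : Subgroup G))
    (H : Subgroup G) [Fintype H] (hH : Subgroup.normalizer ((P : Subgroup G) : Set G) ≤ H)
    (T : Matrix (Fin n) (Fin n) ℂ) :
    avgE H.subtype R T = avgE (MonoidHom.id G) R T := by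
  classical
  set u := avgE H.subtype R T with hu
  set a := avgE (MonoidHom.id G) R u with ha
  have hka : a = avgE (MonoidHom.id G) R T := avgE_id_comp _ _ _
  have hv0 : u - a = 0 := by
    let S : Submodule ℂ (Matrix (Fin n) (Fin n) ℂ) := LinearMap.ker (Matrix.traceLinearMap (Fin n) ℂ ℂ)
    have hSmem : ∀ w, w ∈ S ↔ w.trace = 0 := fun w => by
      simp [S]
    refine ti_fixed_eq_zero P hTI (matConj R) S ?_ ?_ ?_ ?_ ?_
    · intro g w hw
      rw [hSmem] at hw ⊢
      rw [matConj_trace, hw]
    · rcases Nat.eq_zero_or_pos n with rfl | hn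
      · have h1 : finrank ℂ S = 0 := by
          have h2 : finrank ℂ S ≤ finrank ℂ (Matrix (Fin 0) (Fin 0) ℂ) := Submodule.finrank_le _
          rw [Module.finrank_matrix] at h2
          simpa using h2
        rw [h1]
        exact Nat.card_pos
      · have h1 := LinearMap.finrank_range_add_finrank_ker (Matrix.traceLinearMap (Fin n) ℂ ℂ)
        have h2 : LinearMap.range (Matrix.traceLinearMap (Fin n) ℂ ℂ) = ⊤ := by
          rw [LinearMap.range_eq_top]
          intro c
          refine ⟨Matrix.single ⟨0, hn⟩ ⟨0, hn⟩ c, ?_⟩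
          simp
        rw [h2, finrank_top, Module.finrank_matrix] at h1
        simp only [Module.finrank_self, Fintype.card_fin, mul_one] at h1
        have h3 : finrank ℂ S + 1 = n * n := by
          have h4 : finrank ℂ S = finrank ℂ (LinearMap.ker (Matrix.traceLinearMap (Fin n) ℂ ℂ)) := rfl
          omega
        have h5 : n ^ 2 = n * n := by ring
        omega
    · have h1 : a.trace = u.trace := avgE_trace _ _ _
      rw [hSmem, Matrix.trace_sub, h1, sub_self]
    · intro g hg
      rw [map_sub, sub_left_inj.mpr rfl]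
      have h1 : matConj R g u = u := avgE_fixed H.subtype R T ⟨g, hH hg⟩
      have h2 : matConj R g a = a := avgE_fixed (MonoidHom.id G) R u g
      rw [h1, h2]
    · simp only [map_sub]
      rw [Finset.sum_sub_distrib]
      have h1 : ∀ g, matConj R g a = a := fun g => avgE_fixed (MonoidHom.id G) R u g
      simp only [h1, Finset.sum_const, Finset.card_univ, ← Nat.card_eq_fintype_card]
      rw [← Nat.cast_smul_eq_nsmul ℂ, sub_eq_zero, ha]
      unfold avgE
      rw [smul_smul]
      have : (Nat.card G : ℂ) ≠ 0 := by exact_mod_cast Nat.card_pos.ne'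
      rw [mul_inv_cancel₀ this, one_smul]
      rfl
  rw [← hka]
  exact sub_eq_zero.mp hv0

/-- **Theorem.** `P` a TI Sylow subgroup, `χ` a character with `χ(1)² ≤ |P|`, `H ≥ N_G(P)`: the
norm of `χ` on `H` is that on `G`. -/
theorem classInner_ti_restrict (P : Sylow p G)
    (hTI : ∀ g : G, g ∉ Subgroup.normalizer ((P : Subgroup G) : Set G) →
      (P : Subgroup G) ⊓ (MulAut.conj g • (P : Subgroup G)) = ⊥)
    (χ : G → ℂ) (hχ : IsCharacter G χ) (hdeg : charDegree χ ^ 2 ≤ Nat.card ↥(P : Subgroup G))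
    (H : Subgroup G) [Fintype ↥H]
    (hH : Subgroup.normalizer ((P : Subgroup G) : Set G) ≤ H) :
    classInner χ χ = classInner (fun h : ↥H => χ h) (fun h : ↥H => χ h) := by
  classical
  have hTI' : ∀ g : G, g ∉ Subgroup.normalizer ((P : Subgroup G) : Set G) →
      ∀ x ∈ (P : Subgroup G), g⁻¹ * x * g ∈ (P : Subgroup G) → x = 1 := by
    intro g hg x hx hgx
    have h1 : x ∈ (P : Subgroup G) ⊓ (MulAut.conj g • (P : Subgroup G)) := by
      refine ⟨hx, (Subgroup.mem_smul_pointwise_iff_exists _ _ _).mpr ⟨_, hgx, ?_⟩⟩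
      simp [MulAut.smul_def, mul_assoc]
    rw [hTI g hg] at h1
    simpa using h1
  have hχ' := hχ
  obtain ⟨n, ρ, rfl⟩ := hχ
  set R : G →* Matrix (Fin n) (Fin n) ℂ :=
    ((LinearMap.toMatrixAlgEquiv' : ((Fin n → ℂ) →ₗ[ℂ] (Fin n → ℂ)) ≃ₐ[ℂ] _).toAlgHom.toMonoidHom).comp ρ with hR
  have htr : ∀ g, (R g).trace = ρ.character g := by
    intro g
    show _ = LinearMap.trace ℂ (Fin n → ℂ) (ρ g)
    rw [LinearMap.trace_eq_matrix_trace ℂ (Pi.basisFun ℂ (Fin n)), LinearMap.toMatrix_eq_toMatrix']
    rfl
  have hn : charDegree ρ.character = n := by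
    have h1 := Cfsg.Agent.H21.one_eq_charDegree hχ'
    have h2 : ρ.character 1 = (n : ℂ) := by
      rw [← htr, map_one, Matrix.trace_one]
      simp
    rw [h2] at h1
    exact_mod_cast h1.symm
  rw [hn] at hdeg
  have hG : classInner ρ.character ρ.character =
      ∑ i, ∑ j, (avgE (MonoidHom.id G) R (Matrix.single i j 1)) i j := by
    rw [sum_avgE_single]
    unfold classInner
    congr 1
    refine Finset.sum_congr rfl fun g _ => ?_
    rw [htr, htr, ← Cfsg.Agent.H21.isCharacter_inv hχ']
    simp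
  have hHH : classInner (fun h : ↥H => ρ.character h) (fun h : ↥H => ρ.character h) =
      ∑ i, ∑ j, (avgE H.subtype R (Matrix.single i j 1)) i j := by
    rw [sum_avgE_single]
    unfold classInner
    congr 1
    refine Finset.sum_congr rfl fun g _ => ?_
    rw [htr, htr, ← Cfsg.Agent.H21.isCharacter_inv hχ']
    simp
  rw [hG, hHH]
  simp only [ti_avg_eq P hTI' R hdeg H hH]

end Main

end Cfsg.Agent.H22
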