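import Cfsg.Agent.Lib.H22.TINorm
import Cfsg.Agent.Lib.H06.CoprimeCoset
import Mathlib.LinearAlgebra.Trace

/-! # Coprime action with a constant centralizer: small representations -/

set_option autoImplicit false
set_option linter.unusedSectionVars false
set_option linter.style.haveILetI false
set_option linter.unusedSimpArgs false
set_option linter.unusedVariables false

namespace Cfsg.Agent.H22

open Cfsg Module
open scoped ComplexConjugate

universe u

section Ops

variable {G : Type u} [Group G] {n : ℕ} (R : G →* Matrix (Fin n) (Fin n) ℂ)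

theorem trace_matConj (g : G) :
    LinearMap.trace ℂ (Matrix (Fin n) (Fin n) ℂ) (matConj R g) = (R g).trace * (R g⁻¹).trace := by
  classical
  rw [LinearMap.trace_eq_matrix_trace ℂ (Matrix.stdBasis ℂ (Fin n) (Fin n))]
  simp only [Matrix.trace, Matrix.diag, LinearMap.toMatrix_apply, Fintype.sum_prod_type,
    Matrix.stdBasis_eq_single, Finset.sum_mul_sum, matConj_apply]
  refine Finset.sum_congr rfl fun i _ => Finset.sum_congr rfl fun j _ => ?_
  simp [Matrix.stdBasis, Matrix.mul_apply, Matrix.single_apply, Finset.sum_ite_eq, ite_and]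

variable {K : Type*} [Group K] [Fintype K] (f : K →* G)

/-- Averaging as an operator. -/
noncomputable def avgL : Module.End ℂ (Matrix (Fin n) (Fin n) ℂ) :=
  (Nat.card K : ℂ)⁻¹ • ∑ k, matConj R (f k)

theorem avgL_apply (T : Matrix (Fin n) (Fin n) ℂ) :
    avgL R f T = avgE f R T := by
  simp [avgL, avgE, LinearMap.sum_apply]

theorem card_inv_smul_sum {E : Type*} [AddCommGroup E] [Module ℂ E] (x : E) :
    (Nat.card K : ℂ)⁻¹ • ∑ _k : K, x = x := by
  have hne : (Nat.card K : ℂ) ≠ 0 := by exact_mod_cast Nat.card_pos.ne'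
  rw [Finset.sum_const, Finset.card_univ, ← Nat.card_eq_fintype_card, ← Nat.cast_smul_eq_nsmul ℂ,
    smul_smul, inv_mul_cancel₀ hne, one_smul]

/-- If `B` absorbs every `m_k` on the right it absorbs the average. -/
theorem mul_avgL_of_absorb (B : Module.End ℂ (Matrix (Fin n) (Fin n) ℂ))
    (h : ∀ k, B * matConj R (f k) = B) : B * avgL R f = B := by
  unfold avgL
  rw [mul_smul_comm, Finset.mul_sum]
  simp only [h]
  exact card_inv_smul_sum (K := K) B

theorem avgL_mul_of_absorb (B : Module.End ℂ (Matrix (Fin n) (Fin n) ℂ))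
    (h : ∀ k, matConj R (f k) * B = B) : avgL R f * B = B := by
  unfold avgL
  rw [smul_mul_assoc, Finset.sum_mul]
  simp only [h]
  exact card_inv_smul_sum (K := K) B

theorem mul_avgL_comm (B : Module.End ℂ (Matrix (Fin n) (Fin n) ℂ))
    (h : ∀ k, B * matConj R (f k) = matConj R (f k) * B) : B * avgL R f = avgL R f * B := by
  unfold avgL
  rw [mul_smul_comm, smul_mul_assoc, Finset.mul_sum, Finset.sum_mul]
  simp only [h]

theorem matConj_mul_avgL (k : K) : matConj R (f k) * avgL R f = avgL R f := by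
  unfold avgL
  rw [mul_smul_comm, Finset.mul_sum]
  congr 1
  refine Fintype.sum_equiv (Equiv.mulLeft k) _ _ fun h => ?_
  simp only [Equiv.coe_mulLeft, map_mul]

theorem avgL_mul_matConj (k : K) : avgL R f * matConj R (f k) = avgL R f := by
  unfold avgL
  rw [smul_mul_assoc, Finset.sum_mul]
  congr 1
  refine Fintype.sum_equiv (Equiv.mulRight k) _ _ fun h => ?_
  simp only [Equiv.coe_mulRight, map_mul]

theorem avgL_idem : avgL R f * avgL R f = avgL R f :=
  mul_avgL_of_absorb R f _ (fun k => avgL_mul_matConj R f k)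

theorem avgL_trace : LinearMap.trace ℂ _ (avgL R f) =
    (Nat.card K : ℂ)⁻¹ * ∑ k, (R (f k)).trace * (R (f k)⁻¹).trace := by
  unfold avgL
  rw [map_smul, map_sum, smul_eq_mul]
  simp only [trace_matConj]

theorem avgL_avgL_trace {K' : Type*} [Group K'] [Fintype K'] (f' : K' →* G) :
    LinearMap.trace ℂ _ (avgL R f' * avgL R f) =
      (Nat.card K' : ℂ)⁻¹ * ∑ y, ((Nat.card K : ℂ)⁻¹ *
        ∑ k, (R (f' y * f k)).trace * (R (f' y * f k)⁻¹).trace) := by
  unfold avgL
  rw [smul_mul_assoc, mul_smul_comm, map_smul, map_smul, smul_eq_mul, smul_eq_mul, Finset.sum_mul]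
  rw [map_sum, Finset.mul_sum, Finset.mul_sum, Finset.mul_sum]
  refine Finset.sum_congr rfl fun y _ => ?_
  rw [Finset.mul_sum, map_sum]
  simp only [Finset.mul_sum]
  refine Finset.sum_congr rfl fun k _ => ?_
  rw [← map_mul, trace_matConj]

/-- Idempotent elements have natural trace. -/
theorem trace_idem {E : Type*} [AddCommGroup E] [Module ℂ E] [FiniteDimensional ℂ E]
    (e : Module.End ℂ E) (he : e * e = e) :
    LinearMap.trace ℂ E e = (finrank ℂ (LinearMap.range e) : ℂ) :=
  (LinearMap.IsIdempotentElem.isProj_range e he).trace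

end Ops

section Main

variable {G : Type u} [Group G] [Fintype G]

/-- **Theorem.** `K` a normal subgroup, `P` a subgroup of coprime order such that all nonidentity
elements of `P` have the same centralizer in `K`. A matrix representation of degree `n` with
`n² ≤ |P|`: the images of `K` and `P` commute. -/
theorem coprime_commute_of_small (K P : Subgroup G) [hK : K.Normal]
    (hcop : (Nat.card K).Coprime (Nat.card P))
    (hC : ∀ y ∈ P, y ≠ 1 → ∀ k ∈ K, k * y = y * k → ∀ z ∈ P, k * z = z * k)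
    {n : ℕ} (R : G →* Matrix (Fin n) (Fin n) ℂ) (hdim : n ^ 2 ≤ Nat.card P)
    {y : G} (hy : y ∈ P) {k : G} (hk : k ∈ K) : R k * R y = R y * R k := by
  classical
  haveI : Fintype K := Fintype.ofFinite _
  haveI : Fintype P := Fintype.ofFinite _
  set C : Subgroup G := K ⊓ Subgroup.centralizer (P : Set G) with hCdef
  haveI : Fintype C := Fintype.ofFinite _
  have hCK : ∀ c : C, (c : G) ∈ K := fun c => c.2.1
  have hCP : ∀ (c : C), ∀ z ∈ P, (c : G) * z = z * c := by
    intro c z hz
    exact ((Subgroup.mem_centralizer_iff.mp c.2.2) z hz).symm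
  let F : G → ℂ := fun g => (R g).trace * (R g⁻¹).trace
  have hFclass : ∀ g h, F (h * g * h⁻¹) = F g := by
    intro g h
    have h1 : ∀ a : G, (R (h * a * h⁻¹)).trace = (R a).trace := by
      intro a
      rw [map_mul, map_mul, Matrix.trace_mul_cycle, ← map_mul, inv_mul_cancel, map_one, one_mul]
    simp only [F]
    rw [h1]
    have h2 : (h * g * h⁻¹)⁻¹ = h * g⁻¹ * h⁻¹ := by group
    rw [h2, h1]
  -- the fusion identity
  have hfus : ∀ y₀ ∈ P, y₀ ≠ 1 →
      (Nat.card K : ℂ) * ∑ c : C, F (y₀ * c) = (Nat.card C : ℂ) * ∑ k : K, F (y₀ * k) := by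
    intro y₀ hy₀ hy₀1
    have hyK : ∀ a ∈ K, y₀ * a * y₀⁻¹ ∈ K := fun a ha => hK.conj_mem a ha y₀
    have hyK' : ∀ a ∈ K, y₀⁻¹ * a * y₀ ∈ K := by
      intro a ha
      have := hK.conj_mem a ha y₀⁻¹
      simpa using this
    let z : K → C → K := fun a c => ⟨y₀⁻¹ * a * y₀ * c * (a : G)⁻¹,
      K.mul_mem (K.mul_mem (hyK' a a.2) (hCK c)) (K.inv_mem a.2)⟩
    have hz : ∀ a c, y₀ * (z a c : G) = (a : G) * (y₀ * c) * (a : G)⁻¹ := by
      intro a c
      show y₀ * (y₀⁻¹ * a * y₀ * c * (a : G)⁻¹) = _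
      group
    have hsurj : ∀ k' : K, ∃ a c, z a c = k' := by
      intro k'
      have hord : (orderOf y₀).Coprime (Nat.card K) := by
        have h1 : orderOf y₀ ∣ Nat.card P := by
          have := orderOf_dvd_natCard (⟨y₀, hy₀⟩ : P)
          simpa using this
        exact Nat.Coprime.coprime_dvd_left h1 hcop.symm
      obtain ⟨x, hx, c, hc, hcy, he⟩ := H06.exists_conj_mul_eq (H := K) (g := y₀) hyK hord
        (h := y₀ * k' * y₀⁻¹) (hyK _ k'.2)
      have hcC : c ∈ C := by
        refine ⟨hc, Subgroup.mem_centralizer_iff.mpr fun w hw => ?_⟩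
        exact (hC y₀ hy₀ hy₀1 c hc hcy w hw).symm
      refine ⟨⟨x⁻¹, K.inv_mem hx⟩, ⟨c, hcC⟩, ?_⟩
      apply Subtype.ext
      show y₀⁻¹ * x⁻¹ * y₀ * c * (x⁻¹)⁻¹ = k'
      have h1 : y₀ * c = x * (y₀ * k') * x⁻¹ := by
        rw [← hcy, ← he]
        group
      calc y₀⁻¹ * x⁻¹ * y₀ * c * (x⁻¹)⁻¹ = y₀⁻¹ * x⁻¹ * (y₀ * c) * x := by group
        _ = k' := by rw [h1]; group
    choose s t hst using hsurj
    let ι : C → K := fun l => ⟨l, hCK l⟩
    let Θ : C × K → K × C := fun q => (s q.2 * (ι q.1)⁻¹, q.1 * t q.2 * q.1⁻¹)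
    have hΘ : ∀ q, z (Θ q).1 (Θ q).2 = q.2 := by
      rintro ⟨l, k'⟩
      apply Subtype.ext
      refine Eq.trans ?_ (congrArg Subtype.val (hst k'))
      show y₀⁻¹ * (s k' * (l : G)⁻¹) * y₀ * (l * t k' * (l : G)⁻¹) * (s k' * (l : G)⁻¹)⁻¹ =
        y₀⁻¹ * s k' * y₀ * t k' * (s k' : G)⁻¹
      have h1 : (l : G)⁻¹ * y₀ * l = y₀ := by
        rw [mul_assoc, ← hCP l y₀ hy₀]
        group
      calc y₀⁻¹ * (s k' * (l : G)⁻¹) * y₀ * (l * t k' * (l : G)⁻¹) * (s k' * (l : G)⁻¹)⁻¹
          = y₀⁻¹ * s k' * ((l : G)⁻¹ * y₀ * l) * t k' * (s k' : G)⁻¹ := by group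
        _ = _ := by rw [h1]
    have hinj : Function.Injective Θ := by
      intro q q' hqq
      have h1 : q.2 = q'.2 := by
        rw [← hΘ q, ← hΘ q', hqq]
      have h2 : s q.2 * (ι q.1)⁻¹ = s q'.2 * (ι q'.1)⁻¹ := congrArg Prod.fst hqq
      rw [h1] at h2
      have h3 := mul_left_cancel h2
      have h4 : ι q.1 = ι q'.1 := inv_injective h3
      have h6 : ((ι q.1 : K) : G) = ι q'.1 := by rw [h4]
      have h5 : q.1 = q'.1 := Subtype.ext h6
      exact Prod.ext h5 h1
    have hbij : Function.Bijective Θ := by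
      refine hinj.bijective_of_nat_card_le ?_
      simp only [Nat.card_prod, mul_comm, le_refl]
    have h1 : ∑ p : K × C, F (y₀ * z p.1 p.2) = ∑ q : C × K, F (y₀ * q.2) := by
      rw [← hbij.sum_comp (fun p : K × C => F (y₀ * z p.1 p.2))]
      refine Finset.sum_congr rfl fun q _ => ?_
      rw [hΘ]
    have h2 : ∑ p : K × C, F (y₀ * z p.1 p.2) = (Nat.card K : ℂ) * ∑ c : C, F (y₀ * c) := by
      rw [Fintype.sum_prod_type]
      simp only [hz, hFclass]
      rw [Finset.sum_const, Finset.card_univ, ← Nat.card_eq_fintype_card, nsmul_eq_mul]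
    have h3 : ∑ q : C × K, F (y₀ * q.2) = (Nat.card C : ℂ) * ∑ k : K, F (y₀ * k) := by
      rw [Fintype.sum_prod_type]
      simp only []
      rw [Finset.sum_const, Finset.card_univ, ← Nat.card_eq_fintype_card, nsmul_eq_mul]
    rw [← h2, ← h3, h1]
  -- the operators
  let fK : K →* G := K.subtype
  let fC : C →* G := C.subtype
  let fP : P →* G := P.subtype
  set AK := avgL R fK with hAK
  set AC := avgL R fC with hAC
  set AP := avgL R fP with hAP
  have hAKidem : AK * AK = AK := avgL_idem R fK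
  have hACidem : AC * AC = AC := avgL_idem R fC
  have hAPidem : AP * AP = AP := avgL_idem R fP
  have hACAK : AC * AK = AK := avgL_mul_of_absorb R fC AK (fun c =>
    matConj_mul_avgL R fK ⟨c, hCK c⟩)
  have hAKAC : AK * AC = AK := mul_avgL_of_absorb R fC AK (fun c =>
    avgL_mul_matConj R fK ⟨c, hCK c⟩)
  have hcommK : AK * AP = AP * AK := by
    refine mul_avgL_comm R fP AK fun w => ?_
    -- reindex by conjugation
    have h1 : ∀ a : K, matConj R (w : G) * matConj R (a : G) =
        matConj R (((w : G) * a * (w : G)⁻¹ : G)) * matConj R (w : G) := by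
      intro a
      rw [← map_mul, ← map_mul]
      congr 1
      group
    let e : K ≃ K := (MulAut.conjNormal (w : G) : MulAut K).toEquiv
    have h2 : ∀ a : K, ((e a : K) : G) = (w : G) * a * (w : G)⁻¹ := fun a => by
      simp [e]
    show avgL R fK * matConj R (w : G) = matConj R (w : G) * avgL R fK
    unfold avgL
    rw [smul_mul_assoc, mul_smul_comm, Finset.sum_mul, Finset.mul_sum]
    congr 1
    refine Fintype.sum_equiv e.symm _ _ fun a => ?_
    have h3 := h1 (e.symm a)
    have h4 : (w : G) * ((e.symm a : K) : G) * (w : G)⁻¹ = (a : G) := by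
      rw [← h2, Equiv.apply_symm_apply]
    rw [h4] at h3
    exact h3.symm
  have hcommC : AC * AP = AP * AC := by
    refine mul_avgL_comm R fP AC fun w => ?_
    show avgL R fC * matConj R (w : G) = matConj R (w : G) * avgL R fC
    unfold avgL
    rw [smul_mul_assoc, mul_smul_comm, Finset.sum_mul, Finset.mul_sum]
    congr 1
    refine Finset.sum_congr rfl fun c _ => ?_
    show matConj R (c : G) * matConj R (w : G) = matConj R (w : G) * matConj R (c : G)
    rw [← map_mul, ← map_mul, hCP c w w.2]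
  -- traces
  let tr := LinearMap.trace ℂ (Matrix (Fin n) (Fin n) ℂ)
  let gK : P → ℂ := fun w => (Nat.card K : ℂ)⁻¹ * ∑ a : K, F ((w : G) * a)
  let gC : P → ℂ := fun w => (Nat.card C : ℂ)⁻¹ * ∑ c : C, F ((w : G) * c)
  have hNK : (Nat.card K : ℂ) ≠ 0 := by exact_mod_cast Nat.card_pos.ne'
  have hNC : (Nat.card C : ℂ) ≠ 0 := by exact_mod_cast Nat.card_pos.ne'
  have hNP : (Nat.card P : ℂ) ≠ 0 := by exact_mod_cast Nat.card_pos.ne'
  have hgne : ∀ w : P, w ≠ 1 → gK w = gC w := by
    intro w hw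
    have hw1 : (w : G) ≠ 1 := fun h => hw (Subtype.ext h)
    have h1 := hfus (w : G) w.2 hw1
    simp only [gK, gC]
    field_simp
    linear_combination -h1
  have htrK : tr AK = gK 1 := by
    have h1 := avgL_trace R fK
    simp only [gK, Subgroup.coe_one, one_mul]
    exact h1
  have htrC : tr AC = gC 1 := by
    have h1 := avgL_trace R fC
    simp only [gC, Subgroup.coe_one, one_mul]
    exact h1
  have htrPK : tr (AP * AK) = (Nat.card P : ℂ)⁻¹ * ∑ w : P, gK w := avgL_avgL_trace R fK fP
  have htrPC : tr (AP * AC) = (Nat.card P : ℂ)⁻¹ * ∑ w : P, gC w := avgL_avgL_trace R fC fP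
  have hkey : (Nat.card P : ℂ) * (tr (AP * AK) - tr (AP * AC)) = tr AK - tr AC := by
    rw [htrPK, htrPC, htrK, htrC, ← mul_sub, ← mul_assoc, mul_inv_cancel₀ hNP, one_mul,
      ← Finset.sum_sub_distrib]
    refine Finset.sum_eq_single (1 : P) (fun w _ hw => ?_) (fun h => absurd (Finset.mem_univ _) h)
    rw [hgne w hw, sub_self]
  -- ranks
  have hidPK : (AP * AK) * (AP * AK) = AP * AK := by
    calc (AP * AK) * (AP * AK) = AP * (AK * AP) * AK := by noncomm_ring
      _ = AP * (AP * AK) * AK := by rw [hcommK]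
      _ = (AP * AP) * (AK * AK) := by noncomm_ring
      _ = AP * AK := by rw [hAPidem, hAKidem]
  have hidPC : (AP * AC) * (AP * AC) = AP * AC := by
    calc (AP * AC) * (AP * AC) = AP * (AC * AP) * AC := by noncomm_ring
      _ = AP * (AP * AC) * AC := by rw [hcommC]
      _ = (AP * AP) * (AC * AC) := by noncomm_ring
      _ = AP * AC := by rw [hAPidem, hACidem]
  rw [show tr (AP * AK) = _ from trace_idem _ hidPK, show tr (AP * AC) = _ from trace_idem _ hidPC,
    show tr AK = _ from trace_idem _ hAKidem, show tr AC = _ from trace_idem _ hACidem] at hkey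
  set a := finrank ℂ (LinearMap.range AC) with ha
  set b := finrank ℂ (LinearMap.range AK) with hb
  set c₁ := finrank ℂ (LinearMap.range (AP * AC)) with hc₁
  set c₂ := finrank ℂ (LinearMap.range (AP * AK)) with hc₂
  have hkeyZ : (Nat.card P : ℤ) * ((c₂ : ℤ) - c₁) = (b : ℤ) - a := by
    exact_mod_cast hkey
  have hle : LinearMap.range AK ≤ LinearMap.range AC := by
    rintro _ ⟨w, rfl⟩
    refine ⟨AK w, ?_⟩
    have := congrArg (fun A : Module.End ℂ (Matrix (Fin n) (Fin n) ℂ) => A w) hACAK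
    exact this
  have hba : b ≤ a := Submodule.finrank_mono hle
  have han : a ≤ n * n := by
    have h1 : a ≤ finrank ℂ (Matrix (Fin n) (Fin n) ℂ) := Submodule.finrank_le _
    rw [Module.finrank_matrix] at h1
    simpa using h1
  have hb1 : 0 < n → 1 ≤ b := by
    intro hn
    haveI : Nonempty (Fin n) := ⟨⟨0, hn⟩⟩
    rw [hb, Submodule.one_le_finrank_iff]
    intro hbot
    have h1 : AK 1 = 1 := by
      show avgL R fK 1 = 1
      unfold avgL
      rw [LinearMap.smul_apply, LinearMap.sum_apply]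
      have h2 : ∀ a : K, matConj R (fK a) 1 = 1 := by
        intro a
        rw [matConj_apply, mul_one, ← map_mul, mul_inv_cancel, map_one]
      simp only [h2]
      exact card_inv_smul_sum (K := K) (1 : Matrix (Fin n) (Fin n) ℂ)
    have h2 : (1 : Matrix (Fin n) (Fin n) ℂ) ∈ LinearMap.range AK := ⟨1, h1⟩
    rw [hbot] at h2
    exact one_ne_zero ((Submodule.mem_bot ℂ).mp h2)
  have hab : a = b := by
    by_contra hne
    have hlt : b < a := lt_of_le_of_ne hba (Ne.symm hne)
    have hn : 0 < n := by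
      rcases Nat.eq_zero_or_pos n with h0 | h0
      · subst h0
        simp at han
        omega
      · exact h0
    have h1 := hb1 hn
    have h2 : (Nat.card P : ℤ) ∣ (a : ℤ) - b := ⟨(c₁ : ℤ) - c₂, by linarith⟩
    have h3 : (Nat.card P : ℤ) ≤ (a : ℤ) - b := Int.le_of_dvd (by omega) h2
    have h4 : n ^ 2 = n * n := by ring
    have h5 : ((Nat.card P : ℕ) : ℤ) ≥ ((n * n : ℕ) : ℤ) := by
      exact_mod_cast (h4 ▸ hdim)
    omega
  have hrange : LinearMap.range AK = LinearMap.range AC :=
    Submodule.eq_of_le_of_finrank_eq hle hab.symm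
  -- the conclusion
  have hy1 : AC (R y) = R y := by
    show avgL R fC (R y) = R y
    unfold avgL
    rw [LinearMap.smul_apply, LinearMap.sum_apply]
    have h2 : ∀ c : C, matConj R (fC c) (R y) = R y := by
      intro c
      show R (c : G) * R y * R (c : G)⁻¹ = R y
      rw [← map_mul, ← map_mul, hCP c y hy, mul_inv_cancel_right]
    simp only [h2]
    exact card_inv_smul_sum (K := C) (R y)
  have hy2 : R y ∈ LinearMap.range AK := by
    rw [hrange]
    exact ⟨_, hy1⟩
  obtain ⟨w, hw⟩ := hy2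
  have h3 := congrArg (fun A : Module.End ℂ (Matrix (Fin n) (Fin n) ℂ) => A w)
    (matConj_mul_avgL R fK ⟨k, hk⟩)
  simp only [Module.End.mul_apply] at h3
  have h4 : matConj R k (R y) = R y := by
    have h5 : avgL R fK w = R y := hw
    rw [h5] at h3
    exact h3
  rw [matConj_apply] at h4
  have h6 : R k⁻¹ * R k = 1 := by rw [← map_mul, inv_mul_cancel, map_one]
  calc R k * R y = R k * R y * (R k⁻¹ * R k) := by
        rw [h6, mul_one]
    _ = (R k * R y * R k⁻¹) * R k := by noncomm_ring
    _ = R y * R k := by rw [h4]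

end Main

end Cfsg.Agent.H22
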