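import Mathlib.RingTheory.Valuation.LocalSubring
import Mathlib.RingTheory.LocalRing.ResidueField.Basic
import Mathlib.GroupTheory.Sylow
import Mathlib.GroupTheory.PGroup
import Mathlib.GroupTheory.FiniteAbelian.Basic
import Mathlib.LinearAlgebra.FiniteDimensional.Basic
import Mathlib.LinearAlgebra.Dimension.Finite
import Mathlib.RingTheory.Jacobson.Ideal
import Mathlib.RingTheory.Nakayama
import Mathlib.Data.Complex.Basic
import Mathlib.RepresentationTheory.Basic

/-! # Reduction at a valuation subring of `ℂ`: trace from a `p`-group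

A `p`-group `P` acting on a finite dimensional complex space of dimension less than `|P|`:
the trace `Σ_{x ∈ P} x y` of a vector of a `P`-stable lattice `L` over a valuation subring with
`p` in its maximal ideal lies in `𝔪 L`.
-/

set_option autoImplicit false
set_option linter.unusedSectionVars false
set_option linter.style.haveILetI false
set_option linter.unusedSimpArgs false
set_option linter.unusedVariables false

namespace Cfsg.Agent.H22

open Module

universe u v w

section Fixed

variable {P : Type u} [Group P] [Finite P] {p : ℕ} [hp : Fact p.Prime]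

/-- A `p`-group acting additively on a nonzero group of exponent `p` has a nonzero fixed point. -/
theorem exists_fixed_ne_zero (hP : IsPGroup p P) {A : Type v} [AddCommGroup A]
    [DistribMulAction P A] (hA : ∀ a : A, p • a = 0) (T : AddSubgroup A)
    (hT : ∀ x : P, ∀ a ∈ T, x • a ∈ T) {w : A} (hw : w ∈ T) (hw0 : w ≠ 0) :
    ∃ f ∈ T, f ≠ 0 ∧ ∀ x : P, x • f = f := by
  classical
  set U : AddSubgroup A := AddSubgroup.closure (Set.range fun x : P => x • w) with hU
  have hUT : U ≤ T := by
    rw [hU, AddSubgroup.closure_le]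
    rintro _ ⟨x, rfl⟩
    exact hT x w hw
  have hfg : AddGroup.FG U := by
    refine (AddGroup.fg_iff_addSubgroup_fg U).mpr ?_
    exact ⟨(Set.finite_range (fun x : P => x • w)).toFinset, by simp [hU]⟩
  have hUfin : Finite U := by
    haveI := hfg
    refine AddCommGroup.finite_of_fg_isAddTorsion U ?_
    intro a
    refine isOfFinAddOrder_iff_nsmul_eq_zero.mpr ⟨p, (Fact.out : p.Prime).pos, ?_⟩
    apply Subtype.ext
    simpa using hA a.1
  have hUst : ∀ x : P, ∀ a ∈ U, x • a ∈ U := by
    intro x a ha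
    induction ha using AddSubgroup.closure_induction with
    | mem a ha =>
      obtain ⟨y, rfl⟩ := ha
      refine AddSubgroup.subset_closure ⟨x * y, ?_⟩
      simp only [mul_smul]
    | zero => simp [U.zero_mem]
    | add a b _ _ ha hb => rw [smul_add]; exact U.add_mem ha hb
    | neg a _ ha => rw [smul_neg]; exact U.neg_mem ha
  letI : MulAction P U :=
    { smul := fun x a => ⟨x • a.1, hUst x a.1 a.2⟩
      one_smul := fun a => Subtype.ext (one_smul P a.1)
      mul_smul := fun x y a => Subtype.ext (mul_smul x y a.1) }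
  have hsmul : ∀ (x : P) (a : U), ((x • a : U) : A) = x • (a : A) := fun _ _ => rfl
  have hwU : w ∈ U := by
    refine AddSubgroup.subset_closure ⟨1, ?_⟩
    simp
  have hcard := hP.card_modEq_card_fixedPoints U
  have hpU : p ∣ Nat.card U := by
    have h1 : addOrderOf (⟨w, hwU⟩ : U) = p := by
      refine addOrderOf_eq_prime ?_ ?_
      · apply Subtype.ext
        simpa using hA w
      · intro h
        exact hw0 (congrArg Subtype.val h)
    rw [← h1]
    exact addOrderOf_dvd_natCard _
  have hpF : p ∣ Nat.card (MulAction.fixedPoints P U) :=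
    (Nat.modEq_zero_iff_dvd.mp (hcard.symm.trans (Nat.modEq_zero_iff_dvd.mpr hpU)))
  have h0F : (0 : U) ∈ MulAction.fixedPoints P U := by
    intro x
    apply Subtype.ext
    rw [hsmul]
    simp
  haveI : Nonempty (MulAction.fixedPoints P U) := ⟨⟨0, h0F⟩⟩
  have h1 : 1 < Nat.card (MulAction.fixedPoints P U) := by
    have h2 := Nat.le_of_dvd Nat.card_pos hpF
    have h3 := (Fact.out : p.Prime).two_le
    omega
  haveI : Nontrivial (MulAction.fixedPoints P U) := Finite.one_lt_card_iff_nontrivial.mp h1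
  obtain ⟨f, hf⟩ := exists_ne (⟨0, h0F⟩ : MulAction.fixedPoints P U)
  refine ⟨f.1.1, hUT f.1.2, ?_, ?_⟩
  · intro h
    apply hf
    apply Subtype.ext
    apply Subtype.ext
    exact h
  · intro x
    have := f.2 x
    exact congrArg Subtype.val this

/-- In the group algebra of a `p`-group over a field of characteristic `p`, every nonzero left
ideal contains the norm element. -/
theorem exists_conv_const [Fintype P] {k : Type v} [Field k] (hpk : (p : k) = 0) (hP : IsPGroup p P)
    (a : P → k) (ha : a ≠ 0) : ∃ b : P → k, ∀ z, ∑ x, b x * a (x⁻¹ * z) = 1 := by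
  classical
  letI : DistribMulAction P (P → k) :=
    { smul := fun x f z => f (x⁻¹ * z)
      one_smul := fun f => by
        funext z
        show f ((1 : P)⁻¹ * z) = f z
        simp
      mul_smul := fun x y f => by
        funext z
        show f ((x * y)⁻¹ * z) = f (y⁻¹ * (x⁻¹ * z))
        simp [mul_assoc]
      smul_zero := fun x => rfl
      smul_add := fun x f g => rfl }
  have hsm : ∀ (x : P) (f : P → k) (z : P), (x • f) z = f (x⁻¹ * z) := fun _ _ _ => rfl
  let Φ : (P → k) → (P → k) := fun b z => ∑ x, b x * a (x⁻¹ * z)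
  let T : AddSubgroup (P → k) :=
    { carrier := Set.range Φ
      zero_mem' := ⟨0, by funext z; simp [Φ]⟩
      add_mem' := by
        rintro _ _ ⟨b, rfl⟩ ⟨c, rfl⟩
        refine ⟨b + c, ?_⟩
        funext z
        simp [Φ, add_mul, Finset.sum_add_distrib]
      neg_mem' := by
        rintro _ ⟨b, rfl⟩
        refine ⟨-b, ?_⟩
        funext z
        simp [Φ, neg_mul, Finset.sum_neg_distrib] }
  have hT : ∀ x : P, ∀ f ∈ T, x • f ∈ T := by
    rintro x _ ⟨b, rfl⟩
    refine ⟨x • b, ?_⟩
    funext z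
    show ∑ y, (x • b) y * a (y⁻¹ * z) = ∑ y, b y * a (y⁻¹ * (x⁻¹ * z))
    refine Fintype.sum_equiv (Equiv.mulLeft x⁻¹) _ _ fun y => ?_
    simp [hsm, mul_assoc]
  have haT : a ∈ T := by
    refine ⟨fun x => if x = 1 then 1 else 0, ?_⟩
    funext z
    simp [Φ]
  have hpA : ∀ f : P → k, p • f = 0 := by
    intro f
    funext z
    simp [hpk]
  obtain ⟨f, ⟨b₀, rfl⟩, hf0, hfix⟩ := exists_fixed_ne_zero hP hpA T hT haT ha
  have hconst : ∀ z, Φ b₀ z = Φ b₀ 1 := by
    intro z
    have := congrFun (hfix z⁻¹) 1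
    rw [hsm] at this
    simpa using this
  have hc : Φ b₀ 1 ≠ 0 := by
    intro h
    apply hf0
    funext z
    rw [hconst z, h]
    rfl
  refine ⟨fun x => (Φ b₀ 1)⁻¹ * b₀ x, fun z => ?_⟩
  have h1 : ∑ x, (Φ b₀ 1)⁻¹ * b₀ x * a (x⁻¹ * z) = (Φ b₀ 1)⁻¹ * Φ b₀ z := by
    simp only [Φ, Finset.mul_sum, mul_assoc]
  rw [h1, hconst z, inv_mul_cancel₀ hc]

end Fixed

/-- A valuation subring of `ℂ` with `p` in its maximal ideal. -/
theorem exists_valuation_p (p : ℕ) [hp : Fact p.Prime] : ∃ B : ValuationSubring ℂ, (p : ℂ) ∈ B.nonunits := by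
  classical
  let A : Subring ℂ := (Int.castRingHom ℂ).range
  let pA : A := ⟨(p : ℂ), ⟨(p : ℤ), by simp⟩⟩
  let I : Ideal A := Ideal.span {pA}
  have hI : I ≠ ⊤ := by
    intro h
    rw [Ideal.span_singleton_eq_top] at h
    obtain ⟨u, hu⟩ := h.exists_right_inv
    obtain ⟨n, hn⟩ := u.2
    have h1 : (p : ℂ) * (u : ℂ) = 1 := by
      exact_mod_cast congrArg Subtype.val hu
    rw [← hn] at h1
    have h2 : (p : ℤ) * n = 1 := by
      have : (((p : ℤ) * n : ℤ) : ℂ) = ((1 : ℤ) : ℂ) := by
        push_cast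
        simpa using h1
      exact_mod_cast this
    have h3 : (p : ℤ) ∣ 1 := ⟨n, h2.symm⟩
    have h4 := Int.natCast_dvd_natCast.mp (by simpa using h3 : (p : ℤ) ∣ ((1 : ℕ) : ℤ))
    exact (Fact.out : p.Prime).one_lt.ne' (Nat.dvd_one.mp h4)
  obtain ⟨B, -, hB⟩ := Ideal.image_subset_nonunits_valuationSubring I hI
  exact ⟨B, hB ⟨pA, Ideal.subset_span rfl, rfl⟩⟩

section Trace

variable {P : Type u} [Group P] [Fintype P] {p : ℕ} [hp : Fact p.Prime]
variable {W : Type v} [AddCommGroup W] [Module ℂ W]

/-- The trace from a `p`-group to `𝔪 L` in small dimension. -/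
theorem trace_mem_maxIdeal_smul (hP : IsPGroup p P) (B : ValuationSubring ℂ)
    (hpB : (p : ℂ) ∈ B.nonunits) (r : P →* Module.End ℂ W) (S : Submodule ℂ W)
    [FiniteDimensional ℂ S] (hdim : finrank ℂ S < Fintype.card P)
    (L : Submodule B W) (hL : ∀ x : P, ∀ y ∈ L, r x y ∈ L) {y : W} (hy : y ∈ L)
    (hyS : ∀ x : P, r x y ∈ S) :
    ∑ x, r x y ∈ (IsLocalRing.maximalIdeal B) • L := by
  classical
  -- linear dependence
  have hnot : ¬ LinearIndependent ℂ (fun x : P => (⟨r x y, hyS x⟩ : S)) := by
    intro h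
    have := h.fintype_card_le_finrank
    omega
  obtain ⟨g, hg, x₁, hx₁⟩ := Fintype.not_linearIndependent_iff.mp hnot
  have hg' : ∑ x, g x • r x y = 0 := by
    have := congrArg Subtype.val hg
    simpa using this
  -- the normalisation
  obtain ⟨x₀, hx₀⟩ := Finite.exists_max (fun x => B.valuation (g x))
  have hg0 : g x₀ ≠ 0 := by
    intro h
    have h1 := hx₀ x₁
    rw [h, map_zero] at h1
    have h2 : B.valuation (g x₁) = 0 := le_antisymm h1 zero_le
    exact hx₁ ((map_eq_zero _).mp h2)
  have hmem : ∀ x, g x / g x₀ ∈ B := by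
    intro x
    rw [← B.valuation_le_one_iff, map_div₀]
    have h2 : B.valuation (g x₀) ≠ 0 := (map_ne_zero _).mpr hg0
    exact (div_le_one₀ (zero_lt_iff.mpr h2)).mpr (hx₀ x)
  let a : P → B := fun x => ⟨g x / g x₀, hmem x⟩
  have ha0 : a x₀ = 1 := Subtype.ext (div_self hg0)
  have hrel : ∑ x, (a x : ℂ) • r x y = 0 := by
    have h1 : ∑ x, (a x : ℂ) • r x y = (g x₀)⁻¹ • ∑ x, g x • r x y := by
      rw [Finset.smul_sum]
      refine Finset.sum_congr rfl fun x _ => ?_
      rw [smul_smul]
      congr 1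
      show g x / g x₀ = _
      rw [div_eq_inv_mul]
    rw [h1, hg', smul_zero]
  -- the residue field
  let res := IsLocalRing.residue B
  have hpk : ((p : ℕ) : IsLocalRing.ResidueField B) = 0 := by
    obtain ⟨hp1, hp2⟩ := B.mem_nonunits_iff_exists_mem_maximalIdeal.mp hpB
    have h3 : (⟨(p : ℂ), hp1⟩ : B) = ((p : ℕ) : B) := Subtype.ext (by simp)
    rw [h3] at hp2
    have h4 := (IsLocalRing.residue_eq_zero_iff _).mpr hp2
    simpa using h4
  have hane : (fun x => res (a x)) ≠ 0 := by
    intro h
    have h1 := congrFun h x₀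
    simp only [ha0, map_one, Pi.zero_apply] at h1
    exact one_ne_zero h1
  obtain ⟨b, hb⟩ := exists_conv_const hpk hP (fun x => res (a x)) hane
  choose b' hb' using fun x => IsLocalRing.residue_surjective (b x)
  let c : P → B := fun z => ∑ x, b' x * a (x⁻¹ * z)
  have hc : ∀ z, 1 - c z ∈ IsLocalRing.maximalIdeal B := by
    intro z
    rw [← IsLocalRing.residue_eq_zero_iff, map_sub, map_one, sub_eq_zero]
    show _ = res (c z)
    simp only [c, map_sum, map_mul, res]
    simp only [hb']
    exact (hb z).symm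
  -- the key identity
  have hkey : ∑ z, (c z : ℂ) • r z y = 0 := by
    have h1 : ∀ z, (c z : ℂ) • r z y = ∑ x, ((b' x : ℂ) * (a (x⁻¹ * z) : ℂ)) • r z y := by
      intro z
      simp only [c]
      rw [← Finset.sum_smul]
      congr 1
      push_cast
      rfl
    simp only [h1]
    rw [Finset.sum_comm]
    refine Finset.sum_eq_zero fun x _ => ?_
    have h2 : ∑ z, ((b' x : ℂ) * (a (x⁻¹ * z) : ℂ)) • r z y =
        (b' x : ℂ) • r x (∑ u, (a u : ℂ) • r u y) := by
      rw [map_sum, Finset.smul_sum]
      refine Fintype.sum_equiv (Equiv.mulLeft x⁻¹) _ _ fun z => ?_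
      simp only [Equiv.coe_mulLeft, map_smul, ← Module.End.mul_apply, ← map_mul, mul_inv_cancel_left, smul_smul]
    rw [h2, hrel, map_zero, smul_zero]
  -- conclusion
  have hfin : ∑ x, r x y = ∑ x, ((1 - c x : B) : ℂ) • r x y := by
    have h1 : ∀ x, ((1 - c x : B) : ℂ) • r x y = r x y - (c x : ℂ) • r x y := by
      intro x
      push_cast
      rw [sub_smul, one_smul]
    simp only [h1]
    rw [Finset.sum_sub_distrib, hkey, sub_zero]
  rw [hfin]
  refine Submodule.sum_mem _ fun x _ => ?_
  exact Submodule.smul_mem_smul (hc x) (hL x y hy)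

end Trace

/-- Sums over a set with a free action: a submonoid containing all the orbit sums contains the
total sum. -/
theorem sum_mem_of_free {X : Type u} {Y : Type v} {A : Type w} [Group X] [Fintype X] [Fintype Y]
    [MulAction X Y] [AddCommMonoid A] (hfree : ∀ (x : X) (y : Y), x • y = y → x = 1) (f : Y → A)
    (T : AddSubmonoid A) (hT : ∀ y, ∑ x : X, f (x • y) ∈ T) : ∑ y, f y ∈ T := by
  classical
  haveI : Fintype (MulAction.orbitRel.Quotient X Y) := Fintype.ofFinite _
  let π : Y → MulAction.orbitRel.Quotient X Y := Quotient.mk _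
  rw [← Finset.sum_fiberwise Finset.univ π f]
  refine T.sum_mem fun ω _ => ?_
  have hmem : ∀ x : X, π (x • Quotient.out ω) = ω := by
    intro x
    have h : π (x • Quotient.out ω) = π (Quotient.out ω) :=
      Quotient.sound (MulAction.orbitRel_apply.mpr ⟨x, rfl⟩)
    rw [h]
    exact Quotient.out_eq ω
  have h2 : ∑ y with π y = ω, f y = ∑ x : X, f (x • Quotient.out ω) := by
    symm
    refine Finset.sum_bij (fun x _ => x • Quotient.out ω) ?_ ?_ ?_ ?_
    · intro x _
      simp [hmem x]
    · intro x _ x' _ h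
      have h3 : (x'⁻¹ * x) • Quotient.out ω = Quotient.out ω := by
        rw [mul_smul, h, inv_smul_smul]
      have h4 := hfree _ _ h3
      rw [inv_mul_eq_one] at h4
      exact h4.symm
    · intro y hy
      have h3 : π y = π (Quotient.out ω) := by
        rw [(Finset.mem_filter.mp hy).2]
        exact (Quotient.out_eq ω).symm
      obtain ⟨x, hx⟩ := MulAction.orbitRel_apply.mp (Quotient.exact h3)
      exact ⟨x, Finset.mem_univ _, hx⟩
    · intro x _
      rfl
  rw [h2]
  exact hT _

section Main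

variable {G : Type u} [Group G] [Fintype G] {p : ℕ} [hp : Fact p.Prime]
variable {W : Type v} [AddCommGroup W] [Module ℂ W]

/-- A TI Sylow subgroup `P` with normalizer `N`, `v` an `N`-fixed vector with zero sum over `G`, in a
`G`-stable space of dimension less than `|P|`: then `v = 0`. -/
theorem ti_fixed_eq_zero (P : Sylow p G)
    (hTI : ∀ g : G, g ∉ Subgroup.normalizer ((P : Subgroup G) : Set G) →
      ∀ x ∈ (P : Subgroup G), g⁻¹ * x * g ∈ (P : Subgroup G) → x = 1)
    (r : G →* Module.End ℂ W) (S : Submodule ℂ W) [FiniteDimensional ℂ S]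
    (hSr : ∀ g, ∀ w ∈ S, r g w ∈ S)
    (hdim : finrank ℂ S < Nat.card (P : Subgroup G)) {v : W} (hvS : v ∈ S)
    (hv : ∀ n ∈ Subgroup.normalizer ((P : Subgroup G) : Set G), r n v = v)
    (hsum : ∑ g, r g v = 0) : v = 0 := by
  classical
  obtain ⟨B, hpB⟩ := exists_valuation_p p
  set N : Subgroup G := Subgroup.normalizer ((P : Subgroup G) : Set G) with hN
  set L : Submodule B W := Submodule.span B (Set.range fun g : G => r g v) with hLdef
  have hLst : ∀ g : G, ∀ y ∈ L, r g y ∈ L := by
    intro g y hy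
    induction hy using Submodule.span_induction with
    | mem y hy =>
      obtain ⟨h, rfl⟩ := hy
      refine Submodule.subset_span ⟨g * h, ?_⟩
      simp
    | zero => simp
    | add a b _ _ ha hb => rw [map_add]; exact L.add_mem ha hb
    | smul b y _ hy =>
      have h1 : r g (b • y) = b • r g y := by
        show r g ((b : ℂ) • y) = (b : ℂ) • r g y
        rw [map_smul]
      rw [h1]
      exact L.smul_mem b hy
  have hmLst : ∀ g : G, ∀ y ∈ (IsLocalRing.maximalIdeal B) • L,
      r g y ∈ (IsLocalRing.maximalIdeal B) • L := by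
    intro g y hy
    induction hy using Submodule.smul_induction_on' with
    | smul m hm y hy =>
      have h1 : r g (m • y) = m • r g y := by
        show r g ((m : ℂ) • y) = (m : ℂ) • r g y
        rw [map_smul]
      rw [h1]
      exact Submodule.smul_mem_smul hm (hLst g y hy)
    | add a _ b _ ha hb =>
      rw [map_add]
      exact Submodule.add_mem _ ha hb
  -- the function on cosets
  let F : G ⧸ N → W := fun q => r q.out v
  have hF : ∀ g : G, F (g : G ⧸ N) = r g v := by
    intro g
    obtain ⟨h, hh⟩ := QuotientGroup.mk_out_eq_mul N g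
    show r (g : G ⧸ N).out v = r g v
    rw [hh, map_mul, Module.End.mul_apply, hv h h.2]
  haveI : Fintype (G ⧸ N) := Fintype.ofFinite _
  have hFsum : ∑ q, F q = 0 := by
    have h1 : ∑ g, r g v = ∑ x : (G ⧸ N) × N, F x.1 := by
      refine Fintype.sum_equiv (Subgroup.groupEquivQuotientProdSubgroup (s := N)) _ _ fun g => ?_
      rw [← hF g]
      rfl
    rw [Fintype.sum_prod_type, hsum] at h1
    simp only [Finset.sum_const, Finset.card_univ] at h1
    rw [← Finset.smul_sum, eq_comm] at h1
    have h2 : ((Fintype.card N : ℕ) : ℂ) • ∑ q, F q = 0 := by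
      rw [Nat.cast_smul_eq_nsmul]
      exact h1
    exact (smul_eq_zero.mp h2).resolve_left (by exact_mod_cast Fintype.card_ne_zero)
  -- the action of `P` on the other cosets
  let q₀ : G ⧸ N := ((1 : G) : G ⧸ N)
  let X := ↥(P : Subgroup G)
  have hPN : (P : Subgroup G) ≤ N := Subgroup.le_normalizer
  have hfix0 : ∀ x : X, (x : G) • q₀ = q₀ := by
    intro x
    have h1 : (x : G) • q₀ = (((x : G) * 1 : G) : G ⧸ N) := rfl
    rw [h1]
    refine QuotientGroup.eq.mpr ?_
    have : ((x : G) * 1)⁻¹ * 1 = (x : G)⁻¹ := by group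
    rw [this]
    exact N.inv_mem (hPN x.2)
  letI : MulAction X {q : G ⧸ N // q ≠ q₀} :=
    { smul := fun x q => ⟨(x : G) • q.1, fun h => q.2 (by
        have h2 := congrArg (fun a => ((x : G))⁻¹ • a) h
        simp only [inv_smul_smul] at h2
        rw [h2]
        have h3 := hfix0 x⁻¹
        rw [Subgroup.coe_inv] at h3
        exact h3)⟩
      one_smul := fun q => Subtype.ext (one_smul G q.1)
      mul_smul := fun x y q => Subtype.ext (mul_smul (x : G) (y : G) q.1) }
  have hsm : ∀ (x : X) (q : {q : G ⧸ N // q ≠ q₀}), ((x • q : {q : G ⧸ N // q ≠ q₀}) : G ⧸ N) =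
      (x : G) • q.1 := fun _ _ => rfl
  have hFrep : ∀ q : G ⧸ N, ((q.out : G) : G ⧸ N) = q := fun q => QuotientGroup.out_eq' q
  have hFsm : ∀ (x : X) (q : G ⧸ N), F ((x : G) • q) = r (x : G) (F q) := by
    intro x q
    have h1 : (x : G) • q = (((x : G) * q.out : G) : G ⧸ N) := by
      conv_lhs => rw [← hFrep q]
      rfl
    rw [h1, hF, map_mul, Module.End.mul_apply]
  have hfree : ∀ (x : X) (y : {q : G ⧸ N // q ≠ q₀}), x • y = y → x = 1 := by
    intro x y hxy
    have h1 : (x : G) • y.1 = y.1 := congrArg Subtype.val hxy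
    set g : G := y.1.out with hg
    have h2 : ((x : G) * g : G) = y.1.out * (g⁻¹ * ((x : G) * g)) := by
      rw [hg]; group
    have h3 : (((x : G) * g : G) : G ⧸ N) = (g : G ⧸ N) := by
      have h4 : (x : G) • ((g : G) : G ⧸ N) = (((x : G) * g : G) : G ⧸ N) := rfl
      rw [← h4, hg, hFrep, h1]
    have h5 : g⁻¹ * ((x : G) * g) ∈ N := by
      have := QuotientGroup.eq.mp h3.symm
      exact this
    have hgN : g ∉ N := by
      intro hc
      apply y.2
      rw [← hFrep y.1]
      refine QuotientGroup.eq.mpr ?_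
      have : (y.1.out)⁻¹ * 1 = g⁻¹ := by rw [hg]; group
      rw [this]
      exact N.inv_mem hc
    -- `g⁻¹ x g` lies in `P`
    let Q : Subgroup G := (P : Subgroup G).map (MulAut.conj g⁻¹).toMonoidHom
    have hQ : IsPGroup p Q := P.isPGroup'.map _
    have h6 : g⁻¹ * ((x : G) * g) ∈ Q := by
      refine ⟨x, x.2, ?_⟩
      simp [mul_assoc]
    have h7 : g⁻¹ * ((x : G) * g) ∈ Q ⊓ N := ⟨h6, h5⟩
    have h71 := (SetLike.ext_iff.mp (hQ.inf_normalizer_sylow P) _).mp h7
    have h8 : g⁻¹ * (x : G) * g ∈ (P : Subgroup G) := by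
      rw [mul_assoc]
      exact h71.2
    exact Subtype.ext (hTI g hgN (x : G) x.2 h8)
  -- `v` lies in `𝔪 L`
  have hvL : v ∈ (IsLocalRing.maximalIdeal B) • L := by
    have h1 : ∑ q, F q = F q₀ + ∑ q : {q : G ⧸ N // q ≠ q₀}, F q.1 :=
      Fintype.sum_eq_add_sum_subtype_ne F q₀
    have h2 : F q₀ = v := by
      rw [hF 1]
      simp
    rw [hFsum, h2] at h1
    have h3 : v = -∑ q : {q : G ⧸ N // q ≠ q₀}, F q.1 := by
      rw [eq_neg_iff_add_eq_zero]
      exact h1.symm
    rw [h3]
    refine Submodule.neg_mem _ ?_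
    haveI : Fintype X := Fintype.ofFinite _
    have h4 := sum_mem_of_free hfree (fun q : {q : G ⧸ N // q ≠ q₀} => F q.1)
      ((IsLocalRing.maximalIdeal B) • L).toAddSubmonoid ?_
    · exact h4
    · intro y
      have h5 : ∀ x : X, F (x • y).1 = r (x : G) (F y.1) := fun x => hFsm x y.1
      simp only [h5]
      let r' : X →* Module.End ℂ W := r.comp (P : Subgroup G).subtype
      have hy : F y.1 ∈ L := Submodule.subset_span ⟨y.1.out, rfl⟩
      have h6 := trace_mem_maxIdeal_smul (p := p) P.isPGroup' B hpB r' S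
        (by rwa [← Nat.card_eq_fintype_card]) L (fun x y hy => hLst (x : G) y hy) hy
        (fun x => hSr _ _ (hSr _ _ hvS))
      exact h6
  -- Nakayama
  have hle : L ≤ (IsLocalRing.maximalIdeal B) • L := by
    refine Submodule.span_le.mpr ?_
    rintro _ ⟨g, rfl⟩
    exact hmLst g v hvL
  have hbot : L = ⊥ := Submodule.eq_bot_of_le_smul_of_le_jacobson_bot _ L
    (Submodule.fg_span (Set.finite_range _)) hle (IsLocalRing.maximalIdeal_le_jacobson _)
  have hv1 : v ∈ L := Submodule.subset_span ⟨1, by simp⟩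
  rw [hbot] at hv1
  simpa using hv1

end Main

end Cfsg.Agent.H22
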